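import Mathlib

/-! `2`-groups with an abelian subgroup `C_{2^(n+2)} × C_2` of index two inverted modulo its
involutions. -/

set_option autoImplicit false
set_option linter.unusedSectionVars false

namespace Cfsg.Agent.Block

open Subgroup

variable {G : Type*} [Group G] [Finite G]

theorem two_of_card {P A : Subgroup G} (hA : A ≤ P) (hc : Nat.card P ≤ 2 * Nat.card A) :
    ∀ g ∈ P, ∀ g' ∈ P, g ∉ A → g' ∉ A → g * g' ∈ A := fun g hg g' hg' h h' => by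
  have h1 := card_mul_index (A.subgroupOf P)
  rw [Nat.card_congr (subgroupOfEquivOfLe hA).toEquiv] at h1
  have h2 : (A.subgroupOf P).index ≠ 1 := fun h2 =>
    h ((index_eq_one.1 h2).ge (mem_top (⟨g, hg⟩ : P)))
  have h3 : (A.subgroupOf P).index ≠ 0 := index_ne_zero_of_finite
  have h4 : (A.subgroupOf P).index ≤ 2 :=
    Nat.le_of_mul_le_mul_left (by rw [h1, mul_comm]; exact hc) (Nat.card_pos (α := A))
  exact (mul_mem_iff_of_index_two (H := A.subgroupOf P) (by omega) (a := ⟨g, hg⟩)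
    (b := ⟨g', hg'⟩)).2 (iff_of_false h h')

theorem card_le_of_two {P A : Subgroup G} (hA : A ≤ P)
    (h : ∀ g ∈ P, ∀ g' ∈ P, g ∉ A → g' ∉ A → g * g' ∈ A) : Nat.card P ≤ 2 * Nat.card A := by
  by_cases h0 : P ≤ A
  · have := card_le_of_le h0
    omega
  obtain ⟨g, hg, hgA⟩ := SetLike.not_le_iff_exists.1 h0
  have h1 := card_mul_index (A.subgroupOf P)
  rw [Nat.card_congr (subgroupOfEquivOfLe hA).toEquiv, index_eq_two_iff.2 ⟨⟨g, hg⟩, fun b => by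
    by_cases hb : (b : G) ∈ A
    · exact Or.inr ⟨hb, fun h2 => hgA ((mul_mem_cancel_left hb).1 h2)⟩
    · exact Or.inl ⟨h _ b.2 _ hg hb hgA, hb⟩⟩] at h1
  omega

theorem two_mul_card_le {P A : Subgroup G} (hA : A ≤ P) {g : G} (hg : g ∈ P) (hgA : g ∉ A) :
    2 * Nat.card A ≤ Nat.card P := by
  obtain ⟨k, hk⟩ := card_dvd_of_le hA
  have h1 : k ≠ 1 := fun h => hgA ((eq_of_le_of_card_ge hA (by rw [hk, h, mul_one])).ge hg)
  have h2 : k ≠ 0 := fun h => by simp [h, Nat.card_pos.ne'] at hk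
  rw [hk, mul_comm]
  exact Nat.mul_le_mul_left _ (by omega)

omit [Finite G] in
theorem conj_mem_of_two {P A : Subgroup G} (hA : A ≤ P)
    (h : ∀ g ∈ P, ∀ g' ∈ P, g ∉ A → g' ∉ A → g * g' ∈ A) {g a : G} (hg : g ∈ P) (ha : a ∈ A) :
    g * a * g⁻¹ ∈ A := by
  by_cases h1 : g ∈ A
  · exact mul_mem (mul_mem h1 ha) (inv_mem h1)
  · exact h _ (mul_mem hg (hA ha)) _ (inv_mem hg) (mt (mul_mem_cancel_right ha).1 h1)
      (mt inv_mem_iff.1 h1)

theorem exists_pow_of_mem {x y : G} (h : y ∈ zpowers x) : ∃ i : ℕ, y = x ^ i :=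
  let ⟨i, hi⟩ := mem_powers_iff_mem_zpowers.2 h; ⟨i, hi.symm⟩

omit [Finite G] in
theorem half_mul_half {x : G} {n : ℕ} (hx : orderOf x = 2 ^ (n + 1)) :
    x ^ 2 ^ n * x ^ 2 ^ n = 1 := by
  rw [← pow_add, ← two_mul, ← pow_succ', ← hx, pow_orderOf_eq_one]

omit [Finite G] in
theorem half_ne_one {x : G} {n : ℕ} (hx : orderOf x = 2 ^ (n + 1)) : x ^ 2 ^ n ≠ 1 :=
  pow_ne_one_of_lt_orderOf (by positivity) (hx ▸ Nat.pow_lt_pow_right one_lt_two n.lt_succ_self)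

omit [Finite G] in
theorem pow_of_sq_eq_one {w : G} (hw : w * w = 1) (i : ℕ) :
    (i % 2 = 0 ∧ w ^ i = 1) ∨ (i % 2 = 1 ∧ w ^ i = w) := by
  rw [← Nat.div_add_mod i 2, pow_add, pow_mul, sq, hw, one_pow, one_mul]
  rcases Nat.mod_two_eq_zero_or_one i with h | h <;> simp [h]

theorem eq_half {x y : G} {n : ℕ} (hx : orderOf x = 2 ^ (n + 1)) (hy : y ∈ zpowers x)
    (h : y * y = 1) : y = 1 ∨ y = x ^ 2 ^ n := by
  obtain ⟨i, rfl⟩ := exists_pow_of_mem hy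
  rw [← pow_add, ← two_mul, ← orderOf_dvd_iff_pow_eq_one, hx, pow_succ',
    Nat.mul_dvd_mul_iff_left two_pos] at h
  obtain ⟨j, rfl⟩ := h
  rw [pow_mul]
  exact (pow_of_sq_eq_one (half_mul_half hx) j).imp And.right And.right

theorem exists_pow_eq_half {x y : G} {n : ℕ} (hx : orderOf x = 2 ^ (n + 1)) (hy : y ∈ zpowers x)
    (h : y ≠ 1) : ∃ m : ℕ, y ^ m = x ^ 2 ^ n := by
  obtain ⟨j, -, hj⟩ := (Nat.dvd_prime_pow Nat.prime_two).1 (hx ▸ orderOf_dvd_of_mem_zpowers hy)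
  obtain _ | j := j
  · exact absurd (orderOf_eq_one_iff.1 hj) h
  · exact ⟨_, (eq_half hx (pow_mem hy _) (half_mul_half hj)).resolve_left (half_ne_one hj)⟩

/-- The configuration. -/
structure UD (P A : Subgroup G) (x u g₀ : G) (n : ℕ) : Prop where
  le : A ≤ P
  comm : ∀ a ∈ A, ∀ b ∈ A, a * b = b * a
  two : ∀ g ∈ P, ∀ g' ∈ P, g ∉ A → g' ∉ A → g * g' ∈ A
  gP : g₀ ∈ P
  gA : g₀ ∉ A
  xA : x ∈ A
  ord : orderOf x = 2 ^ (n + 2)
  uA : u ∈ A
  usq : u * u = 1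
  unot : u ∉ zpowers x
  gen : ∀ a ∈ A, a ∈ zpowers x ∨ a * u ∈ zpowers x
  cen : ∀ a ∈ A, g₀ * a = a * g₀ ↔ a * a = 1
  sqne : ∀ g ∈ P, g ∉ A → g * g ≠ x ^ 2 ^ (n + 1)

namespace UD

variable {P A : Subgroup G} {x u g₀ : G} {n : ℕ} (d : UD P A x u g₀ n) {a b g g' : G}
include d

local notation "v" => x ^ 2 ^ (n + 1)
local notation "τ" => x ^ 2 ^ n
local notation "c" => τ * g₀ * τ⁻¹ * g₀⁻¹

theorem vsq : v * v = 1 := half_mul_half d.ord

theorem v_ne : v ≠ 1 := half_ne_one d.ord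

theorem vA : v ∈ A := pow_mem d.xA _

theorem tA : τ ∈ A := pow_mem d.xA _

omit d in
theorem tsq : τ * τ = v := by rw [← pow_add, ← two_mul, ← pow_succ']

theorem conj_mem (hg : g ∈ P) (ha : a ∈ A) : g * a * g⁻¹ ∈ A := conj_mem_of_two d.le d.two hg ha

theorem mul_notMem (ha : a ∈ A) (hg : g ∉ A) : a * g ∉ A := mt (mul_mem_cancel_left ha).1 hg

theorem conj_self (ha : a ∈ A) (hb : b ∈ A) : b * a * b⁻¹ = a := by
  rw [d.comm b hb a ha, mul_inv_cancel_right]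

theorem conj_eq (hg : g ∈ P) (hgA : g ∉ A) (ha : a ∈ A) : g * a * g⁻¹ = g₀ * a * g₀⁻¹ := by
  have h1 := d.two g hg _ (inv_mem d.gP) hgA (mt inv_mem_iff.1 d.gA)
  rw [← d.conj_self (d.conj_mem d.gP ha) h1]
  group

theorem cen' (hg : g ∈ P) (hgA : g ∉ A) (ha : a ∈ A) : g * a = a * g ↔ a * a = 1 := by
  rw [← d.cen a ha, ← mul_inv_eq_iff_eq_mul, d.conj_eq hg hgA ha, mul_inv_eq_iff_eq_mul]

theorem central (ha : a ∈ A) (h : a * a = 1) (hg : g ∈ P) : g * a = a * g := by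
  by_cases h1 : g ∈ A
  exacts [d.comm _ h1 _ ha, (d.cen' hg h1 ha).2 h]

theorem le_centralizer (ha : a ∈ A) (h : a * a = 1) : P ≤ centralizer {a} := fun _ hg =>
  mem_centralizer_singleton_iff.2 (d.central ha h hg)

theorem omega (ha : a ∈ A) (h : a * a = 1) : a = 1 ∨ a = v ∨ a = u ∨ a = u * v := by
  rcases d.gen a ha with h1 | h1
  · rcases eq_half d.ord h1 h with h2 | h2 <;> simp [h2]
  · have h2 : a = u * (a * u) := by
      rw [d.comm _ ha _ d.uA, ← mul_assoc, d.usq, one_mul]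
    rcases eq_half d.ord h1 (by
      rw [mul_assoc, ← mul_assoc u, ← d.comm _ ha _ d.uA, mul_assoc a u u, d.usq, mul_one, h])
      with h3 | h3 <;> rw [h3] at h2 <;> simp [h2]

theorem mul_sq (ha : a ∈ A) (hb : b ∈ A) : a * b * (a * b) = a * a * (b * b) := by
  rw [mul_assoc, ← mul_assoc b, d.comm _ hb _ ha]
  group

theorem sq_mem (ha : a ∈ A) : ∃ y ∈ zpowers x, a * a = y * y := by
  rcases d.gen a ha with h1 | h1
  · exact ⟨a, h1, rfl⟩
  · exact ⟨_, h1, by rw [d.mul_sq ha d.uA, d.usq, mul_one]⟩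

theorem sq_eq_v (ha : a ∈ A) (h : a * a ≠ 1) (h' : a * a * (a * a) = 1) : a * a = v := by
  obtain ⟨y, hy, h1⟩ := d.sq_mem ha
  exact (eq_half d.ord (h1 ▸ mul_mem hy hy) h').resolve_left h

theorem exists_pow_eq_v (ha : a ∈ A) (h : a * a ≠ 1) : ∃ m : ℕ, a ^ m = v := by
  obtain ⟨y, hy, h1⟩ := d.sq_mem ha
  obtain ⟨m, hm⟩ := exists_pow_eq_half d.ord (h1 ▸ mul_mem hy hy) h
  exact ⟨2 * m, by rw [pow_mul, sq, hm]⟩

theorem out_sq (hg : g ∈ P) (hgA : g ∉ A) : g * g ∈ A ∧ g * g * (g * g) = 1 :=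
  ⟨d.two g hg g hg hgA hgA, (d.cen' hg hgA (d.two g hg g hg hgA hgA)).1 (mul_assoc _ _ _).symm⟩

theorem inf_centralizer (ha : a ∈ A) (h : a * a ≠ 1) : P ⊓ centralizer {a} = A :=
  le_antisymm (fun g hg => by_contra fun h1 =>
    h ((d.cen' hg.1 h1 ha).1 (mem_centralizer_singleton_iff.1 hg.2)))
    fun b hb => ⟨d.le hb, mem_centralizer_singleton_iff.2 (d.comm _ hb _ ha)⟩

theorem card_A : Nat.card A = 2 ^ (n + 3) := by
  have h1 : zpowers x ≤ A := zpowers_le.2 d.xA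
  have h2 := two_mul_card_le h1 d.uA d.unot
  have h3 := card_le_of_two h1 fun a ha b hb h h' => by
    have := mul_mem ((d.gen a ha).resolve_left h) ((d.gen b hb).resolve_left h')
    rwa [mul_assoc, ← mul_assoc u, ← d.comm _ hb _ d.uA, mul_assoc b u u, d.usq, mul_one] at this
  rw [Nat.card_zpowers, d.ord, ← pow_succ'] at h2 h3
  exact le_antisymm h3 h2

theorem card_P : Nat.card P = 2 ^ (n + 4) := by
  have h2 := two_mul_card_le d.le d.gP d.gA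
  have h3 := card_le_of_two d.le d.two
  rw [d.card_A, ← pow_succ'] at h2 h3
  exact le_antisymm h3 h2

theorem comm_mem (hg : g ∈ P) (ha : a ∈ A) : a * g * a⁻¹ * g⁻¹ ∈ A := by
  rw [mul_assoc, mul_assoc, ← mul_assoc g]
  exact mul_mem ha (d.conj_mem hg (inv_mem ha))

theorem comm_sq (hg : g ∈ P) (ha : a ∈ A) :
    a * g * a⁻¹ * g⁻¹ * (a * g * a⁻¹ * g⁻¹) = a * a * g * (a * a)⁻¹ * g⁻¹ := by
  have := d.mul_sq ha (d.conj_mem hg (inv_mem ha))
  simpa only [mul_assoc, mul_inv_rev, inv_mul_cancel_left] using this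

theorem comm_t (hg : g ∈ P) (hgA : g ∉ A) : τ * g * τ⁻¹ * g⁻¹ = c := by
  rw [mul_assoc, mul_assoc, ← mul_assoc g, d.conj_eq hg hgA (inv_mem d.tA)]
  group

theorem cA : c ∈ A := d.comm_mem d.gP d.tA

theorem csq : c * c = 1 := by
  rw [d.comm_sq d.gP d.tA, tsq, ← d.central d.vA d.vsq d.gP]
  group

theorem c_ne : c ≠ 1 := fun h => d.v_ne (by
  rw [← tsq, ← d.cen _ d.tA, eq_comm, ← mul_inv_eq_iff_eq_mul, ← mul_inv_eq_one, h])

theorem comm_eq_c (hg : g ∈ P) (hgA : g ∉ A) (ha : a ∈ A) (h1 : a * g * a⁻¹ * g⁻¹ ≠ 1)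
    (h2 : a * g * a⁻¹ * g⁻¹ * (a * g * a⁻¹ * g⁻¹) = 1) : a * g * a⁻¹ * g⁻¹ = c := by
  rw [d.comm_sq hg ha, mul_inv_eq_one, mul_inv_eq_iff_eq_mul] at h2
  have h3 := d.sq_eq_v ha (fun h => h1 (by rw [← (d.cen' hg hgA ha).2 h]; group))
    ((d.cen' hg hgA (mul_mem ha ha)).1 h2.symm)
  have h4 := mul_mem (inv_mem d.tA) ha
  have h5 := d.central h4 (by rw [d.mul_sq (inv_mem d.tA) ha, ← mul_inv_rev, tsq, h3,
    inv_mul_cancel]) hg
  rw [← d.comm_t hg hgA]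
  calc _ = τ * (τ⁻¹ * a * g) * (τ⁻¹ * a)⁻¹ * τ⁻¹ * g⁻¹ := by group
    _ = _ := by rw [← h5]; group

theorem comm_eq_c' (hg : g ∈ P) (hg' : g' ∈ P) (h1 : g * g' * g⁻¹ * g'⁻¹ ≠ 1)
    (h2 : g * g' * g⁻¹ * g'⁻¹ * (g * g' * g⁻¹ * g'⁻¹) = 1) : g * g' * g⁻¹ * g'⁻¹ = c := by
  have key : ∀ g ∈ P, g ∉ A → ∀ a ∈ A, g * a * g⁻¹ * a⁻¹ ≠ 1 →
      g * a * g⁻¹ * a⁻¹ * (g * a * g⁻¹ * a⁻¹) = 1 → g * a * g⁻¹ * a⁻¹ = c :=
    fun g hg hgA a ha h1 h2 => by
      have e : a * g * a⁻¹ * g⁻¹ = g * a * g⁻¹ * a⁻¹ := by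
        rw [eq_inv_of_mul_eq_one_left h2]; group
      exact e ▸ d.comm_eq_c hg hgA ha (e ▸ h1) (e ▸ h2)
  by_cases h : g ∈ A <;> by_cases h' : g' ∈ A
  · exact absurd (by rw [d.comm _ h _ h']; group) h1
  · exact d.comm_eq_c hg' h' h h1 h2
  · exact key g hg h g' h' h1 h2
  · have h3 := d.two _ hg' _ (inv_mem hg) h' (mt inv_mem_iff.1 h)
    have e : g * g' * g⁻¹ * g'⁻¹ = g * (g' * g⁻¹) * g⁻¹ * (g' * g⁻¹)⁻¹ := by group
    rw [e] at h1 h2 ⊢
    exact key g hg h _ h3 h1 h2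

theorem conj_c {y : G} (hy : y ∈ normalizer (P : Set G)) : y * c * y⁻¹ = c := by
  have e : y * c * y⁻¹ = y * τ * y⁻¹ * (y * g₀ * y⁻¹) * (y * τ * y⁻¹)⁻¹ * (y * g₀ * y⁻¹)⁻¹ := by
    group
  have h1 : y * c * y⁻¹ ≠ 1 := by simpa using d.c_ne
  have h2 : y * c * y⁻¹ * (y * c * y⁻¹) = 1 := by rw [conj_mul, d.csq]; simp
  rw [e] at h1 h2 ⊢
  exact d.comm_eq_c' ((mem_normalizer_iff.1 hy _).1 (d.le d.tA))
    ((mem_normalizer_iff.1 hy _).1 d.gP) h1 h2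

theorem sq_ne_c (hg : g ∈ P) (hgA : g ∉ A) : g * g ≠ c := fun h =>
  d.sqne _ (mul_mem (d.le d.tA) hg) (d.mul_notMem d.tA hgA) (by
    have h1 := d.comm_t hg hgA
    rw [← h, mul_inv_eq_iff_eq_mul, mul_inv_eq_iff_eq_mul] at h1
    have h2 := d.central (d.out_sq hg hgA).1 (d.out_sq hg hgA).2 (d.le d.tA)
    calc τ * g * (τ * g) = τ * (g * τ) * g := by group
      _ = τ * (g * g * (τ * g)) * g := by rw [h1, ← mul_assoc (g * g), ← mul_assoc (g * g),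
        mul_assoc (g * g) (g * g), ← mul_assoc (g * g), (d.out_sq hg hgA).2, one_mul]
      _ = τ * τ * (g * g * (g * g)) := by rw [← mul_assoc (g * g), ← h2]; group
      _ = v := by rw [(d.out_sq hg hgA).2, mul_one, tsq])

theorem norm_sq (hg : g ∈ P) (hgA : g ∉ A) (ha : a ∈ A) :
    a * (g * a * g⁻¹) * (a * (g * a * g⁻¹)) = 1 := by
  rw [← d.cen' hg hgA (mul_mem ha (d.conj_mem hg ha)), ← mul_inv_eq_iff_eq_mul,
    d.comm _ ha _ (d.conj_mem hg ha)]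
  have := d.conj_self ha (d.out_sq hg hgA).1
  calc _ = g * g * a * (g * g)⁻¹ * (g * a * g⁻¹) := by group
    _ = _ := by rw [this, d.comm _ ha _ (d.conj_mem hg ha)]

theorem conj_sq (hg : g ∈ P) (hgA : g ∉ A) (ha : a ∈ A) : g * (a * a) * g⁻¹ = (a * a)⁻¹ := by
  have := d.norm_sq hg hgA ha
  rw [d.mul_sq ha (d.conj_mem hg ha), conj_mul] at this
  exact eq_inv_of_mul_eq_one_right this

theorem c_eq_v (hn : n ≠ 0) : c = v := by
  obtain ⟨m, rfl⟩ := Nat.exists_eq_succ_of_ne_zero hn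
  have h1 := d.conj_sq d.gP d.gA (inv_mem (pow_mem d.xA (2 ^ m)))
  rw [← mul_inv_rev, tsq, inv_inv] at h1
  rw [mul_assoc, mul_assoc, ← mul_assoc g₀, h1, tsq]

/-- Two involutions outside the subgroup generated by a third one. -/
theorem eq_or_eq_mul {w : G} (hw : w ∈ A) (h1 : w * w = 1) (h2 : w ≠ 1) (ha : a ∈ A)
    (ha' : a * a = 1) (hb : b ∈ A) (hb' : b * b = 1) (h3 : a ≠ 1) (h4 : a ≠ w) (h5 : b ≠ 1)
    (h6 : b ≠ w) : b = a ∨ b = w * a := by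
  have e1 : v * u = u * v := d.comm _ d.vA _ d.uA
  have e2 : u * (u * v) = v := by rw [← mul_assoc, d.usq, one_mul]
  have e3 : v * (u * v) = u := by rw [← mul_assoc, e1, mul_assoc, d.vsq, mul_one]
  have e4 : u * v * u = v := by rw [mul_assoc, e1, e2]
  have e5 : u * v * v = u := by rw [mul_assoc, d.vsq, mul_one]
  rcases d.omega hw h1 with e | e | e | e <;> rcases d.omega ha ha' with f | f | f | f <;>
    rcases d.omega hb hb' with k | k | k | k <;> simp_all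

theorem swap {w : G} (hw : w ∈ A) (h1 : w * w = 1) (h2 : w ∉ zpowers x) : UD P A x w g₀ n :=
  { d with
    uA := hw
    usq := h1
    unot := h2
    gen := fun a ha => (d.gen a ha).imp_right fun h => by
      have := mul_mem h ((d.gen w hw).resolve_left h2)
      rwa [mul_assoc, ← mul_assoc u, ← d.comm _ hw _ d.uA, mul_assoc w u u, d.usq,
        mul_one] at this }

theorem uv_not : u * v ∉ zpowers x := mt (mul_mem_cancel_right (pow_mem (mem_zpowers x) _)).1 d.unot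

end UD

end Cfsg.Agent.Block
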