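import Mathlib
import Cfsg.Agent.Block.UDGrp

/-! Central quotients of `2`-groups with a cyclic subgroup of index at most four. -/

set_option autoImplicit false
set_option linter.unusedSectionVars false

namespace Cfsg.Agent.Block

open Subgroup

universe v

/-- The possible central quotients. -/
def CycFourQuot {Q : Type*} [Group Q] (P : Subgroup Q) : Prop :=
  Nat.card P ≤ 4 ∨ (∃ y ∈ P, Nat.card P ≤ 2 * orderOf y) ∨
    ((∀ a ∈ P, ∀ b ∈ P, a * b = b * a) ∧
      ∃ u w, ∀ a ∈ P, a * a = 1 → a = 1 ∨ a = w ∨ a = u ∨ a = u * w) ∨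
    ∃ A x u g n, UD P A x u g n

namespace Cyc4

variable {D : Type*} [Group D] [Finite D] {Q : Type v} [Group Q] [Finite Q] {π : D →* Q}
  {x a b g : D} {n : ℕ} {H : Subgroup D}

theorem good_of_two (y : D) (hH : ∀ b ∈ H, π b ∈ zpowers (π y))
    (two : ∀ g g', g ∉ H → g' ∉ H → g * g' ∈ H) : CycFourQuot π.range :=
  Or.inr (Or.inl ⟨π y, ⟨y, rfl⟩, Nat.card_zpowers (π y) ▸ card_le_of_two (zpowers_le.2 ⟨y, rfl⟩) (by
    rintro _ ⟨g, rfl⟩ _ ⟨g', rfl⟩ h h'
    exact map_mul π g g' ▸ hH _ (two g g' (mt (hH g) h) (mt (hH g') h')))⟩)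

theorem map_mem (hb : b ∈ zpowers x) : π b ∈ zpowers (π x) :=
  MonoidHom.map_zpowers π x ▸ mem_map_of_mem π hb

omit [Finite D] in
theorem mem_center (two : ∀ g g', g ∉ H → g' ∉ H → g * g' ∈ H) (hg : g ∉ H)
    (h1 : ∀ a ∈ H, a * b = b * a) (h2 : g * b = b * g) : b ∈ center D := mem_center_iff.2 fun y => by
  by_cases h : y ∈ H
  · exact h1 y h
  · have := h1 _ (two y g h hg)
    rwa [mul_assoc, h2, ← mul_assoc, ← mul_assoc, mul_left_inj] at this

theorem mem_zpowers_pow (hx : orderOf x = 2 ^ n) {i : ℕ} (hi : i % 2 = 1) :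
    x ∈ zpowers (x ^ i) := mem_zpowers_pow_iff.2 (by
  rw [hx]; exact Nat.Coprime.pow_right _ (Nat.coprime_two_right.2 (Nat.odd_iff.2 hi)))

theorem ord_sq (hx : orderOf x = 2 ^ (n + 1)) : orderOf (x * x) = 2 ^ n := by
  rw [← sq, orderOf_pow' _ two_ne_zero, hx, pow_succ, Nat.gcd_mul_left_left,
    Nat.mul_div_cancel _ two_pos]

omit [Finite D] in
theorem omega_of {u : Q} {y : Q} (hy : orderOf y = 2 ^ (n + 1)) (hu : u * u = 1) {a : Q}
    (hc : a * u = u * a) (ha : a * a = 1) (h : a ∈ zpowers y ∨ a * u ∈ zpowers y) :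
    a = 1 ∨ a = y ^ 2 ^ n ∨ a = u ∨ a = u * y ^ 2 ^ n := by
  rcases h with h1 | h1
  · rcases eq_half hy h1 ha with h2 | h2 <;> simp [h2]
  · have h2 : a = u * (a * u) := by rw [hc, ← mul_assoc, hu, one_mul]
    rcases eq_half hy h1 (by rw [mul_assoc, ← mul_assoc u, ← hc, mul_assoc a u u, hu, mul_one, ha])
      with h3 | h3 <;> rw [h3] at h2 <;> simp [h2]

theorem four_le (hD : IsPGroup 2 D) (h : π (g * g) ≠ 1) : ∃ k, orderOf (π g) = 2 ^ (k + 2) := by
  obtain ⟨j, hj⟩ := hD g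
  obtain ⟨i, -, hi⟩ := (Nat.dvd_prime_pow Nat.prime_two).1
    ((orderOf_map_dvd π g).trans (orderOf_dvd_of_pow_eq_one hj))
  refine ⟨i - 2, hi.trans (congrArg _ (Nat.sub_add_cancel (not_lt.1 fun h1 => h ?_)).symm)⟩
  rw [map_mul, ← sq, ← orderOf_dvd_iff_pow_eq_one, hi]
  exact pow_dvd_pow 2 (show i ≤ 1 by omega)

variable (hc : Nat.card D ≤ 4 * orderOf x)
include hc

theorem two_out (hx : x ∈ H) (ha : a ∈ H) (haC : a ∉ zpowers x) :
    ∀ g g', g ∉ H → g' ∉ H → g * g' ∈ H := fun g g' => two_of_card le_top (by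
  have := two_mul_card_le (zpowers_le.2 hx) ha haC
  rw [Nat.card_zpowers] at this
  rw [card_top]
  omega) g trivial g' trivial

theorem two_in (hx : x ∈ H) (hg : g ∉ H) :
    ∀ a ∈ H, ∀ b ∈ H, a ∉ zpowers x → b ∉ zpowers x → a * b ∈ zpowers x :=
  two_of_card (zpowers_le.2 hx) (by
    have := two_mul_card_le le_top (mem_top g) hg
    rw [card_top] at this
    rw [Nat.card_zpowers]
    omega)

theorem good_of_notMem {z : D} (hz : z ∉ zpowers x) (hπ : π.ker = zpowers z) : CycFourQuot π.range :=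
  good_of_two (H := (zpowers (π x)).comap π) x (fun _ h => h)
    (two_out hc (mem_zpowers _) (a := z) (by
      rw [mem_comap, (MonoidHom.mem_ker).1 (hπ.ge (mem_zpowers z))]; exact one_mem _) hz)

variable (hx : orderOf x = 2 ^ (n + 1)) (hZ : center D ≤ zpowers x) (hπ : π.ker = center D)
  (hG : ¬ CycFourQuot π.range)
include hx hZ hπ hG

omit hx hZ hG in
theorem card_le {m : ℕ} (h : x ^ m ∈ center D) (hm : m ≠ 0) : Nat.card π.range ≤ 4 * m := by
  have h1 := card_mul_index π.ker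
  have h2 := card_le_of_le (zpowers_le.2 h)
  have h3 := orderOf_le_of_pow_eq_one (x := x) (n := m * orderOf (x ^ m))
    (Nat.mul_pos (Nat.pos_of_ne_zero hm) (orderOf_pos _)) (by rw [pow_mul, pow_orderOf_eq_one])
  rw [index_ker, hπ] at h1
  rw [Nat.card_zpowers] at h2
  refine Nat.le_of_mul_le_mul_left (h1.trans_le (hc.trans ?_)) Nat.card_pos
  nlinarith

omit hc hπ hG in
theorem half_mem (hD : IsPGroup 2 D) : x ^ 2 ^ n ∈ center D := by
  have : Nontrivial D := nontrivial_of_ne _ _ (half_ne_one hx)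
  have := hD.center_nontrivial
  obtain ⟨z, hz⟩ := exists_ne (1 : center D)
  obtain ⟨m, hm⟩ := exists_pow_eq_half hx (hZ z.2) (by simpa using hz)
  exact hm ▸ pow_mem z.2 m

theorem mem_of_comm (ha : a * x = x * a) : a ∈ zpowers x := by
  by_contra haC
  have hxK : x ∈ centralizer {x} := mem_centralizer_singleton_iff.2 rfl
  have haK : a ∈ centralizer {x} := mem_centralizer_singleton_iff.2 ha
  have two := two_out hc hxK haK haC
  obtain ⟨g, hg⟩ : ∃ g, g ∉ centralizer {x} := not_forall.1 fun h => hG (Or.inl (card_le hc hπ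
    (m := 1) (mem_center_iff.2 fun g => by simpa using mem_centralizer_singleton_iff.1 (h g))
    one_ne_zero))
  have two' := two_in hc hxK hg
  have k1 : ∀ b ∈ centralizer {x}, ∀ y ∈ zpowers x, b * y = y * b := fun b hb y hy => by
    obtain ⟨i, rfl⟩ := exists_pow_of_mem hy
    exact Commute.pow_right (mem_centralizer_singleton_iff.1 hb) i
  have comm : ∀ b ∈ centralizer {x}, ∀ b' ∈ centralizer {x}, b * b' = b' * b := fun b hb b' hb' => by
    by_cases h : b ∈ zpowers x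
    · exact (k1 b' hb' b h).symm
    by_cases h' : b' ∈ zpowers x
    · exact k1 b hb b' h'
    have := k1 b hb _ (two' b hb b' hb' h h')
    rwa [mul_assoc, mul_right_inj] at this
  have cj : ∀ b ∈ centralizer {x}, g * b * g⁻¹ ∈ centralizer {x} := fun b =>
    conj_mem_of_two le_top (fun g _ g' _ => two g g') (mem_top g)
  have cen : ∀ b ∈ centralizer {x}, g * b * g⁻¹ = b → b ∈ zpowers x := fun b hb h =>
    hZ (mem_center two hg (fun a ha => comm a ha b hb) (mul_inv_eq_iff_eq_mul.1 h))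
  have nrm : ∀ b ∈ centralizer {x}, b * (g * b * g⁻¹) ∈ zpowers x := fun b hb =>
    cen _ (mul_mem hb (cj b hb)) (by
      calc _ = g * b * g⁻¹ * (g * g * b * (g * g)⁻¹) := by group
        _ = _ := by rw [comm _ (two g g hg hg) b hb, mul_inv_cancel_right, comm _ (cj b hb) b hb])
  obtain ⟨i, hi⟩ := exists_pow_of_mem (two' a haK a haK haC haC)
  rcases Nat.even_or_odd' i with ⟨j, rfl | rfl⟩
  swap
  · have h1 : zpowers x ≤ zpowers a := zpowers_le.2 (zpowers_le.2
      (mul_mem (mem_zpowers a) (mem_zpowers a)) (hi ▸ mem_zpowers_pow hx (by omega)))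
    refine hG (good_of_two a (fun b hb => map_mem ?_) two)
    by_cases h : b ∈ zpowers x
    exacts [h1 h, (mul_mem_cancel_right (mem_zpowers a)).1 (h1 (two' b hb a haK h haC))]
  have hj := pow_mem (mem_zpowers x) j
  obtain ⟨u, hu, huC, hu2⟩ : ∃ u ∈ centralizer {x}, u ∉ zpowers x ∧ u * u = 1 :=
    ⟨a * (x ^ j)⁻¹, mul_mem haK (inv_mem (pow_mem hxK j)),
      mt (mul_mem_cancel_right (inv_mem hj)).1 haC, by
      rw [mul_assoc, ← mul_assoc _ a, ← k1 a haK _ (inv_mem hj), ← mul_assoc, ← mul_assoc, hi]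
      group⟩
  have e : g * u * g⁻¹ = u * (u * (g * u * g⁻¹)) := by rw [← mul_assoc u u, hu2, one_mul]
  have h1 := (eq_half hx (nrm u hu) (by
    rw [mul_assoc, ← mul_assoc _ u, comm _ (cj u hu) u hu, mul_assoc, conj_mul, hu2]
    simpa using hu2)).resolve_left fun h => huC (cen u hu (by rw [e, h, mul_one]))
  have h2 := (mul_mem_cancel_left (mem_zpowers x)).1 (nrm x hxK)
  obtain ⟨m, hm⟩ := exists_pow_eq_half hx (mul_mem h2 (inv_mem (mem_zpowers x))) fun h =>
    hg (mem_centralizer_singleton_iff.2 (mul_inv_eq_iff_eq_mul.1 (mul_inv_eq_one.1 h)))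
  refine huC ((mul_mem_cancel_right (pow_mem (mem_zpowers x) m)).1
    (cen _ (mul_mem hu (pow_mem hxK m)) ?_))
  rw [← conj_mul, ← conj_pow, ← inv_mul_cancel_right (g * x * g⁻¹) x,
    Commute.mul_pow (comm _ (mul_mem (cj x hxK) (inv_mem hxK)) x hxK), hm, e, h1, mul_assoc,
    ← mul_assoc _ _ (x ^ m), half_mul_half hx, one_mul]

theorem sq_notMem (hD : IsPGroup 2 D) : x * x ∉ center D := fun h => by
  by_cases hall : ∀ g : D, g * g ∈ center D
  swap
  · obtain ⟨g, hg⟩ := not_forall.1 hall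
    obtain ⟨k, hk⟩ := four_le (π := π) hD (mt (fun h => hπ.le h) hg)
    refine hG (Or.inr (Or.inl ⟨π g, ⟨g, rfl⟩, (card_le hc hπ (sq x ▸ h) two_ne_zero).trans ?_⟩))
    rw [hk, pow_add]
    nlinarith [Nat.two_pow_pos k]
  have k1 : ∀ g ∉ zpowers x, g * x * g⁻¹ = x ^ 2 ^ n * x := fun g hg => by
    have h1 : g * x * g⁻¹ * x⁻¹ ∈ center D := by
      convert mul_mem (mul_mem (hall (g * x)) (hall (x⁻¹ * g⁻¹ * x))) (hall x⁻¹) using 1
      group
    rw [← (eq_half hx (hZ h1) ?_).resolve_left fun h2 => hg (mem_of_comm hc hx hZ hπ hG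
      (mul_inv_eq_iff_eq_mul.1 (mul_inv_eq_one.1 h2))), inv_mul_cancel_right]
    calc _ = g * x * g⁻¹ * (x⁻¹ * (g * x * g⁻¹ * x⁻¹)) := by group
      _ = g * (x * x) * g⁻¹ * (x * x)⁻¹ := by rw [mem_center_iff.1 h1]; group
      _ = 1 := by rw [mem_center_iff.1 h]; group
  refine hG (good_of_two x (fun b => map_mem) fun g g' hg hg' =>
    mem_of_comm hc hx hZ hπ hG (mul_inv_eq_iff_eq_mul.1 ?_))
  have hw := mem_center_iff.1 (half_mem hx hZ hD)
  calc _ = g * (g' * x * g'⁻¹) * g⁻¹ := by group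
    _ = x ^ 2 ^ n * (g * x * g⁻¹) := by rw [k1 g' hg', ← mul_assoc, hw g]; group
    _ = x := by rw [k1 g hg, ← mul_assoc, half_mul_half hx, one_mul]

theorem exists_comm_sq (hD : IsPGroup 2 D) : ∃ a ∉ zpowers x, a * (x * x) = x * x * a := by
  by_cases hn : ∀ g : D, g * x * g⁻¹ ∈ zpowers x
  · choose r hr using fun g => exists_pow_of_mem (hn g)
    have odd : ∀ g, r g % 4 = 1 ∨ r g % 4 = 3 := fun g => by
      have h1 : r g % 2 = 1 := Nat.mod_two_ne_zero.1 fun h1 => half_ne_one hx (by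
        obtain ⟨j, hj⟩ := Nat.dvd_of_mod_eq_zero h1
        have h2 : g * x ^ 2 ^ n * g⁻¹ = 1 := by
          rw [← conj_pow, hr, ← pow_mul, mul_comm, pow_mul, hj, pow_mul, sq, half_mul_half hx,
            one_pow]
        simpa using h2)
      omega
    have mul : ∀ g g' i j, g * x * g⁻¹ = x ^ i → g' * x * g'⁻¹ = x ^ j →
        g * g' * x * (g * g')⁻¹ = x ^ (i * j) := fun g g' i j h h' => by
      calc _ = g * (g' * x * g'⁻¹) * g⁻¹ := by group
        _ = _ := by rw [h', ← conj_pow, h, pow_mul]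
    obtain ⟨h, h1, i, h2, h3⟩ : ∃ h ∉ zpowers x, ∃ i, i % 4 = 1 ∧ h * x * h⁻¹ = x ^ i := by
      by_contra! h0
      have h1 := fun g hg => (odd g).resolve_left fun h => h0 g hg _ h (hr g)
      exact hG (good_of_two x (fun b => map_mem) fun g g' hg hg' => of_not_not fun h =>
        h0 _ h _ (by rw [Nat.mul_mod, h1 g hg, h1 g' hg']) (mul g g' _ _ (hr g) (hr g')))
    obtain ⟨m, hm⟩ := hD h
    induction m generalizing h i with
    | zero => exact absurd (by simp [show h = 1 by simpa using hm]) h1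
    | succ m ih =>
      by_cases h4 : h * h ∈ zpowers x
      swap
      · exact ih (h * h) h4 (i * i) (by rw [Nat.mul_mod, h2]) (mul h h i i h3 h3)
          (by rwa [← sq, ← pow_mul, ← pow_succ'])
      obtain ⟨j, hj⟩ := exists_pow_of_mem h4
      have h5 := mul h h i i h3 h3
      rw [hj, ((Commute.refl x).pow_left j).eq, mul_inv_cancel_right] at h5
      have h6 : Commute h ((x * x) ^ (2 * (i / 4) + 1)) := mul_inv_eq_iff_eq_mul.1 (by
        rw [← sq, ← pow_mul, show 2 * (2 * (i / 4) + 1) = i + 1 by omega, ← conj_pow, h3, ← pow_mul,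
          mul_add, pow_add, ← h5, mul_one, pow_succ'])
      obtain ⟨l, hl⟩ := exists_pow_of_mem (mem_zpowers_pow (ord_sq hx)
        (i := 2 * (i / 4) + 1) (by omega))
      exact ⟨h, h1, by rw [hl]; exact h6.pow_right l⟩
  obtain ⟨g, hg⟩ := not_forall.1 hn
  have hxN : x ∈ normalizer (zpowers x : Set D) := le_normalizer (mem_zpowers x)
  have hgN : g ∉ normalizer (zpowers x : Set D) := fun h =>
    hg ((mem_normalizer_iff.1 h x).1 (mem_zpowers x))
  have := hD.isNilpotent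
  obtain ⟨a, ha, haC⟩ := SetLike.exists_of_lt (Group.normalizerCondition_of_isNilpotent (zpowers x)
    (lt_top_iff_ne_top.2 fun h => hg (h.ge (mem_top _))))
  have h1 := conj_mem_of_two le_top (fun g _ g' _ => two_out hc hxN ha haC g g') (mem_top g) hxN
  have h2 := two_in hc hxN hgN _ h1 _ h1 hg hg
  refine ⟨_, hg, ?_⟩
  have h3 : zpowers (g * x * g⁻¹ * (g * x * g⁻¹)) = zpowers (x * x) := by
    have h3 : orderOf (g * x * g⁻¹ * (g * x * g⁻¹)) = orderOf (x * x) := by
      rw [conj_mul]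
      exact orderOf_injective (MulAut.conj g).toMonoidHom (MulAut.conj g).injective _
    obtain ⟨i, hi⟩ := exists_pow_of_mem h2
    refine eq_of_le_of_card_ge (zpowers_le.2 ?_) (by rw [Nat.card_zpowers, Nat.card_zpowers, h3])
    rcases Nat.even_or_odd' i with ⟨j, rfl | rfl⟩
    · rw [hi, pow_mul, sq]
      exact pow_mem (mem_zpowers _) j
    · have h4 := orderOf_dvd_of_mem_zpowers (mem_zpowers_pow hx (i := 2 * j + 1) (by omega))
      rw [← hi, h3, ord_sq hx, hx, Nat.pow_dvd_pow_iff_le_right one_lt_two] at h4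
      omega
  obtain ⟨i, hi⟩ := exists_pow_of_mem (h3.ge (mem_zpowers _))
  rw [hi]
  exact ((Commute.refl _).mul_right (Commute.refl _)).pow_right i

theorem false (hD : IsPGroup 2 D) : False := by
  have hsq := sq_notMem hc hx hZ hπ hG hD
  have hw := half_mem hx hZ hD
  have hww := half_mul_half hx
  obtain ⟨a₀, ha₀, h0⟩ := exists_comm_sq hc hx hZ hπ hG hD
  have hxA : x ∈ centralizer {x * x} := mem_centralizer_singleton_iff.2 (mul_assoc _ _ _).symm
  set A := centralizer {x * x}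
  have two := two_out hc hxA (mem_centralizer_singleton_iff.2 h0) ha₀
  obtain ⟨g, hg⟩ : ∃ g, g ∉ A := not_forall.1 fun h =>
    hsq (mem_center_iff.2 fun g => mem_centralizer_singleton_iff.1 (h g))
  have two' := two_in hc hxA hg
  have hCA : zpowers x ≤ A := zpowers_le.2 hxA
  have cj : ∀ g b, b ∈ A → g * b * g⁻¹ ∈ A := fun g b =>
    conj_mem_of_two le_top (fun g _ g' _ => two g g') (mem_top g)
  have hev : ∀ b ∈ A, ∀ j, Commute b (x ^ (2 * j)) := fun b hb j => by
    rw [pow_mul, sq]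
    exact Commute.pow_right (mem_centralizer_singleton_iff.1 hb) j
  have hcen : ∀ j, ∀ g ∉ A, Commute g (x ^ (2 * j)) → x ^ (2 * j) ∈ center D := fun j g hg =>
    mem_center two hg fun b hb => hev b hb j
  obtain ⟨m, rfl⟩ : ∃ m, n = m + 2 := by
    obtain _ | _ | m := n
    · exact absurd (by rw [show x * x = 1 by simpa using hww]; exact one_mem _) hsq
    · exact absurd (by simpa [sq] using hw) hsq
    · exact ⟨m, rfl⟩
  have hsqa : ∀ a ∈ A, a ∉ zpowers x → ∀ i,
      x ^ i * a * (x ^ i * a) = (x ^ 2 ^ (m + 2)) ^ i * (x ^ (2 * i) * (a * a)) :=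
    fun a ha haC i => by
      have h1 := conj_mem_of_two hCA two' ha (mem_zpowers x)
      have h2 : a * x * a⁻¹ = x ^ 2 ^ (m + 2) * x := by
        rw [← (eq_half hx (mul_mem h1 (inv_mem (mem_zpowers x))) ?_).resolve_left fun h2 =>
          haC (mem_of_comm hc hx hZ hπ hG (mul_inv_eq_iff_eq_mul.1 (mul_inv_eq_one.1 h2))),
          inv_mul_cancel_right]
        obtain ⟨i, hi⟩ := exists_pow_of_mem h1
        calc _ = a * x * a⁻¹ * (x⁻¹ * (a * x * a⁻¹)) * x⁻¹ := by group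
          _ = a * (x * x) * a⁻¹ * (x * x)⁻¹ := by rw [← conj_mul, hi]; group
          _ = 1 := by rw [mem_centralizer_singleton_iff.1 ha]; group
      calc _ = x ^ i * (a * x * a⁻¹) ^ i * (a * a) := by rw [conj_pow]; group
        _ = _ := by rw [h2]; group
  obtain ⟨a, ha, haC, haa⟩ : ∃ a ∈ A, a ∉ zpowers x ∧ a * a = 1 := by
    have ha := mem_centralizer_singleton_iff.2 h0
    obtain ⟨i, hi⟩ := exists_pow_of_mem (inv_mem (two' a₀ ha a₀ ha ha₀ ha₀))
    rcases Nat.even_or_odd' i with ⟨j, rfl | rfl⟩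
    swap
    · obtain ⟨l, hl⟩ := exists_pow_of_mem (mem_zpowers_pow hx (i := 2 * j + 1) (by omega))
      refine absurd (mem_of_comm hc hx hZ hπ hG ?_) ha₀
      rw [hl, ← hi]
      exact ((Commute.refl _).mul_right (Commute.refl _)).inv_right.pow_right l
    have h1 := fun i => mul_mem (hCA (pow_mem (mem_zpowers x) i)) ha
    have h2 := fun i => mt (mul_mem_cancel_left (pow_mem (mem_zpowers x) i)).1 ha₀
    have h3 := hsqa a₀ ha ha₀ j
    rw [← hi, inv_mul_cancel, mul_one] at h3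
    rcases pow_of_sq_eq_one hww j with ⟨-, h4⟩ | ⟨-, h4⟩
    · exact ⟨_, h1 j, h2 j, h3.trans h4⟩
    · refine ⟨_, mul_mem (hCA (pow_mem (mem_zpowers x) (2 ^ (m + 1)))) (h1 j),
        mt (mul_mem_cancel_left (pow_mem (mem_zpowers x) _)).1 (h2 j), ?_⟩
      rw [hsqa _ (h1 j) (h2 j), h3, h4, ← pow_succ', hww, mul_one, pow_succ' 2 m, pow_mul _ 2, sq,
        hww, one_pow]
  have hk : ∀ g, π g = 1 ↔ g ∈ center D := fun g => hπ ▸ Iff.rfl
  have hk' : ∀ g b, π g * π b = π b * π g ↔ g * b * g⁻¹ * b⁻¹ ∈ center D := fun g b => by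
    rw [← hk, map_mul, map_mul, map_mul, map_inv, map_inv, mul_inv_eq_one, mul_inv_eq_iff_eq_mul]
  have hga : π g * π a = π a * π g := by
    have h1 : g * a * g⁻¹ * (g * a * g⁻¹) = 1 := by rw [conj_mul, haa]; simp
    have h2 : g * a * g⁻¹ ∉ zpowers x := fun h2 => haC (by
      rcases eq_half hx h2 h1 with h3 | h3
      · rw [show a = 1 by simpa using h3]; exact one_mem _
      · rw [mul_inv_eq_iff_eq_mul, ← mem_center_iff.1 hw, mul_right_inj] at h3
        exact h3 ▸ hZ hw)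
    have h3 := two' _ (cj g a ha) _ (inv_mem ha) h2 (mt inv_mem_iff.1 haC)
    obtain ⟨i, hi⟩ := exists_pow_of_mem h3
    have h4 := hsqa a ha haC i
    rw [← hi, inv_mul_cancel_right, h1, haa, mul_one, ← pow_mul, ← pow_add, eq_comm,
      ← orderOf_dvd_iff_pow_eq_one, hx, show 2 ^ (m + 2) * i + 2 * i = 2 * ((2 * 2 ^ m + 1) * i) by
        ring, pow_succ', Nat.mul_dvd_mul_iff_left two_pos] at h4
    obtain ⟨j, rfl⟩ := (Nat.Coprime.pow_left _ (by simp)).dvd_of_dvd_mul_left h4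
    rw [hk', hi, pow_mul]
    exact pow_mem hw j
  have hxa : π x * π a = π a * π x := by
    have h1 := hsqa a ha haC 1
    rw [haa, pow_one, pow_one, mul_one, mul_one, sq, ← mem_center_iff.1 hw, mul_assoc, mul_assoc,
      mul_right_inj] at h1
    rw [eq_comm, hk', inv_eq_of_mul_eq_one_right haa, mul_assoc a, h1, mem_center_iff.1 hw,
      mul_inv_cancel_right]
    exact hw
  have hu : π a * π a = 1 := by rw [← map_mul, haa, map_one]
  have gen : ∀ b ∈ A, π b ∈ zpowers (π x) ∨ π b * π a ∈ zpowers (π x) := fun b hb => by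
    by_cases h : b ∈ zpowers x
    exacts [Or.inl (map_mem h), Or.inr (map_mul π b a ▸ map_mem (two' b hb a ha h haC))]
  have k1 : ∀ y : Q, Commute y (π x) → Commute y (π a) → ∀ b ∈ A, Commute y (π b) :=
    fun y h1 h2 b hb => by
      rcases gen b hb with h | h <;> obtain ⟨i, hi⟩ := exists_pow_of_mem h
      · exact hi ▸ h1.pow_right i
      · rw [eq_mul_inv_of_mul_eq hi]
        exact (h1.pow_right i).mul_right h2.inv_right
  have comm : ∀ b ∈ A, ∀ b' ∈ A, π b * π b' = π b' * π b := fun b hb =>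
    k1 _ (k1 _ rfl hxa b hb).symm (k1 _ hxa.symm rfl b hb).symm
  obtain ⟨k, ord⟩ := four_le (π := π) hD (mt (hk _).1 hsq)
  have hfix : ∀ g ∉ A, ∀ i, g * g * x ^ i * (g * g)⁻¹ = x ^ i →
      g * x ^ i * g⁻¹ * (x ^ i)⁻¹ ∈ center D → x ^ (2 * i) ∈ center D := fun g hg i h1 h2 => by
    refine hcen i g hg (mul_inv_eq_iff_eq_mul.1 ?_)
    obtain ⟨ζ, hζ, h3⟩ : ∃ ζ ∈ center D, g * x ^ i * g⁻¹ = ζ * x ^ i := ⟨_, h2, by simp⟩
    have h4 := mem_center_iff.1 hζ
    have h5 : ζ * ζ = 1 := mul_right_cancel (b := x ^ i) (by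
      calc _ = ζ * (g * x ^ i * g⁻¹) := by rw [h3, mul_assoc]
        _ = g * (g * x ^ i * g⁻¹) * g⁻¹ := by rw [← mul_assoc, ← mul_assoc, ← h4 g, mul_assoc g, h3]
        _ = g * g * x ^ i * (g * g)⁻¹ := by group
        _ = _ := by rw [one_mul, h1])
    rw [two_mul, pow_add, ← conj_mul, h3, mul_assoc, ← mul_assoc (x ^ i), h4, ← mul_assoc,
      ← mul_assoc, h5, one_mul]
  have hout : ∀ y g', g' ∉ A → (∀ b ∈ A, Commute y (π b)) → Commute y (π g) → Commute y (π g') :=
    fun y g' hg' h1 h2 => by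
      rw [← mul_inv_cancel_right g' g, map_mul, map_inv]
      exact (h1 _ (two g' g hg' hg)).mul_right h2.inv_right
  by_cases hgx : π g * π x = π x * π g
  · have k2 : ∀ b ∈ A, ∀ g', Commute (π b) (π g') := fun b hb g' => by
      by_cases h : g' ∈ A
      exacts [comm b hb g' h, hout _ g' h (comm b hb) (k1 _ hgx hga b hb).symm]
    refine hG (Or.inr (Or.inr (Or.inl ⟨?_, π a, π x ^ 2 ^ (k + 1), ?_⟩)))
    · rintro _ ⟨g', rfl⟩ _ ⟨g'', rfl⟩
      by_cases h : g' ∈ A
      · exact k2 g' h g''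
      by_cases h' : g'' ∈ A
      · exact (k2 g'' h' g').symm
      refine hout _ g'' h' (fun b hb => (k2 b hb g').symm) (hout _ g' h (k1 _ hgx hga) rfl).symm
    · rintro _ ⟨b, rfl⟩ hb
      have hbA : b ∈ A := of_not_not fun h => hsq (by
        simpa [sq] using hfix b h 1 (by
          rw [← mem_center_iff.1 ((hk (b * b)).1 ((map_mul π b b).trans hb)) (x ^ 1),
            mul_inv_cancel_right])
          ((hk' _ _).1 (k2 _ (pow_mem hxA 1) b).symm))
      exact omega_of ord hu (comm b hbA a ha) hb (gen b hbA)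
  have hA : ∀ b, π b ∈ A.map π ↔ b ∈ A := fun b =>
    SetLike.ext_iff.1 (comap_map_eq_self (hπ ▸ hZ.trans hCA)) b
  refine hG (Or.inr (Or.inr (Or.inr ⟨A.map π, π x, π a, π g, k, map_le_range π A, ?_, ?_, ⟨g, rfl⟩,
    mt (hA g).1 hg, (hA x).2 hxA, ord, (hA a).2 ha, hu, fun h => haC ?_, ?_, ?_, ?_⟩)))
  · rintro _ ⟨b, hb, rfl⟩ _ ⟨b', hb', rfl⟩
    exact comm b hb b' hb'
  · rintro _ ⟨b, rfl⟩ _ ⟨b', rfl⟩ h h'
    exact map_mul π b b' ▸ (hA _).2 (two b b' (mt (hA b).2 h) (mt (hA b').2 h'))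
  · rw [← MonoidHom.map_zpowers] at h
    exact (comap_map_eq_self (hπ ▸ hZ)).le h
  · rintro _ ⟨b, hb, rfl⟩
    exact gen b hb
  · have k2 : ∀ i, π g * π x ^ i = π x ^ i * π g → π x ^ i * π x ^ i = 1 := fun i h => by
      rcases Nat.even_or_odd' i with ⟨j, rfl | rfl⟩
      · rw [← pow_add, ← two_mul, ← map_pow, hk]
        exact hfix g hg _ (mul_inv_eq_iff_eq_mul.2 (hev _ (two g g hg hg) j))
          ((hk' _ _).1 (map_pow π x _ ▸ h))
      · obtain ⟨l, hl⟩ := exists_pow_of_mem (mem_zpowers_pow ord (i := 2 * j + 1) (by omega))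
        exact absurd (hl ▸ Commute.pow_right h l) hgx
    have k3 : π g * π x ^ 2 ^ (k + 1) = π x ^ 2 ^ (k + 1) * π g := by
      have h1 := cj g _ (pow_mem hxA (2 ^ k))
      refine mul_inv_eq_iff_eq_mul.1 ((eq_half ord ?_ (by
        rw [conj_mul, half_mul_half ord]; simp)).resolve_left (by simpa using half_ne_one ord))
      rw [← UD.tsq, ← conj_mul, ← map_pow, ← map_inv, ← map_mul, ← map_mul, ← map_mul]
      by_cases h2 : g * x ^ 2 ^ k * g⁻¹ ∈ zpowers x
      exacts [map_mem (mul_mem h2 h2), map_mem (two' _ h1 _ h1 h2 h2)]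
    rintro _ ⟨b, hb, rfl⟩
    refine ⟨fun h => ?_, fun h => ?_⟩
    · rcases gen b hb with h1 | h1 <;> obtain ⟨i, hi⟩ := exists_pow_of_mem h1
      · exact hi ▸ k2 i (hi ▸ h)
      · have h2 := k2 i (hi ▸ Commute.mul_right h hga)
        rwa [← hi, mul_assoc, ← mul_assoc (π a), ← comm b hb a ha, mul_assoc (π b), hu,
          mul_one] at h2
    · rcases omega_of ord hu (comm b hb a ha) h (gen b hb) with h1 | h1 | h1 | h1 <;> rw [h1]
      exacts [Commute.one_right _, k3, hga, Commute.mul_right hga k3]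
  · rintro _ ⟨g', rfl⟩ h h1
    have h2 : g' * g' * (x ^ (2 * 2 ^ k))⁻¹ ∈ center D := by
      rw [← hk, map_mul, map_inv, map_mul, h1, map_pow, ← pow_succ', mul_inv_cancel]
    refine half_ne_one ord ?_
    rw [← map_pow, hk, pow_succ']
    refine hcen _ g' (mt (hA g').2 h) ?_
    rw [show x ^ (2 * 2 ^ k) = (g' * g' * (x ^ (2 * 2 ^ k))⁻¹)⁻¹ * (g' * g') by group]
    exact Commute.mul_right (mem_center_iff.1 (inv_mem h2) g')
      ((Commute.refl _).mul_right (Commute.refl _))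

end Cyc4

theorem exists_cycFourQuot {D : Type*} [Group D] [Finite D] (hD : IsPGroup 2 D) {x : D}
    (hc : Nat.card D ≤ 4 * orderOf x) : ∃ z ∈ center D, ∀ {Q : Type v} [Group Q] [Finite Q]
      (π : D →* Q), π.ker = zpowers z → CycFourQuot π.range := by
  by_cases hZ : center D ≤ zpowers x
  swap
  · obtain ⟨z, hz, h1⟩ := SetLike.not_le_iff_exists.1 hZ
    exact ⟨z, hz, fun π => Cyc4.good_of_notMem hc h1⟩
  have := isCyclic_of_le hZ
  obtain ⟨z, hz⟩ := IsCyclic.exists_generator (α := center D)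
  have h1 : zpowers (z : D) = center D := le_antisymm (zpowers_le.2 z.2) fun a ha => by
    obtain ⟨m, hm⟩ := mem_zpowers_iff.1 (hz ⟨a, ha⟩)
    exact mem_zpowers_iff.2 ⟨m, congrArg Subtype.val hm⟩
  refine ⟨z, z.2, fun π hπ => of_not_not fun hG => ?_⟩
  obtain ⟨_ | n, hn⟩ := IsPGroup.iff_orderOf.1 hD x
  · exact hG (Or.inl (Cyc4.card_le hc (hπ.trans h1) (m := 1)
      (by rw [orderOf_eq_one_iff.1 hn]; simp) one_ne_zero))
  · exact Cyc4.false hc hn hZ (hπ.trans h1) hG hD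

end Cfsg.Agent.Block
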