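import Mathlib
import Cfsg.Agent.Block.FusMap
import Cfsg.Agent.Block.PairFus
import Cfsg.Agent.Fus.EssTools

/-! A nilpotency criterion for `2`-blocks through invariant chains in centric subgroups. -/

set_option autoImplicit false
set_option linter.unusedSectionVars false

namespace Cfsg.Agent.Block

open Cfsg Cfsg.Agent.Char Subgroup Cfsg.Agent.Block.Alg Cfsg.Agent.Fus

variable {G : Type*} [Group G] [Finite G] {M : Ideal AlgInt} {p : ℕ} [hp : Fact p.Prime]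
  {B : Set (IrrCharacter G)} {P : Subgroup G} {e : MonoidAlgebra (resField M) G}

theorem MP.rank_eq_one_of_chain (h : MP p B P e) (hn : ∀ Q ≤ P, P ⊓ centralizer (Q : Set G) ≤ Q →
    ∃ (C : ℕ → Subgroup G) (n : ℕ), C 0 = ⊥ ∧ Q ≤ C n ∧
      (∀ i < n, ∀ g ∈ normalizer (Q : Set G), FM p P e g Q → ∀ q ∈ Q, q ∈ C i →
        g * q * g⁻¹ ∈ C i) ∧
      ((∃ s ∈ P, s ∈ normalizer (Q : Set G) ∧ s ∉ Q ∧
        ∀ i < n, ∀ q ∈ Q, q ∈ C (i + 1) → q⁻¹ * (s * q * s⁻¹) ∈ C i) ∨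
      ∀ i < n, ∀ a ∈ Q, ∀ b ∈ Q, a ∈ C (i + 1) → b ∈ C (i + 1) → a ∉ C i → b ∉ C i →
        a * b ∈ C i)) : blockRank p B = 1 := by
  have := charP_resField h.hM
  have hF := isPairFus_pairFus h.hm.of.pair
  refine blockRank_eq_one_of_nilpotent h.hM ((nilB_gbar_iff h.hM h.hB).1
    (h.hm.nilB_of_innerFus (hF.innerFus_iff.2 fun Q => Set.Subset.antisymm (alperin_le_cr h.pgroup
      (hF.isSaturated h.hm) _ (fun Q _ hc hr => ?_) Q) (inner_le _ Q))))
  obtain ⟨C, n, h0, h1, h2, h3⟩ := hn Q hc.1 (isCentric_self hc)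
  obtain ⟨f, hf⟩ := exists_ple h.hm.of.pair hc.1
  have hi : ∀ i ≤ n, AC.Inv ((pairFus h.hm.of.pair).autGroup Q) ((C i).subgroupOf Q) :=
    fun i hi α hα q hq => by
      rcases hi.eq_or_lt with rfl | hi
      · exact h1 (α q).2
      rw [hF.autGroup_eq hf, mem_autInducedBy_iff] at hα
      obtain ⟨g, hg, h4⟩ := hα
      rw [mem_subgroupOf, h4]
      exact h2 i hi g (nst_le_normalizer _ _ _ hg) (fm_of_nst hf hg) q q.2 hq
  have key := fun β => (rad_of_radical hr).mem_inn_of_chain (β := β) (h.pgroup.to_le hc.1)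
    (fun i => (C i).subgroupOf Q) n (subgroupOf_eq_top.2 h1) (by simp [h0]) fun i h4 => hi i h4.le
  rcases h3 with ⟨s, hs, hN, hsQ, h3⟩ | h3
  · exact absurd ((conjAut_mem_inn_iff hc.1 (isCentric_self hc) ⟨hs, hN⟩).1 (key _
      (autInducedBy_le_autGroup _ hc.1 (conjAut_mem_autInducedBy ⟨hs, hN⟩))
      fun i h4 q hq => h3 i h4 q q.2 hq)) hsQ
  refine fun β hβ => inn_le_autGroup _ hc.1 (key β hβ fun i h4 q hq => ?_)
  by_cases h5 : q ∈ (C i).subgroupOf Q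
  · exact mul_mem (inv_mem h5) (hi i h4.le β hβ q h5)
  · exact h3 i h4 _ (inv_mem q.2) _ (β q).2 (inv_mem hq) (hi _ h4 β hβ q hq)
      (mt inv_mem_iff.1 h5) (mt ((hi i h4.le).mem_iff hβ).1 h5)

end Cfsg.Agent.Block
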