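import Mathlib
import Cfsg.Agent.Block.DefectNum
import Cfsg.Agent.Block.Principal
import Cfsg.Agent.Block.Induce

/-!
# `2`-blocks of full defect whose central character is real on `2`-regular classes
-/

set_option autoImplicit false
set_option linter.dupNamespace false

namespace Cfsg.Agent.Block

open Cfsg Cfsg.Agent.Char Cfsg.Agent.PLocal MonoidAlgebra Subgroup
open scoped ComplexConjugate

variable {M : Ideal AlgInt} {G : Type*} [Group G] [Finite G]

omit [Finite G] in
theorem centralizer_inv_eq (x : G) :
    centralizer ({x⁻¹} : Set G) = centralizer ({x} : Set G) := by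
  ext y
  simp only [mem_centralizer_singleton_iff]
  exact ⟨fun h => (Commute.inv_right_iff.mp h), fun h => Commute.inv_right h⟩

/-- An odd degree character whose central character agrees at `x`, `x⁻¹` modulo `M` for all
`2`-regular `x` lies in the principal `2`-block. -/
theorem mem_principal_of_centralChar_inv (hM : IsPModular 2 M) {χ : IrrCharacter G}
    (hr : ∀ g : G, ¬ 2 ∣ orderOf g →
      val M (centralChar (χ : G → ℂ) g⁻¹ - centralChar (χ : G → ℂ) g) < 1)
    (hodd : Odd (charDegree (χ : G → ℂ))) :
    χ ∈ principalBlock M G := by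
  classical
  have := Fintype.ofFinite G
  have : Fact (Nat.Prime 2) := ⟨Nat.prime_two⟩
  have h1 : val M ((χ : G → ℂ) 1) = 1 := by
    rw [← cast_charDegree χ.2.isCharacter, val_natCast_eq_one_iff hM]
    exact hodd.not_two_dvd_nat
  have h10 := ne_zero_of_val_eq_one h1
  have key : val M (om (χ : G → ℂ) (regElt 2 (irrOne G : G → ℂ))) = 1 := by
    set f : G → ℂ := fun x => if 2 ∣ (centralizer ({x} : Set G)).index then 0 else (χ : G → ℂ) x
      with hf
    have h2 := val_sum_odd_sub_lt hM f
      (fun x => by
        simp only [hf]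
        split_ifs
        · simp
        · exact val_irr_le_one χ x)
      (fun x hx => by
        simp only [hf, centralizer_inv_eq]
        split_ifs with h
        · simp
        · have h3 := hr x hx
          simp only [centralChar, centralizer_inv_eq] at h3
          rw [← sub_div, ← mul_sub, map_div₀, map_mul, h1, (val_natCast_eq_one_iff hM _).2 h,
            one_mul, div_one] at h3
          exact h3)
    have hS : ∀ g h : G, h * g * h⁻¹ ∈ {x : G | 2 ∣ (centralizer ({x} : Set G)).index} ↔
        g ∈ {x : G | 2 ∣ (centralizer ({x} : Set G)).index} := by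
      intro g h
      simp only [Set.mem_ofPred_eq]
      rw [← index_centralizer_equiv (MulAut.conj h) g]; rfl
    have h3 := val_linear_lt_one' (M := M) (ev (χ : G → ℂ))
      (trunc_mem_ZA hS (regElt_mem_ZA (p := 2) (irrOne G).2.isClassFunction)) (fun g => by
        rw [coeff_trunc, ev_classSum χ.2.isClassFunction]
        split_ifs with h
        · exact val_mul_lt_one_right (mem_intAlg.1 (regElt_mem_intAlg (irrOne G).2.isGen) g)
            (val_mul_lt_one_left ((val_natCast_lt_one_iff hM _).2 h) (val_irr_le_one χ g))
        · simp)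
    have h4 : ev (χ : G → ℂ) (regElt 2 (irrOne G : G → ℂ)) =
        (∑ x, if 2 ∣ orderOf x then 0 else f x) + ev (χ : G → ℂ)
          (trunc {x : G | 2 ∣ (centralizer ({x} : Set G)).index} (regElt 2 (irrOne G : G → ℂ))) := by
      rw [ev_apply, ev_apply, ← Finset.sum_add_distrib]
      refine Finset.sum_congr rfl fun x _ => ?_
      simp only [coeff_trunc, coeff_regElt, hf, Set.mem_ofPred_eq]
      split_ifs <;> simp [irrOne]
    have h5 : f 1 = (χ : G → ℂ) 1 := by
      simp only [hf]
      rw [if_neg]
      rw [show centralizer ({1} : Set G) = ⊤ from eq_top_iff.2 fun y _ => by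
        simp [mem_centralizer_singleton_iff]]
      simp
    rw [om_apply, map_div₀, h1, div_one]
    refine val_eq_one_of_sub_lt h1 ?_
    rw [h4, add_sub_right_comm, ← h5]
    exact val_add_lt_one h2 h3
  have := (val_om_regElt_eq_one_iff hM (isPBlock_blockOf χ) (self_mem_blockOf hM χ)
    (irrOne G)).1 key
  rw [block_eq_of_mem hM isPBlock_principal (isPBlock_blockOf χ) (irrOne_mem_principal hM) this.1]
  exact self_mem_blockOf hM χ

/-- A block of full defect containing `χ` and `χ ∘ inv` on `2`-regular elements (mod `M`, central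
characters) is principal. -/
theorem eq_principal_of_centralChar_inv (hM : IsPModular 2 M) {B : Set (IrrCharacter G)}
    (hB : IsPBlock M B) (hdef : (Nat.card G).factorization 2 ≤ blockDefect 2 B)
    {χ : IrrCharacter G} (hχ : χ ∈ B) (hr : ∀ g : G, ¬ 2 ∣ orderOf g →
      val M (centralChar (χ : G → ℂ) g⁻¹ - centralChar (χ : G → ℂ) g) < 1) :
    B = principalBlock M G := by
  have : Fact (Nat.Prime 2) := ⟨Nat.prime_two⟩
  obtain ⟨θ, hθ, h0⟩ := exists_blockHeight_eq_zero (p := 2) ⟨χ, hχ⟩
  have h1 := blockDefect_eq_of_height_zero hθ h0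
  have h2 := factorization_charDegree_le (p := 2) θ.2
  have hodd : Odd (charDegree (θ : G → ℂ)) := by
    rw [← Nat.not_even_iff_odd, even_iff_two_dvd]
    intro h
    have := (Nat.prime_two.dvd_iff_one_le_factorization (charDegree_irr_ne_zero θ)).1 h
    omega
  have hs := (sameBlock_iff_val hM θ.2 χ.2).1 (sameBlock_of_mem hM hB hθ hχ)
  refine block_eq_of_mem hM hB isPBlock_principal hθ
    (mem_principal_of_centralChar_inv hM (fun g hg => ?_) hodd)
  exact val_sub_trans (hs g⁻¹) (val_sub_trans (hr g hg) (by rw [val_sub_comm]; exact hs g))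

end Cfsg.Agent.Block
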