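import Mathlib

/-! The two-generator groups of order `32` and class three with centre of order two. -/

set_option autoImplicit false
set_option linter.unusedSectionVars false

namespace Cfsg.Agent.Block

open Subgroup

/-- Normal forms `x^i y^j c^k w^l`, coded by `i + 4 j + 8 k + 16 l`. -/
def TK (_ _ : Fin 2) : Type := Fin 32

namespace TK

variable {α β : Fin 2}

instance : DecidableEq (TK α β) := inferInstanceAs (DecidableEq (Fin 32))

instance (p : TK α β → Prop) [h : DecidablePred p] : Decidable (∀ a, p a) :=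
  @Nat.decidableForallFin 32 p h

instance (p : TK α β → Prop) [h : DecidablePred p] : Decidable (∃ a, p a) :=
  @Nat.decidableExistsFin 32 p h

/-- The code of a normal form. -/
def mk (i j k l : ℕ) : TK α β := Fin.ofNat 32 (i % 4 + 4 * (j % 2) + 8 * (k % 2) + 16 * (l % 2))
/-- Exponents. -/
def i (a : TK α β) : ℕ := a.1 % 4
/-- Exponents. -/
def j (a : TK α β) : ℕ := a.1 / 4 % 2
/-- Exponents. -/
def k (a : TK α β) : ℕ := a.1 / 8 % 2
/-- Exponents. -/
def l (a : TK α β) : ℕ := a.1 / 16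

theorem mk_spec (a b c d : ℕ) : (mk a b c d : TK α β).i = a % 4 ∧ (mk a b c d : TK α β).j = b % 2 ∧
    (mk a b c d : TK α β).k = c % 2 ∧ (mk a b c d : TK α β).l = d % 2 := by
  simp only [mk, i, j, k, l, Fin.ofNat]
  omega

instance : Mul (TK α β) := ⟨fun a b => mk (a.i + b.i) (a.j + b.j) (a.k + b.i * a.j + b.k)
  (a.l + b.i * a.k + a.j * (b.i * (b.i + 1) / 2) + b.l + α * ((a.j + b.j) / 2) +
    β * ((a.i + b.i) / 4))⟩

instance : One (TK α β) := ⟨(0 : Fin 32)⟩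

instance : Inv (TK α β) :=
  ⟨fun a => mk 0 a.j a.k (a.l + α * a.j) * mk (4 - a.i) 0 0 (β * ((a.i + 3) / 4))⟩

/-- The generators. -/
def X : TK α β := (1 : Fin 32)
/-- The generators. -/
def Y : TK α β := (4 : Fin 32)
/-- The commutator. -/
def C : TK α β := (8 : Fin 32)
/-- The central involution. -/
def W : TK α β := (16 : Fin 32)

/-- The commutator. -/
abbrev br (a b : TK α β) : TK α β := a * b * a⁻¹ * b⁻¹

/-- The chain `1 < Z < P' < Φ < H < P`. -/
def lv (n : ℕ) (a : TK α β) : Bool :=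
  (4 < n || a.i % 2 == 0) && (3 < n || a.j == 0) && (2 < n || a.i == 0) && (1 < n || a.k == 0) &&
    (0 < n || a.l == 0)

theorem mul_inv : ∀ a : TK α β, a * a⁻¹ = 1 ∧ (1 : TK α β) * 1 = 1 := by
  revert α β; decide +kernel

theorem lv_mul : ∀ n < 5, ∀ a b : TK α β, lv n a → lv n b → lv n (a * b) ∧ lv n a⁻¹ := by
  revert α β; decide +kernel

theorem lv_two : ∀ n < 5, ∀ a b : TK α β, lv (n + 1) a ∧ lv (n + 1) b ∧ ¬ lv n a ∧ ¬ lv n b →
    lv n (a * b) := by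
  revert α β; decide +kernel

theorem lv_of_le {n : ℕ} (hn : 5 ≤ n) (a : TK α β) : lv n a := by
  simp only [lv, Bool.and_eq_true, Bool.or_eq_true, decide_eq_true_eq]; omega

theorem lv_zero : ∀ a : TK α β, lv 0 a ↔ a = 1 := by revert α β; decide +kernel

theorem lv_one : ∀ a : TK α β, lv 1 a ↔ a = 1 ∨ a = W := by revert α β; decide +kernel

theorem lv_two' : ∀ a : TK α β, lv 2 a ↔ ∀ b, lv 4 b → a * b = b * a := by
  revert α β; decide +kernel

theorem lv_three : ∀ a : TK α β, lv 3 a ↔ lv 2 a ∨ ∃ b, ¬ lv 4 b ∧ a = b * b := by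
  revert α β; decide +kernel

theorem lv_four : ∀ a : TK α β, lv 4 a ↔ lv 1 (a * a) := by revert α β; decide +kernel

theorem comm_W : ∀ a : TK α β, a * W = W * a := by revert α β; decide +kernel

theorem comm_lv : ∀ s q : TK α β, lv 2 (q⁻¹ * (s * q * s⁻¹)) ∧
    (lv 4 s ∧ lv 4 q ∨ lv 2 s ∨ lv 2 q → lv 1 (q⁻¹ * (s * q * s⁻¹))) ∧
    (lv 1 q → lv 0 (q⁻¹ * (s * q * s⁻¹))) := by
  revert α β; decide +kernel

theorem lv_two_cases : ∀ a : TK α β, lv 2 a → lv 4 a ∧ (lv 1 a ∨ a = C ∨ a = C * W) := by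
  revert α β; decide +kernel

theorem eq_one_cases : ∀ a : TK α β, a = 1 ∨ a = W ∨ ∃ b, br a b = W ∨ br (br a b) X = W := by
  revert α β; decide +kernel

theorem eq_of_mul_inv : ∀ a b : TK α β, a * b⁻¹ = 1 → a = b := by
  revert α β; decide +kernel

theorem inv_cases : ∀ t : TK α β, t * t = 1 → t = 1 ∨ t = W ∨
    (∃ a, a * t = t * a ∧ ∃ b, b * t = t * b ∧ W = br a b) ∨ (C * t = t * C ∧ t ≠ C ∧ t ≠ C * W ∧
      (∃ a, a * t * a⁻¹ = t * C) ∧ (∃ a, a * t * a⁻¹ = t * W) ∧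
        ∃ a, a * t * a⁻¹ = t * (C * W)) := by
  revert α β; decide +kernel

theorem class_two : ∀ a b : TK α β, br a b * a = a * br a b → br a b * b = b * br a b →
    br a b = 1 ∨ br a b = W := by
  revert α β; decide +kernel

theorem eight : ∀ c w : TK α β, c * c = 1 ∧ w * w = 1 ∧ c * w = w * c ∧ c ≠ 1 ∧ c ≠ W ∧ w ≠ 1 ∧
    c * w ≠ 1 ∧ c * w ≠ W → w = W ∨ ∃ d, (d = w ∨ d = W * c ∨ d = W * w ∨ d = W * (c * w)) ∧
      (d = C ∨ d = C * W) := by
  revert α β; decide +kernel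

theorem C_facts : (C : TK α β) * C = 1 ∧ (W : TK α β) * W = 1 ∧ (C : TK α β) ≠ 1 ∧
    (W : TK α β) ≠ 1 ∧ (C : TK α β) * W ≠ 1 ∧ lv 2 (C : TK α β) ∧
    ∀ d : TK α β, d = C ∨ d = C * W → d ≠ W ∧
      ∃ a, a * d = d * a ∧ ∃ b, b * d = d * b ∧ W = br a b := by
  revert α β; decide +kernel

end TK

variable {G : Type*} [Group G] [Finite G]

/-- Generators and relations. -/
structure TN (P : Subgroup G) (x y c w : G) (α β : Fin 2) : Prop where
  gen : P = closure {x, y}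
  xy : x * y = c * y * x
  cc : c * c = 1
  yc : Commute y c
  xc : x * c = w * c * x
  xw : Commute x w
  yw : Commute y w
  cw : Commute c w
  ww : w * w = 1
  ne : w ≠ 1
  yy : y ^ 2 = w ^ α.1
  xx : x ^ 4 = w ^ β.1

namespace TN

variable {P : Subgroup G} {x y c w : G} {α β : Fin 2} (d : TN P x y c w α β)
include d

theorem mul_x (j k l : ℕ) :
    y ^ j * c ^ k * w ^ l * x = x * (y ^ j * c ^ (j + k) * w ^ (j + k + l)) := by
  have h1 : x⁻¹ * c * x = c * w := by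
    rw [mul_assoc, inv_mul_eq_iff_eq_mul, ← mul_assoc, d.xc, mul_assoc, mul_assoc, d.xw.eq,
      ← mul_assoc c, d.cw.eq, ← mul_assoc, ← mul_assoc, d.ww, one_mul]
  have h2 : x⁻¹ * y * x = y * (c * w) := by
    rw [← h1, ← mul_left_inj x⁻¹, ← mul_right_inj x, ← mul_right_inj c]
    calc _ = c * y * x * x⁻¹ := by group
      _ = c * (x * y * x⁻¹) * c := by
        rw [d.xy, mul_inv_cancel_right, ← mul_assoc, d.cc, one_mul, d.yc.eq]
      _ = _ := by group
  have h3 : x⁻¹ * w * x = w := by rw [mul_assoc, ← d.xw.eq, inv_mul_cancel_left]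
  have h4 : ∀ (g : G) (n : ℕ), x⁻¹ * g ^ n * x = (x⁻¹ * g * x) ^ n := fun g n => by
    simpa using (conj_pow (a := x⁻¹) (b := g) (i := n)).symm
  rw [← inv_mul_eq_iff_eq_mul]
  calc _ = x⁻¹ * y ^ j * x * (x⁻¹ * c ^ k * x) * (x⁻¹ * w ^ l * x) := by group
    _ = _ := by
      rw [h4, h4, h4, h1, h2, h3, (d.yc.mul_right d.yw).mul_pow, d.cw.mul_pow, d.cw.mul_pow,
        pow_add, pow_add, pow_add]
      simp only [mul_assoc]
      rw [← mul_assoc (w ^ j), ← (d.cw.pow_pow k j).eq, mul_assoc]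

theorem mul_xpow (i j k l : ℕ) : y ^ j * c ^ k * w ^ l * x ^ i =
    x ^ i * (y ^ j * c ^ (k + i * j) * w ^ (l + i * k + j * (i * (i + 1) / 2))) := by
  induction i with
  | zero => simp
  | succ i ih =>
    rw [pow_succ, ← mul_assoc, ih, mul_assoc, d.mul_x, ← mul_assoc]
    have h1 : (i + 1) * (i + 1 + 1) / 2 = i * (i + 1) / 2 + (i + 1) := by
      rw [← Nat.add_mul_div_right _ _ two_pos]; congr 1; ring
    rw [h1, show k + (i + 1) * j = j + (k + i * j) by ring]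
    congr 3
    ring

theorem exists_hom : ∃ ι : TK α β → G, Function.Injective ι ∧ (∀ a b, ι (a * b) = ι a * ι b) ∧
    ι 1 = 1 ∧ (∀ a, ι a⁻¹ = (ι a)⁻¹) ∧ ∀ g, g ∈ P ↔ ∃ a, ι a = g := by
  have hm : ∀ (g : G) (m n : ℕ), g ^ n = g ^ (n % m) * (g ^ m) ^ (n / m) := fun g m n => by
    rw [← pow_mul, ← pow_add, Nat.mod_add_div]
  let ι : TK α β → G := fun a => x ^ a.i * (y ^ a.j * c ^ a.k * w ^ a.l)
  have h0 : ∀ a b, ι (a * b) = ι a * ι b := fun a b => by
    have e1 := hm c 2 (a.k + b.i * a.j + b.k)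
    have e2 := hm w 2 (a.l + b.i * a.k + a.j * (b.i * (b.i + 1) / 2) + b.l +
      α * ((a.j + b.j) / 2) + β * ((a.i + b.i) / 4))
    rw [sq, d.cc, one_pow, mul_one] at e1
    rw [sq, d.ww, one_pow, mul_one] at e2
    obtain ⟨a1, a2, a3, a4⟩ := TK.mk_spec (α := α) (β := β) (a.i + b.i) (a.j + b.j)
      (a.k + b.i * a.j + b.k) (a.l + b.i * a.k + a.j * (b.i * (b.i + 1) / 2) + b.l +
        α * ((a.j + b.j) / 2) + β * ((a.i + b.i) / 4))
    change x ^ (TK.mk _ _ _ _).i * (y ^ (TK.mk _ _ _ _).j * c ^ (TK.mk _ _ _ _).k *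
      w ^ (TK.mk _ _ _ _).l) = x ^ _ * _ * (x ^ _ * _)
    rw [a1, a2, a3, a4, ← e1, ← e2, mul_assoc (x ^ a.i), ← mul_assoc _ (x ^ b.i), d.mul_xpow,
      mul_assoc (x ^ b.i), ← mul_assoc (x ^ a.i), ← pow_add, hm x 4 (a.i + b.i), d.xx, ← pow_mul,
      mul_assoc (x ^ _), mul_right_inj]
    have c1 := fun m n => (d.yw.pow_pow m n).symm.left_comm
    have c2 := fun m n => (d.cw.pow_pow m n).symm.left_comm
    have c3 := fun m n => (d.yc.pow_pow m n).symm.left_comm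
    simp only [mul_assoc, c1, c2, c3, ← pow_add]
    rw [← mul_assoc (y ^ a.j), ← pow_add, hm y 2 (a.j + b.j), d.yy, ← pow_mul, mul_assoc,
      c2 _ (α * ((a.j + b.j) / 2)), c2 _ (α * ((a.j + b.j) / 2)),
      ← mul_assoc (c ^ _) (c ^ _), ← pow_add, ← pow_add]
    congr 3
    ring
  have h1 : ι 1 = 1 := mul_eq_left.1 ((h0 1 1).symm.trans (congrArg ι (TK.mul_inv 1).2))
  have h2 : ∀ a, ι a⁻¹ = (ι a)⁻¹ := fun a =>
    eq_inv_of_mul_eq_one_right (by rw [← h0, (TK.mul_inv a).1, h1])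
  have hX : ι TK.X = x := by simp [ι, TK.X, TK.i, TK.j, TK.k, TK.l]
  have hY : ι TK.Y = y := by simp [ι, TK.Y, TK.i, TK.j, TK.k, TK.l]
  have hW : ι TK.W = w := by simp [ι, TK.W, TK.i, TK.j, TK.k, TK.l]
  refine ⟨ι, fun a b hab => TK.eq_of_mul_inv a b ?_, h0, h1, h2, fun g => ⟨fun hg => ?_, ?_⟩⟩
  · have ha : ι (a * b⁻¹) = 1 := by rw [h0, h2, hab, mul_inv_cancel]
    rcases (a * b⁻¹).eq_one_cases with h | h | ⟨e, h | h⟩
    · exact h
    all_goals exact absurd (by rw [← hW, ← h]; simp only [h0, h2, hab]; simp) d.ne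
  · rw [d.gen] at hg
    induction hg using closure_induction with
    | mem g hg => rcases hg with rfl | rfl; exacts [⟨_, hX⟩, ⟨_, hY⟩]
    | one => exact ⟨1, h1⟩
    | mul g g' _ _ h h' => exact h.elim fun a ha => h'.elim fun b hb => ⟨a * b, by rw [h0, ha, hb]⟩
    | inv g _ h => exact h.elim fun a ha => ⟨a⁻¹, by rw [h2, ha]⟩
  · have h1 : x ∈ P := d.gen ▸ subset_closure (by simp)
    have h2 : y ∈ P := d.gen ▸ subset_closure (by simp)
    have h3 : c ∈ P := (mul_mem_cancel_right h2).1 ((mul_mem_cancel_right h1).1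
      (d.xy ▸ mul_mem h1 h2))
    have h4 : w ∈ P := (mul_mem_cancel_right h3).1 ((mul_mem_cancel_right h1).1
      (d.xc ▸ mul_mem h1 h3))
    rintro ⟨a, rfl⟩
    exact mul_mem (pow_mem h1 _) (mul_mem (mul_mem (pow_mem h2 _) (pow_mem h3 _)) (pow_mem h4 _))

end TN

end Cfsg.Agent.Block
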