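import Mathlib
import Cfsg.Agent.Block.Cyc4Grp
import Cfsg.Agent.Block.TNGrp
import Cfsg.Agent.S4477

/-! Recognition lemmas for two-generator `2`-groups. -/

set_option autoImplicit false
set_option linter.unusedSectionVars false

namespace Cfsg.Agent.Block

open Subgroup Cfsg.Agent.S4477

variable {Q : Type*} [Group Q] [Finite Q] {x y u c w : Q}

/-- The possible central quotients. -/
def Gen2Quot (P : Subgroup Q) : Prop := CycFourQuot P ∨ ∃ x y c w α β, TN P x y c w α β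

theorem exists_half (h : ∃ k, y ^ 2 ^ k = 1) : ∃ w, ∀ a ∈ zpowers y, a * a = 1 → a = 1 ∨ a = w := by
  obtain ⟨k, hk⟩ := h
  obtain ⟨_ | n, -, hn⟩ := (Nat.dvd_prime_pow Nat.prime_two).1 (orderOf_dvd_of_pow_eq_one hk)
  · exact ⟨1, fun a ha _ => Or.inl (by simpa [orderOf_eq_one_iff.1 hn] using ha)⟩
  · exact ⟨_, fun a => eq_half hn⟩

theorem four_le_orderOf (h : ∃ k, y ^ 2 ^ k = 1) (h1 : y * y ≠ 1) :
    ∃ k, orderOf y = 2 ^ (k + 2) := by
  obtain ⟨k, hk⟩ := h
  obtain ⟨i, -, hi⟩ := (Nat.dvd_prime_pow Nat.prime_two).1 (orderOf_dvd_of_pow_eq_one hk)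
  refine ⟨i - 2, hi.trans (congrArg _ (Nat.sub_add_cancel (not_lt.1 fun h => h1 ?_)).symm)⟩
  rw [← sq, ← orderOf_dvd_iff_pow_eq_one, hi]
  exact pow_dvd_pow 2 (show i ≤ 1 by omega)

theorem udGen (hy : ∃ k, y ^ 2 ^ k = 1) (hu : u ∈ closure {x, y}) (ux : Commute x u)
    (uy : Commute y u) (uu : u * u = 1) (h1 : x * y * x⁻¹ * y ∈ zpowers u)
    (h2 : x * x ∈ zpowers u) (h3 : y * y ≠ 1) : CycFourQuot (closure {x, y}) := by
  have k1 : ∀ t ∈ zpowers u, Commute y t ∧ Commute x t ∧ t * t = 1 := fun t ht => by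
    rcases (mem_zpowers_iff_two uu).1 ht with rfl | rfl
    exacts [by simp, ⟨uy, ux, uu⟩]
  let A : Subgroup Q :=
    { carrier := {a | ∃ i : ℕ, ∃ t ∈ zpowers u, a = y ^ i * t}
      mul_mem' := by
        rintro _ _ ⟨i, t, ht, rfl⟩ ⟨j, s, hs, rfl⟩
        refine ⟨i + j, _, mul_mem ht hs, ?_⟩
        rw [pow_add, mul_assoc, mul_assoc, ((k1 t ht).1.pow_left j).left_comm]
      one_mem' := ⟨0, 1, one_mem _, by simp⟩
      inv_mem' := by
        rintro _ ⟨i, t, ht, rfl⟩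
        obtain ⟨j, hj⟩ := exists_pow_of_mem (inv_mem (pow_mem (mem_zpowers y) i))
        exact ⟨j, _, inv_mem ht, by rw [mul_inv_rev, hj, ((k1 t ht).1.pow_left j).inv_right.eq]⟩ }
  have hU : ∀ t ∈ zpowers u, t ∈ A := fun t ht => ⟨0, t, ht, by simp⟩
  have hyA : y ∈ A := ⟨1, 1, one_mem _, by simp⟩
  have hx : x ∈ closure {x, y} := subset_closure (by simp)
  have hy' : y ∈ closure {x, y} := subset_closure (by simp)
  have le : A ≤ closure {x, y} := by
    rintro _ ⟨i, t, ht, rfl⟩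
    exact mul_mem (pow_mem hy' i) (zpowers_le.2 hu ht)
  have k0 : ∀ g, Commute g y → Commute g u → ∀ a ∈ A, Commute g a := by
    rintro g h h' _ ⟨i, t, ht, rfl⟩
    obtain ⟨j, rfl⟩ := exists_pow_of_mem ht
    exact (h.pow_right i).mul_right (h'.pow_right j)
  have comm : ∀ a ∈ A, ∀ b ∈ A, a * b = b * a := fun a ha =>
    k0 a (k0 y rfl uy a ha).symm (k0 u uy.symm rfl a ha).symm
  have k2 : ∀ a ∈ A, x * a * x⁻¹ * a ∈ zpowers u := by
    rintro _ ⟨i, t, ht, rfl⟩
    obtain ⟨a1, a2, a3⟩ := k1 t ht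
    have e : x * (y ^ i * t) * x⁻¹ * (y ^ i * t) = (x * y * x⁻¹ * y) ^ i := by
      rw [← conj_mul, a2.eq, mul_inv_cancel_right, mul_assoc, (a1.pow_left i).symm.left_comm, a3,
        mul_one, ← conj_pow]
      refine (Commute.mul_pow ?_ i).symm
      rw [← mul_inv_cancel_right (x * y * x⁻¹) y]
      exact (k1 _ h1).1.symm.mul_left (Commute.refl y).inv_left
    exact e ▸ pow_mem h1 i
  have k3 : ∀ a ∈ A, x * a * x⁻¹ ∈ A := fun a ha => (mul_mem_cancel_right ha).1 (hU _ (k2 a ha))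
  have k4 : ∀ a b, x * a ∈ A → x * b ∈ A → a * b ∈ A := fun a b ha hb => by
    convert mul_mem (mul_mem (inv_mem (hU _ h2)) (k3 _ ha)) hb using 1
    group
  have k5 : ∀ g ∈ closure {x, y}, g ∉ A → x * g ∈ A := fun g hg => by
    rw [← or_iff_not_imp_left]
    induction hg using closure_induction with
    | mem g hg => rcases hg with rfl | rfl; exacts [Or.inr (hU _ h2), Or.inl hyA]
    | one => exact Or.inl (one_mem _)
    | mul a b _ _ ha hb =>
      rcases ha with ha | ha <;> rcases hb with hb | hb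
      exacts [Or.inl (mul_mem ha hb), Or.inr (by simpa [mul_assoc] using mul_mem (k3 a ha) hb),
        Or.inr (mul_assoc x a b ▸ mul_mem ha hb), Or.inl (k4 a b ha hb)]
    | inv a _ ha =>
      exact ha.imp inv_mem fun ha => by
        simpa [mul_assoc] using mul_mem (k3 _ (inv_mem ha)) (hU _ h2)
  have two : ∀ g ∈ closure {x, y}, ∀ g' ∈ closure {x, y}, g ∉ A → g' ∉ A → g * g' ∈ A :=
    fun g hg g' hg' h h' => k4 g g' (k5 g hg h) (k5 g' hg' h')
  have gen : ∀ a ∈ A, a ∈ zpowers y ∨ a * u ∈ zpowers y := by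
    rintro _ ⟨i, t, ht, rfl⟩
    rcases (mem_zpowers_iff_two uu).1 ht with rfl | rfl <;> simp [mul_assoc, uu, pow_mem]
  by_cases h0 : u ∈ zpowers y ∨ x ∈ A
  · refine Or.inr (Or.inl ⟨y, hy', Nat.card_zpowers y ▸ card_le_of_two (zpowers_le.2 hy')
      fun g hg g' hg' h h' => ?_⟩)
    rcases h0 with h0 | h0
    · have h4 : ∀ a ∈ A, a ∈ zpowers y := fun a ha =>
        (gen a ha).elim id (mul_mem_cancel_right h0).1
      exact h4 _ (two g hg g' hg' (mt (h4 g) h) (mt (h4 g') h'))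
    · have h4 : ∀ g ∈ closure {x, y}, g ∈ A := fun g hg =>
        of_not_not fun h => h ((mul_mem_cancel_left h0).1 (k5 g hg h))
      have := mul_mem ((gen g (h4 g hg)).resolve_left h) ((gen g' (h4 g' hg')).resolve_left h')
      rwa [mul_assoc, ← mul_assoc u, comm u (h4 u hu) g' (h4 g' hg'), mul_assoc g', uu,
        mul_one] at this
  rw [not_or] at h0
  obtain ⟨n, ord⟩ := four_le_orderOf hy h3
  have k6 : ∀ t ∈ zpowers u, t ∈ zpowers y → t = 1 := fun t ht ht' =>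
    ((mem_zpowers_iff_two uu).1 ht).resolve_right fun h => h0.1 (h ▸ ht')
  have k7 : Commute x (y ^ 2 ^ (n + 1)) := by
    have h4 : x * (y * y) * x⁻¹ = (y * y)⁻¹ := eq_inv_of_mul_eq_one_left (by
      rw [← (k1 _ h1).2.2, ← conj_mul, mul_assoc (x * y * x⁻¹) y, (k1 _ h1).1.eq]
      group)
    refine mul_inv_eq_iff_eq_mul.1 ?_
    rw [pow_succ', pow_mul, ← conj_pow, sq, h4, inv_pow, ← sq, ← pow_mul, ← pow_succ']
    exact inv_eq_of_mul_eq_one_right (half_mul_half ord)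
  refine Or.inr (Or.inr (Or.inr ⟨A, y, u, x, n, le, comm, two, hx, h0.2, hyA, ord,
    hU _ (mem_zpowers u), uu, h0.1, gen, fun a ha => ⟨fun h => k6 _ ?_ ?_, fun h => ?_⟩,
    fun g hg h h4 => half_ne_one ord (k6 _ ?_ (pow_mem (mem_zpowers y) _))⟩))
  · simpa [h] using k2 a ha
  · refine (gen a ha).elim (fun h => mul_mem h h) fun h => ?_
    have := mul_mem h h
    rwa [mul_assoc, ← mul_assoc u, comm u (hU _ (mem_zpowers u)) a ha, mul_assoc a, uu,
      mul_one] at this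
  · rcases Cyc4.omega_of ord uu (comm a ha u (hU _ (mem_zpowers u))) h (gen a ha) with
      h4 | h4 | h4 | h4 <;> rw [h4]
    exacts [Commute.one_right _, k7, ux, ux.mul_right k7]
  · have h5 := mul_mem (inv_mem h2) (k2 _ (k5 g hg h))
    rwa [← h4, show g * g = (x * x)⁻¹ * (x * (x * g) * x⁻¹ * (x * g)) by group]

/-- Generators and relations, without the power relations. -/
structure TR (P : Subgroup Q) (x y c w : Q) : Prop where
  gen : P = closure {x, y}
  xy : x * y = c * y * x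
  cc : c * c = 1
  yc : Commute y c
  xc : x * c = w * c * x
  xw : Commute x w
  yw : Commute y w
  cw : Commute c w
  ww : w * w = 1
  ne : w ≠ 1

namespace TR

variable {P Z : Subgroup Q} (d : TR P x y c w)
include d

theorem map {R : Type*} [Group R] (π : Q →* R) (h : π w ≠ 1) :
    TR (P.map π) (π x) (π y) (π c) (π w) :=
  ⟨by rw [d.gen, MonoidHom.map_closure, Set.image_pair], by simp only [← map_mul, d.xy],
    by rw [← map_mul, d.cc, map_one], d.yc.map π, by simp only [← map_mul, d.xc], d.xw.map π,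
    d.yw.map π, d.cw.map π, by rw [← map_mul, d.ww, map_one], h⟩

theorem xxy : x * x * y = w * y * (x * x) := by
  rw [mul_assoc, d.xy, ← mul_assoc, ← mul_assoc, d.xc, mul_assoc _ x, d.xy, mul_assoc w,
    ← mul_assoc c, ← mul_assoc c, d.cc]
  group

theorem xxc : Commute (x * x) c := by
  change _ = _
  rw [mul_assoc, d.xc, ← mul_assoc, ← mul_assoc, d.xw.eq, mul_assoc w, d.xc, ← mul_assoc,
    ← mul_assoc, d.ww, one_mul, mul_assoc]

theorem xyy : Commute x (y * y) :=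
  calc x * (y * y) = c * y * (x * y) := by rw [← mul_assoc x, ← mul_assoc _ x, ← d.xy]
    _ = c * (y * c) * y * x := by rw [d.xy]; group
    _ = _ := by rw [d.yc.eq, ← mul_assoc, d.cc, one_mul]

theorem yx4 : Commute y (x ^ 4) := Eq.symm <|
  calc x ^ 4 * y = x * x * (x * x * y) := by simp only [pow_succ, pow_zero, one_mul, mul_assoc]
    _ = w * (x * x * y) * (x * x) := by
      rw [d.xxy, mul_assoc w, (d.xw.mul_left d.xw).left_comm, ← mul_assoc (x * x), d.xxy]; group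
    _ = _ := by
      rw [d.xxy, ← mul_assoc w, ← mul_assoc w, d.ww]
      simp only [pow_succ, pow_zero, one_mul, mul_assoc]

theorem mem : x ∈ P ∧ y ∈ P ∧ c ∈ P ∧ w ∈ P := by
  have h1 : x ∈ P := d.gen ▸ subset_closure (by simp)
  have h2 : y ∈ P := d.gen ▸ subset_closure (by simp)
  have h3 : c ∈ P := (mul_mem_cancel_right h2).1 ((mul_mem_cancel_right h1).1
    (d.xy ▸ mul_mem h1 h2))
  exact ⟨h1, h2, h3, (mul_mem_cancel_right h3).1 ((mul_mem_cancel_right h1).1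
    (d.xc ▸ mul_mem h1 h3))⟩

theorem card (h : Z ≤ P) (hx : ∀ z ∈ Z, Commute z x) (hy : ∀ z ∈ Z, Commute z y) :
    16 * Nat.card Z ≤ Nat.card P := by
  obtain ⟨h1, h2, h3, -⟩ := d.mem
  have m : ∀ {a b : Q}, a ∈ centralizer {b} ↔ a * b = b * a := mem_centralizer_singleton_iff
  have n1 : x * c ≠ c * x := by simpa [d.xc] using d.ne
  have n2 : x * x * y ≠ y * (x * x) := by simpa [d.xxy] using d.ne
  have a1 := two_mul_card_le (A := P ⊓ centralizer {c}) inf_le_left h1 fun h => n1 (m.1 h.2)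
  have a2 := two_mul_card_le (P := P ⊓ centralizer {c}) (A := P ⊓ centralizer {c} ⊓
    centralizer {x * x}) inf_le_left ⟨h2, m.2 d.yc⟩ fun h => n2 (m.1 h.2).symm
  have a3 := two_mul_card_le (P := P ⊓ centralizer {c} ⊓ centralizer {x * x})
    (A := P ⊓ centralizer {c} ⊓ centralizer {x * x} ⊓ centralizer {y}) inf_le_left
    ⟨⟨mul_mem h1 h1, m.2 d.xxc⟩, m.2 rfl⟩ fun h => n2 (m.1 h.2)
  have a4 := two_mul_card_le (P := P ⊓ centralizer {c} ⊓ centralizer {x * x} ⊓ centralizer {y})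
    (A := Z) (fun z hz => ⟨⟨⟨h hz, m.2 ?_⟩, m.2 ((hx z hz).mul_right (hx z hz))⟩, m.2 (hy z hz)⟩)
    ⟨⟨⟨h3, m.2 rfl⟩, m.2 d.xxc.symm⟩, m.2 d.yc.symm⟩ fun h => n1 (hx c h).symm
  · omega
  · rw [show c = x * y * x⁻¹ * y⁻¹ by simp [d.xy]]
    exact (((hx z hz).mul_right (hy z hz)).mul_right (hx z hz).inv_right).mul_right
      (hy z hz).inv_right

theorem fine (h1 : y * y ∈ zpowers w) (h2 : x ^ 4 ∈ zpowers w) : Gen2Quot P := by
  have k : ∀ t ∈ zpowers w, ∃ α : Fin 2, t = w ^ α.1 := fun t ht =>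
    ((mem_zpowers_iff_two d.ww).1 ht).elim (⟨0, by simpa using ·⟩) (⟨1, by simpa using ·⟩)
  obtain ⟨α, hα⟩ := k _ h1
  obtain ⟨β, hβ⟩ := k _ h2
  exact Or.inr ⟨x, y, c, w, α, β, { d with yy := (sq y).trans hα, xx := hβ }⟩

theorem fine' (h : Nat.card P ≤ 32) : Gen2Quot P := by
  obtain ⟨h1, h2, -, h4⟩ := d.mem
  have m : ∀ {a b : Q}, a ∈ centralizer {b} ↔ a * b = b * a := mem_centralizer_singleton_iff
  have h5 := d.card (Z := P ⊓ centralizer {x} ⊓ centralizer {y}) (inf_le_left.trans inf_le_left)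
    (fun z hz => m.1 hz.1.2) fun z hz => m.1 hz.2
  have k : ∀ t ∈ P, Commute x t → Commute y t → t ∈ zpowers w := fun t ht a b =>
    of_not_not fun h6 => by
      have := two_mul_card_le (P := P ⊓ centralizer {x} ⊓ centralizer {y})
        (zpowers_le.2 ⟨⟨h4, m.2 d.xw.symm⟩, m.2 d.yw.symm⟩) ⟨⟨ht, m.2 a.symm⟩, m.2 b.symm⟩ h6
      rw [Nat.card_zpowers, orderOf_eq_two d.ne d.ww] at this
      omega
  exact d.fine (k _ (mul_mem h2 h2) d.xyy ((Commute.refl y).mul_right rfl))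
    (k _ (pow_mem h1 4) ((Commute.refl x).pow_right 4) d.yx4)

end TR

end Cfsg.Agent.Block
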