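import Mathlib
import Cfsg.Agent.Block.Gen2A

/-! Central quotients of two-generator `2`-groups of order at most `64`. -/

set_option autoImplicit false
set_option linter.unusedSectionVars false

namespace Cfsg.Agent.Block

open Subgroup Cfsg.Agent.S4477 Cfsg.Agent.Grp.MaxClass

universe v

/-- There is a good central quotient. -/
def Gen2Good (D : Type*) [Group D] : Prop :=
  ∃ z ∈ center D, ∀ {Q : Type v} [Group Q] [Finite Q] (π : D →* Q), π.ker = zpowers z →
    Gen2Quot π.range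

namespace Gen2

variable {D : Type*} [Group D] [Finite D] {Q : Type*} [Group Q] [Finite Q] {x y c w s t : D}

theorem ker_iff {π : D →* Q} (h : π.ker = zpowers t) {g : D} : π g = 1 ↔ g ∈ zpowers t :=
  h ▸ Iff.rfl

theorem card_range {π : D →* Q} (h : π.ker = zpowers t) (hc : Nat.card D ≤ 64) (ht : t ≠ 1) :
    Nat.card π.range ≤ 32 := by
  have h1 := card_mul_index π.ker
  have h2 := two_mul_card_le bot_le (mem_zpowers t) ht
  rw [index_ker, h] at h1
  rw [card_bot] at h2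
  nlinarith

variable (hg : closure {x, y} = ⊤)
include hg

omit [Finite D] [Finite Q] in
theorem map_mem (π : D →* Q) {H : Subgroup Q} (h1 : π x ∈ H) (h2 : π y ∈ H) (g : D) : π g ∈ H :=
  (closure_le (H.comap π)).2 (by rintro _ (rfl | rfl); exacts [h1, h2]) (hg.ge (mem_top g))

theorem comm (π : D →* Q) {q : Q} (h1 : Commute (π x) q) (h2 : Commute (π y) q) (g : D) :
    Commute (π g) q :=
  mem_centralizer_singleton_iff.1 (map_mem hg π (mem_centralizer_singleton_iff.2 h1)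
    (mem_centralizer_singleton_iff.2 h2) g)

theorem mem_center (h1 : Commute x t) (h2 : Commute y t) : t ∈ center D :=
  mem_center_iff.2 (comm hg (MonoidHom.id D) h1 h2)

theorem range_eq (π : D →* Q) : π.range = closure {π x, π y} := by
  rw [MonoidHom.range_eq_map, ← hg, MonoidHom.map_closure, Set.image_pair]

theorem comm' (π : D →* Q) (h : π (x * y * x⁻¹ * y⁻¹) = 1) (g g' : D) : Commute (π g) (π g') := by
  have h1 : Commute (π x) (π y) := by
    simpa [mul_inv_eq_one, mul_inv_eq_iff_eq_mul, commute_iff_eq] using h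
  exact comm hg π (comm hg π rfl h1.symm g').symm (comm hg π h1 rfl g').symm g

theorem commutator_le_zpowers (h : ∀ g, g * (x * y * x⁻¹ * y⁻¹) * g⁻¹ ∈ zpowers (x * y * x⁻¹ * y⁻¹)) :
    commutator D ≤ zpowers (x * y * x⁻¹ * y⁻¹) := by
  have : (zpowers (x * y * x⁻¹ * y⁻¹)).Normal := ⟨fun n hn g => by
    obtain ⟨i, rfl⟩ := exists_pow_of_mem hn
    exact conj_pow (a := g) ▸ pow_mem (h g) i⟩
  refine commutator_le.2 fun a _ b _ => (QuotientGroup.eq_one_iff _).1 ?_
  exact (map_commutatorElement (QuotientGroup.mk' _) a b).trans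
    (commutatorElement_eq_one_iff_commute.2 (comm' hg _
      ((QuotientGroup.eq_one_iff _).2 (mem_zpowers _)) a b))

theorem exists_gen_comm (ht : t ∈ center D) (tt : t * t = 1)
    (h : ∀ g, g * s * g⁻¹ * s⁻¹ ∈ zpowers t) : ∃ x y : D, closure {x, y} = ⊤ ∧ Commute y s := by
  by_cases hy : Commute y s
  · exact ⟨x, y, hg, hy⟩
  by_cases hx : Commute x s
  · exact ⟨y, x, Set.pair_comm x y ▸ hg, hx⟩
  have k : ∀ g, ¬ Commute g s → g * s * g⁻¹ = t * s := fun g h1 => eq_mul_of_mul_inv_eq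
    (((mem_zpowers_iff_two tt).1 (h g)).resolve_left fun h2 =>
      h1 (mul_inv_eq_iff_eq_mul.1 (mul_inv_eq_one.1 h2)))
  refine ⟨x, x * y, top_unique (hg.ge.trans ((closure_le _).2 ?_)), mul_inv_eq_iff_eq_mul.1 ?_⟩
  · have h1 : x ∈ closure {x, x * y} := subset_closure (by simp)
    rintro _ (rfl | rfl)
    exacts [h1, (mul_mem_cancel_left h1).1 (subset_closure (by simp))]
  · calc _ = x * (y * s * y⁻¹) * x⁻¹ := by group
      _ = t * (x * s * x⁻¹) := by rw [k y hy, ← mul_assoc, mem_center_iff.1 ht]; group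
      _ = s := by rw [k x hx, ← mul_assoc, tt, one_mul]

variable (hD : IsPGroup 2 D)
include hD

omit hg [Finite D] [Finite Q] in
theorem pow_map (π : D →* Q) (g : D) : ∃ k, π g ^ 2 ^ k = 1 :=
  (hD g).imp fun k hk => by rw [← map_pow, hk, map_one]

theorem good_of_center (h : x * y * x⁻¹ * y⁻¹ ∈ center D) : Gen2Good.{v} D := by
  refine ⟨_, h, fun π hπ => Or.inl (Or.inr (Or.inr (Or.inl ?_)))⟩
  have h1 := comm' hg π ((ker_iff hπ).2 (mem_zpowers _))
  let N := (zpowers (π x)).comap π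
  have : N.Normal := ⟨fun n hn g => by
    rwa [mem_comap, map_mul, map_mul, h1 g, map_inv, mul_inv_cancel_right]⟩
  obtain ⟨w, hw⟩ := exists_half (pow_map hD π x)
  obtain ⟨w', hw'⟩ := exists_half (pow_map hD (QuotientGroup.mk' N) y)
  have h2 : ∀ g ∉ N, π g * π g = 1 → (g : D ⧸ N) = w' := fun g h2 h3 =>
    (hw' _ (map_mem hg (QuotientGroup.mk' N) (by
      rw [QuotientGroup.mk'_apply _ x, (QuotientGroup.eq_one_iff (N := N) x).2 (mem_zpowers (π x))]
      exact one_mem _) (mem_zpowers _) g) ((QuotientGroup.eq_one_iff (g * g)).2 (by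
        rw [mem_comap, map_mul, h3]
        exact one_mem _))).resolve_left (mt (QuotientGroup.eq_one_iff g).1 h2)
  refine ⟨by rintro _ ⟨a, rfl⟩ _ ⟨b, rfl⟩; exact h1 a b, ?_⟩
  by_cases h3 : ∃ u ∉ N, π u * π u = 1
  swap
  · refine ⟨1, w, ?_⟩
    rintro _ ⟨g, rfl⟩ h4
    exact (hw _ (of_not_not fun h5 => h3 ⟨g, h5, h4⟩) h4).imp_right Or.inl
  obtain ⟨u, hu, h3⟩ := h3
  refine ⟨π u, w, ?_⟩
  rintro _ ⟨g, rfl⟩ h4
  by_cases h5 : g ∈ N
  · exact (hw _ h5 h4).imp_right Or.inl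
  have h6 := hw _ ((QuotientGroup.eq (s := N)).1 ((h2 u hu h3).trans (h2 g h5 h4).symm)) (by
    rw [map_mul, map_inv, ← sq, (h1 u g).inv_left.mul_pow, inv_pow, sq, sq, h3, h4]; simp)
  rw [map_mul, map_inv, inv_mul_eq_iff_eq_mul, inv_mul_eq_iff_eq_mul, mul_one] at h6
  exact Or.inr (Or.inr h6)

theorem exists_rel (hc : Nat.card (commutator D) ≤ 4) : ∃ x y c w : D, closure {x, y} = ⊤ ∧
    x * y * x⁻¹ * y⁻¹ = c ∧ (c ∈ center D ∨ Commute y c ∧ x * c * x⁻¹ * c⁻¹ = w ∧
      w ∈ center D ∧ w * w = 1 ∧ w ≠ 1 ∧ (c * c = 1 ∨ c * c = w)) := by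
  have hN : ∀ a b : D, a * b * a⁻¹ * b⁻¹ ∈ commutator D := fun a b =>
    commutator_mem_commutator (mem_top a) (mem_top b)
  by_cases h0 : commutator D ≤ center D
  · exact ⟨x, y, _, 1, hg, rfl, Or.inl (h0 (hN x y))⟩
  obtain ⟨s, hs, hs'⟩ := SetLike.not_le_iff_exists.1 h0
  obtain ⟨t, ht, t1, tt, tZ⟩ := exists_central_invol hD (commutator D) fun h => h0 (h ▸ bot_le)
  have hZ := zpowers_le.2 tZ
  have two := two_of_card (zpowers_le.2 ht) (by rwa [Nat.card_zpowers, orderOf_eq_two t1 tt])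
  have k : ∀ n ∈ commutator D, n ∉ center D → ∀ g, g * n * g⁻¹ * n⁻¹ ∈ zpowers t :=
    fun n hn hn' g => two _ (Normal.conj_mem inferInstance n hn g) _ (inv_mem hn)
      (fun h => hn' (by simpa using (Normal.mem_comm_iff inferInstance).1 (hZ h)))
      (mt (fun h => inv_mem_iff.1 (hZ h)) hn')
  obtain ⟨x, y, hg, h1⟩ := exists_gen_comm hg tZ tt (k s hs hs')
  refine ⟨x, y, _, t, hg, rfl, or_iff_not_imp_left.2 fun h2 => ?_⟩
  have h3 := mt (hZ ·) h2
  have h4 : Commute y (x * y * x⁻¹ * y⁻¹) := by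
    rw [← mul_inv_cancel_right (x * y * x⁻¹ * y⁻¹) s]
    exact Commute.mul_right (mem_center_iff.1 (hZ (two _ (hN x y) s hs h3 (mt (hZ ·) hs'))) y)
      h1.inv_right
  exact ⟨h4, ((mem_zpowers_iff_two tt).1 (k _ (hN x y) h2 x)).resolve_left fun h => h2
    (mem_center hg (mul_inv_eq_iff_eq_mul.1 (mul_inv_eq_one.1 h)) h4), tZ, tt, t1,
    (mem_zpowers_iff_two tt).1 (two _ (hN x y) _ (hN x y) h3 h3)⟩

omit hg hD in
theorem tr_of (hg : closure {x, y} = ⊤) (h1 : x * y * x⁻¹ * y⁻¹ = c) (h2 : Commute y c)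
    (h3 : x * c * x⁻¹ * c⁻¹ = w) (h4 : w ∈ center D) (h5 : w * w = 1) (h6 : w ≠ 1)
    (h7 : c * c = 1) : TR ⊤ x y c w :=
  ⟨hg.symm, by simp [← h1], h7, h2, by simp [← h3], mem_center_iff.1 h4 x, mem_center_iff.1 h4 y,
    mem_center_iff.1 h4 c, h5, h6⟩

variable (hc : Nat.card D ≤ 64)
include hc

theorem good_of_tr (d : TR ⊤ x y c w) : Gen2Good.{v} D := by
  have hy := mem_center hg d.xyy ((Commute.refl y).mul_right rfl)
  have hx := mem_center hg ((Commute.refl x).pow_right 4) d.yx4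
  by_cases h : y * y ∈ zpowers w ∧ x ^ 4 ∈ zpowers w
  · refine ⟨1, one_mem _, fun π hπ => MonoidHom.range_eq_map π ▸
      (d.map π (by simpa [ker_iff hπ] using d.ne)).fine ?_ ?_⟩
    exacts [map_mul π y y ▸ Cyc4.map_mem h.1, map_pow π x 4 ▸ Cyc4.map_mem h.2]
  obtain ⟨z, hz, hzw⟩ : ∃ z ∈ center D, z ∉ zpowers w :=
    (not_and_or.1 h).elim (⟨_, hy, ·⟩) (⟨_, hx, ·⟩)
  refine ⟨z, hz, fun π hπ => ?_⟩
  by_cases hw : w ∈ zpowers z
  swap
  · refine MonoidHom.range_eq_map π ▸ (d.map π (mt (ker_iff hπ).1 hw)).fine' ?_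
    exact MonoidHom.range_eq_map π ▸ card_range hπ hc fun h => hzw (h ▸ one_mem _)
  have h1 := d.card (Z := center D) le_top (fun z hz => (mem_center_iff.1 hz x).symm)
    fun z hz => (mem_center_iff.1 hz y).symm
  have h2 := two_mul_card_le (zpowers_le.2 hw) (mem_zpowers z) hzw
  rw [card_top] at h1
  rw [Nat.card_zpowers w, orderOf_eq_two d.ne d.ww] at h2
  have k : ∀ t ∈ center D, π t = 1 := fun t ht => (ker_iff hπ).2 (of_not_not fun h3 => by
    have := two_mul_card_le (zpowers_le.2 hz) ht h3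
    omega)
  have a1 := congrArg π d.xc
  have a2 := congrArg π d.xxy
  have a3 := congrArg π d.xy
  have a4 := congrArg π d.cc
  simp only [map_mul, (ker_iff hπ).2 hw, one_mul, map_one] at a1 a2 a3 a4
  have a5 : Commute (π x) (π c * (π x * π x)) :=
    Commute.mul_right a1 ((Commute.refl _).mul_right rfl)
  rw [range_eq (Set.pair_comm x y ▸ hg) π]
  refine Or.inl (udGen (u := π c * (π x * π x)) (pow_map hD π x) ?_
    ((d.yc.map π).mul_right a2.symm) a5 ?_ ?_ ?_ fun h3 => d.ne ?_)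
  · rw [← range_eq (Set.pair_comm x y ▸ hg) π]
    exact ⟨c * (x * x), by simp⟩
  · rw [← sq, Commute.mul_pow (map_mul π x x ▸ (d.xxc.map π).symm) 2, sq,
      a4, one_mul, ← sq, ← pow_mul, ← map_pow, k _ hx]
  · rw [show π y * π x = π c * (π x * π y) by rw [a3, ← mul_assoc, ← mul_assoc, a4, one_mul]]
    simp [mul_assoc]
  · rw [← map_mul π y, k _ hy]
    exact one_mem _
  · simpa [← mem_center_iff.1 (zpowers_le.2 hz ((ker_iff hπ).1 ((map_mul π x x).trans h3))) y]
      using d.xxy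

theorem good_of_inv (h1 : x * y * x⁻¹ * y⁻¹ = c) (h2 : Commute y c) (h3 : x * c * x⁻¹ = c⁻¹)
    (h4 : c ∉ center D) : Gen2Good.{v} D := by
  have e1 : x * y * x⁻¹ = c * y := eq_mul_of_mul_inv_eq h1
  have hr : x * x ∈ center D := mem_center hg ((Commute.refl x).mul_right rfl)
    (Eq.symm (mul_inv_eq_iff_eq_mul.1 (by
      calc _ = x * (x * y * x⁻¹) * x⁻¹ := by group
        _ = _ := by rw [e1, ← conj_mul, h3, e1, inv_mul_cancel_left])))
  have hs : c * (y * y) ∈ center D := mem_center hg (mul_inv_eq_iff_eq_mul.1 (by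
    rw [← conj_mul, ← conj_mul, h3, e1, mul_assoc c y, h2.left_comm, inv_mul_cancel_left]))
    (h2.mul_right ((Commute.refl y).mul_right rfl))
  have m : ∀ {a b : D}, a ∈ centralizer {b} ↔ a * b = b * a := mem_centralizer_singleton_iff
  have a1 := two_mul_card_le (A := centralizer {c}) le_top (mem_top x)
    fun h => h4 (mem_center hg (m.1 h) h2)
  have a2 := two_mul_card_le (A := center D ⊔ zpowers c) (P := centralizer {c})
    (sup_le (center_le_centralizer _) (zpowers_le.2 (m.2 rfl))) (m.2 h2) fun h => h4 (by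
      obtain ⟨a, ha, b, hb, h5⟩ := mem_sup_of_normal_left.1 h
      obtain ⟨i, rfl⟩ := exists_pow_of_mem hb
      have h6 : (c⁻¹) ^ i = c * c ^ i := by
        rw [← h5, ← conj_mul, mem_center_iff.1 ha, mul_inv_cancel_right, ← conj_pow, h3,
          ← mul_assoc, mem_center_iff.1 ha, mul_assoc, mul_right_inj] at e1
        exact e1
      obtain ⟨n, hn⟩ := IsPGroup.iff_orderOf.1 hD c
      have h7 := Cyc4.mem_zpowers_pow hn (i := 2 * i + 1) (by omega)
      rw [pow_succ', two_mul, pow_add, ← mul_assoc, ← h6, inv_pow, inv_mul_cancel,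
        zpowers_one_eq_bot, mem_bot] at h7
      exact h7 ▸ one_mem _)
  have a3 := two_mul_card_le (P := center D ⊔ zpowers c) le_sup_left
    (mem_sup_right (mem_zpowers c)) h4
  rw [card_top] at a1
  have key : ∀ z ∈ center D, ∀ u ∈ center D, u * u ∈ zpowers z →
      (c * (y * y) = z ∧ x * x = u ∨ c * (y * y) = u ∧ x * x = z) → Gen2Good.{v} D :=
    fun z hz u hu h5 h6 => ⟨z, hz, fun π hπ => by
      have b1 := (ker_iff hπ).2 (mem_zpowers z)
      rw [range_eq hg π]
      refine Or.inl (udGen (u := π u) (pow_map hD π y) (range_eq hg π ▸ ⟨u, rfl⟩)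
        (Commute.map (mem_center_iff.1 hu x) π) (Commute.map (mem_center_iff.1 hu y) π)
        (map_mul π u u ▸ (ker_iff hπ).2 h5) ?_ ?_ fun h7 => h4 ((mul_mem_cancel_right
          (zpowers_le.2 hz ((ker_iff hπ).1 ((map_mul π y y).trans h7)))).1 hs))
      · rw [← map_inv, ← map_mul, ← map_mul, ← map_mul, e1, mul_assoc]
        rcases h6 with h6 | h6 <;> simp [h6.1, b1]
      · rw [← map_mul]
        rcases h6 with h6 | h6 <;> simp [h6.2, b1]⟩
  by_cases h5 : c * (y * y) * (c * (y * y)) = 1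
  · exact key _ hr _ hs (h5 ▸ one_mem _) (Or.inr ⟨rfl, rfl⟩)
  obtain ⟨k, hk⟩ := four_le_orderOf (hD _) h5
  refine key _ hs _ hr ?_ (Or.inl ⟨rfl, rfl⟩)
  by_cases h6 : x * x ∈ zpowers (c * (y * y))
  · exact mul_mem h6 h6
  refine two_of_card (zpowers_le.2 hs) ?_ _ hr _ hr h6 h6
  rw [Nat.card_zpowers, hk, pow_add]
  have := Nat.two_pow_pos k
  omega

theorem good_of_four (h : Nat.card (commutator D) ≤ 4) : Gen2Good.{v} D := by
  obtain ⟨x, y, c, w, hg, h1, h2⟩ := exists_rel hg hD h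
  by_cases h0 : c ∈ center D
  · exact good_of_center hg hD (h1 ▸ h0)
  obtain ⟨h2, h3, h4, h5, h6, h7 | h7⟩ := h2.resolve_left h0
  · exact good_of_tr hg hD hc (tr_of hg h1 h2 h3 h4 h5 h6 h7)
  · refine good_of_inv hg hD hc h1 h2 (eq_inv_of_mul_eq_one_left ?_) h0
    rw [eq_mul_of_mul_inv_eq h3, mul_assoc, h7, h5]

theorem pow_four (h8 : ∀ g : D, g ^ 8 = 1) (h4 : ∀ g : D, g ^ 4 ∈ commutator D)
    (hN : Nat.card (commutator D) ≤ 8) {a : D} (ha : a ∈ commutator D) : a ^ 4 = 1 := by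
  by_contra h0
  have ord : orderOf a = 2 ^ (2 + 1) := orderOf_eq_prime_pow h0 (h8 a)
  have e : zpowers a = commutator D := eq_of_le_of_card_ge (zpowers_le.2 ha) (by
    rwa [Nat.card_zpowers, ord])
  have cj : ∀ g, ∀ n ∈ zpowers a, g * n * g⁻¹ ∈ zpowers a := fun g n hn =>
    e ▸ Normal.conj_mem inferInstance n (e ▸ hn) g
  have cm : ∀ m ∈ zpowers a, ∀ n ∈ zpowers a, Commute m n := fun m hm n hn => by
    obtain ⟨i, rfl⟩ := exists_pow_of_mem hm
    obtain ⟨j, rfl⟩ := exists_pow_of_mem hn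
    exact Commute.pow_pow_self a i j
  have tt := half_mul_half ord
  have tZ : a ^ 2 ^ 2 ∈ center D := mem_center_iff.2 fun g => mul_inv_eq_iff_eq_mul.1
    ((eq_half ord (cj g _ (pow_mem (mem_zpowers a) _)) (by rw [conj_mul, tt]; simp)).resolve_left
      (by simpa using h0))
  have k : ∀ n ∈ zpowers a, n * n = 1 → n ∈ zpowers (a ^ 2 ^ 2) := fun n hn h =>
    (mem_zpowers_iff_two tt).2 (eq_half ord hn h)
  have k1 : ∀ g, ∀ n ∈ zpowers a, Commute g (n * n) → g * n * g⁻¹ * n⁻¹ ∈ zpowers (a ^ 2 ^ 2) :=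
    fun g n hn h => k _ (mul_mem (cj g n hn) (inv_mem hn)) (by
      rw [← sq, (cm _ (cj g n hn) _ (inv_mem hn)).mul_pow, sq, conj_mul, h.eq, inv_pow, sq]; simp)
  obtain ⟨x, y, hg, h1⟩ := exists_gen_comm hg tZ tt (s := a ^ 2) fun g =>
    k1 g _ (pow_mem (mem_zpowers a) 2) (by rw [← pow_add]; exact mem_center_iff.1 tZ g)
  have hc : x * y * x⁻¹ * y⁻¹ ∈ zpowers a :=
    e.ge (commutator_mem_commutator (mem_top x) (mem_top y))
  obtain ⟨j, hj⟩ := exists_pow_of_mem hc
  obtain ⟨l, hl⟩ := exists_pow_of_mem (commutator_le_zpowers hg (fun g => by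
    obtain ⟨i, hi⟩ := exists_pow_of_mem (cj g a (mem_zpowers a))
    rw [hj, ← conj_pow, hi, ← pow_mul, mul_comm, pow_mul]
    exact pow_mem (mem_zpowers _) i) ha)
  generalize hc' : x * y * x⁻¹ * y⁻¹ = c at *
  have h2 : Commute y (c * c) := by
    rw [hj, ← pow_add, ← two_mul, pow_mul]
    exact h1.pow_right j
  have h3 := zpowers_le.2 tZ (k1 y c hc h2)
  have h5 := (mem_zpowers_iff_two tt).1 (k1 y c hc h2)
  generalize ht : y * c * y⁻¹ * c⁻¹ = t at h3 h5
  replace h5 : t * t = 1 := h5.elim (by simp [·]) (· ▸ tt)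
  have h6 : c * y * (c * y) = t * (c * c * (y * y)) := by
    rw [← mul_assoc t, ← mul_assoc t, ← mem_center_iff.1 h3, ← ht]
    group
  have h7 : x * y ^ 4 * x⁻¹ = c ^ 4 * y ^ 4 := by
    calc _ = c * y * (c * y) * (c * y * (c * y)) := by
          rw [← conj_pow, eq_mul_of_mul_inv_eq hc']
          simp only [pow_succ, pow_zero, one_mul, mul_assoc]
      _ = _ := by
          rw [h6, mul_assoc t, ← mul_assoc _ t, mem_center_iff.1 h3, ← mul_assoc t, ← mul_assoc t t,
            h5, one_mul, ← sq, (h2.symm.mul_right h2.symm).mul_pow, ← sq, ← sq, ← pow_mul,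
            ← pow_mul]
  rw [mem_center_iff.1 (zpowers_le.2 tZ (k _ (e.ge (h4 y)) (by rw [← pow_add, h8]))),
    mul_inv_cancel_right, eq_comm, mul_eq_right] at h7
  exact h0 (by rw [hl, ← pow_mul, mul_comm, pow_mul, h7, one_pow])

theorem good_of_eight (hN : Nat.card (commutator D) = 8) (h4 : ∀ a ∈ commutator D, a ^ 4 = 1) :
    Gen2Good.{v} D := by
  obtain ⟨z, hz, z1, zz, zZ, h1⟩ : ∃ z ∈ commutator D, z ≠ 1 ∧ z * z = 1 ∧ z ∈ center D ∧
      ∀ b ∈ commutator D, b * b ∈ zpowers z := by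
    by_cases h0 : ∀ b ∈ commutator D, b * b = 1
    · obtain ⟨z, h1, h2, h3, h5⟩ := exists_central_invol hD (commutator D) fun h => by
        simp [h] at hN
      exact ⟨z, h1, h2, h3, h5, fun b hb => h0 b hb ▸ one_mem _⟩
    obtain ⟨a, ha, h0⟩ := by simpa using h0
    have ord : orderOf a = 2 ^ (1 + 1) := orderOf_eq_prime_pow (by simpa [sq] using h0) (h4 a ha)
    have k : ∀ b ∈ commutator D, b * b = 1 ∨ b * b = a ^ 2 ^ 1 := fun b hb => eq_half ord (by
      by_cases h : b ∈ zpowers a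
      exacts [mul_mem h h, two_of_card (zpowers_le.2 ha) (by rw [Nat.card_zpowers, ord, hN]; rfl)
        b hb b hb h h]) (by rw [← sq b, ← pow_add, h4 b hb])
    refine ⟨_, pow_mem ha _, half_ne_one ord, half_mul_half ord, mem_center_iff.2 fun g =>
      mul_inv_eq_iff_eq_mul.1 ?_, fun b hb => (mem_zpowers_iff_two (half_mul_half ord)).2 (k b hb)⟩
    have := k _ (Normal.conj_mem inferInstance a ha g)
    rw [conj_mul, conj_eq_one_iff] at this
    simpa only [pow_one, sq] using this.resolve_left h0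
  refine ⟨z, zZ, fun π hπ => ?_⟩
  have hρ := π.rangeRestrict_surjective
  have hk : π.rangeRestrict.ker = zpowers z := π.ker_rangeRestrict.trans hπ
  have h2 : (commutator D).map π.rangeRestrict = commutator π.range := by
    rw [_root_.commutator_def, map_commutator, map_top_of_surjective _ hρ, _root_.commutator_def]
  have h3 := card_mul_index (π.rangeRestrict.ker.subgroupOf (commutator D))
  rw [← relIndex, relIndex_ker, h2, hk, Nat.card_congr (subgroupOfEquivOfLe
    (zpowers_le.2 hz)).toEquiv, Nat.card_zpowers, orderOf_eq_two z1 zz, hN] at h3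
  obtain ⟨x, y, c, w, hg, e1, e2⟩ := exists_rel
    ((range_eq hg _).symm.trans (MonoidHom.range_eq_top.2 hρ)) (hD.of_surjective _ hρ) (by omega)
  have cc : c * c = 1 := by
    obtain ⟨b, hb, e⟩ := h2.ge (commutator_mem_commutator (mem_top x) (mem_top y))
    rw [← e1, ← commutatorElement_def, ← e, ← map_mul, ker_iff hk]
    exact h1 b hb
  rcases e2 with e2 | ⟨e2, e3, e4, e5, e6, -⟩
  · have h5 := card_le_of_le (commutator_le_zpowers hg fun g => by
      rw [e1, mem_center_iff.1 e2, mul_inv_cancel_right]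
      exact mem_zpowers c)
    have h6 := orderOf_le_of_pow_eq_one two_pos ((sq c).trans cc)
    rw [e1, Nat.card_zpowers] at h5
    omega
  · have h5 := (tr_of hg e1 e2 e3 e4 e5 e6 cc).map π.range.subtype (by simpa using e6)
    rw [← MonoidHom.range_eq_map, range_subtype] at h5
    exact h5.fine' (card_range hπ hc z1)

theorem good : Gen2Good.{v} D := by
  by_cases h0 : ∃ g : D, Nat.card D ≤ 4 * orderOf g
  · obtain ⟨g, h0⟩ := h0
    obtain ⟨z, hz, h1⟩ := exists_cycFourQuot.{v} hD h0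
    exact ⟨z, hz, fun π hπ => Or.inl (h1 π hπ)⟩
  simp only [not_exists, not_le] at h0
  by_cases h1 : Nat.card (commutator D) ≤ 4
  · exact good_of_four hg hD hc h1
  have pw : ∀ {m : ℕ}, (∃ k, m = 2 ^ k) → m < 16 → m = 8 ∨ m ≤ 4 := by
    rintro _ ⟨k, rfl⟩ h
    have : k < 4 := (Nat.pow_lt_pow_iff_right one_lt_two).1 h
    interval_cases k <;> simp
  obtain ⟨n, hn⟩ := IsPGroup.iff_card.1 hD
  have h2 := card_mul_index (commutator D)
  have h3 : 4 < (commutator D).index := not_le.1 fun h => by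
    have h3 : 2 < n := (Nat.pow_lt_pow_iff_right one_lt_two).1 (by simpa [hn] using h0 1)
    obtain ⟨c, h4⟩ := exists_orderOf_of_index_commutator_le h3 hn h
    have h5 := h0 c
    rw [h4, hn, ← Nat.sub_add_cancel (show 1 ≤ n by omega), pow_succ, Nat.add_sub_cancel] at h5
    omega
  have h4 := (pw (IsPGroup.iff_card.1 (hD.to_subgroup _)) (by nlinarith)).resolve_right h1
  have h5 : (commutator D).index ≤ 8 := by nlinarith
  have h8 : ∀ g : D, g ^ 8 = 1 := fun g => by
    obtain ⟨k, hk⟩ := IsPGroup.iff_orderOf.1 hD g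
    have h6 := h0 g
    have : k < 4 := (Nat.pow_lt_pow_iff_right one_lt_two).1 (by omega)
    rw [← orderOf_dvd_iff_pow_eq_one, hk]
    exact pow_dvd_pow 2 (show k ≤ 3 by omega)
  refine good_of_eight hg hD hc h4 fun a => pow_four hg hD hc h8 (fun g => of_not_not fun h6 => ?_)
    h4.le
  have h7 : orderOf (g : D ⧸ commutator D) = 2 ^ (2 + 1) := orderOf_eq_prime_pow
    (mt (QuotientGroup.eq_one_iff (g ^ 4)).1 h6) (congrArg QuotientGroup.mk (h8 g))
  have := isCyclic_of_isCyclic_abelianization hD (isCyclic_of_orderOf_eq_card _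
    (le_antisymm orderOf_le_card (h5.trans h7.ge)))
  obtain ⟨b, hb⟩ := IsCyclic.exists_ofOrder_eq_natCard (α := D)
  have := h0 b
  omega

end Gen2

end Cfsg.Agent.Block
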