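import Mathlib
import Cfsg.Agent.Block.AbLoc
import Cfsg.Agent.Block.KerPi

/-! Brauer's bound for the heights in terms of the centre of a defect group. -/

set_option autoImplicit false
set_option linter.unusedSectionVars false
set_option linter.style.haveILetI false

namespace Cfsg.Agent.Block

open Cfsg Cfsg.Agent.Char MonoidAlgebra Subgroup
open scoped ComplexConjugate

variable {G : Type*} [Group G] [Finite G] {M : Ideal AlgInt} {p : ℕ} [hp : Fact p.Prime]
  {B : Set (IrrCharacter G)} {P : Subgroup G} {e : MonoidAlgebra (resField M) G} {u v : G}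

/-- Burnside's fusion lemma for central subgroups of a defect group. -/
theorem Alg.MaxBP.exists_nst_of_central {k : Type*} [Field k] [CharP k p] {H P Q : Subgroup G}
    {b e f : MonoidAlgebra k G} (hm : Alg.MaxBP p H b P e) (hle : Alg.PLE p H Q f P e) {x : G}
    (hx : x ∈ H) (h : Alg.PLE p H (Q.map (Alg.cm x)) (Alg.cj x f) P e)
    (h0 : P ≤ centralizer (Q : Set G)) (h0' : P ≤ centralizer (Q.map (Alg.cm x) : Set G)) :
    ∃ c ∈ H ⊓ centralizer (Q : Set G), x * c ∈ Alg.nst H P e := by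
  have hPC : P ≤ H ⊓ centralizer (Q : Set G) := le_inf hm.of.pair.le h0
  have hD := hm.isDef_of_le hle le_rfl hle.left.centralizer_le_nst hPC
  rw [← inf_of_le_left hPC] at hD
  have h1 := h.cj (H.inv_mem hx)
  rw [Alg.map_cm_inv_map, Alg.cj_inv_cj] at h1
  have h2 : P.map (Alg.cm x⁻¹) ≤ H ⊓ centralizer (Q : Set G) := by
    refine le_inf h1.right.le ((map_mono h0').trans_eq ?_)
    rw [Alg.map_cm_centralizer, Alg.map_cm_inv_map]
  obtain ⟨c, hc, h3⟩ := Alg.MaxBP.exists_centralizer_conj hle hD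
    (h1.nle_of_normal ((h2.trans inf_le_right).trans (centralizer_le_normalizer _)))
    (h2.trans le_sup_right)
  rw [← Alg.map_cm_mul, ← Alg.cj_mul] at h3
  have h4 : P.map (Alg.cm (c * x⁻¹)) = P := eq_of_le_of_card_ge h3.le (Alg.card_map_cm P _).ge
  refine ⟨c⁻¹, inv_mem hc, ?_⟩
  have h5 : c * x⁻¹ ∈ Alg.nst H P e := Alg.mem_nst.2 ⟨H.mul_mem hc.1 (H.inv_mem hx),
    Alg.map_cm_eq_iff.1 h4, (h3.eq_of_ge h4.ge).2⟩
  simpa using inv_mem h5

omit hp in
theorem card_mul_pow_le_of_galAt {A : Type*} [Group A] [Fintype A] (hM : IsPModular p M)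
    {F : A → ℂ} (hG : ∀ u, GalAt F u) (h0 : ∀ u, F u ≠ 0) {h : ℕ}
    (hv : ∀ u, val M (F u) ≤ val M (p : ℂ) ^ h) : Nat.card A * (p : ℝ) ^ h ≤ ∑ u, ‖F u‖ := by
  obtain ⟨z, hz⟩ := exists_int_of_forall_ringEquiv (x := ∏ u, F u)
    (IsIntegral.prod _ fun u _ => (hG u).1) fun σ => by
      obtain ⟨m, hm, hσ⟩ := exists_pow_of_ringHom σ.toRingHom (n := Nat.card A) Nat.card_pos.ne'
      rw [map_prod, Finset.prod_congr rfl fun u _ => (hG u).2 σ m hm hσ]
      exact Equiv.prod_comp (powCoprime hm.symm) F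
  have hz0 : z ≠ 0 := by
    rintro rfl
    exact Finset.prod_ne_zero_iff.mpr (fun u _ => h0 u) (by simpa using hz)
  have h1 : val M (z : ℂ) ≤ val M (p : ℂ) ^ (h * (Finset.univ : Finset A).card) := by
    rw [← hz, map_prod, pow_mul, ← Finset.prod_const]
    exact Finset.prod_le_prod' fun u _ => hv u
  have h2 := Int.le_of_dvd (abs_pos.2 hz0) ((dvd_abs _ _).2 ((val_intCast_le_pow_iff hM _ _).1 h1))
  rw [Nat.card_eq_fintype_card]
  refine card_mul_le_sum_of_prod _ _ (fun u _ => norm_pos_iff.2 (h0 u))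
    (pow_pos (Nat.cast_pos.2 hM.1.pos) _) ?_
  rw [← norm_prod, hz, Complex.norm_intCast, ← pow_mul]
  exact_mod_cast h2

omit hp in
theorem le_centralizer_of_center (z : center P) : P ≤ centralizer {((z : P) : G)} := fun x hx =>
  mem_centralizer_singleton_iff.2 (congrArg Subtype.val (mem_center_iff.1 z.2 ⟨x, hx⟩))

namespace MP

variable (h : MP p B P e)
include h

theorem exists_nst_of_central (hu : P ≤ centralizer {u}) (hv : P ≤ centralizer {v})
    (h1 : PF p P e u v) : ∃ t ∈ Alg.nst ⊤ P e, t * u * t⁻¹ = v := by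
  have := charP_resField h.hM
  obtain ⟨g, f, rfl, h1, h2⟩ := h1
  obtain ⟨c, hc, h3⟩ := h.hm.exists_nst_of_central h1 (mem_top g) (by rwa [zpowers_map_cm])
    (by rwa [centralizer_zpowers_eq]) (by rwa [zpowers_map_cm, centralizer_zpowers_eq])
  refine ⟨_, h3, ?_⟩
  rw [mul_assoc g, ← hc.2 u (mem_zpowers u)]
  group

theorem card_pf_center_le (u : G) : Nat.card {z : center P // PF p P e u (z : P)} ≤
    (P ⊔ centralizer (P : Set G)).relIndex (Alg.nst ⊤ P e) := by
  rcases isEmpty_or_nonempty {z : center P // PF p P e u (z : P)} with h0 | ⟨⟨z, hz⟩⟩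
  · simp
  choose t h1 h2 using fun w : {z : center P // PF p P e u (z : P)} =>
    h.exists_nst_of_central (le_centralizer_of_center z) (le_centralizer_of_center w.1)
      (h.pf_trans hz.symm w.2)
  refine Nat.card_le_card_of_injective (fun w => (QuotientGroup.mk ⟨t w, h1 w⟩ :
    Alg.nst ⊤ P e ⧸ (P ⊔ centralizer (P : Set G)).subgroupOf _)) fun w w' h3 => ?_
  have h4 := mem_centralizer_singleton_iff.1 (sup_le (le_centralizer_of_center z)
    (centralizer_le (Set.singleton_subset_iff.2 z.1.2)) (mem_subgroupOf.1 (QuotientGroup.eq.1 h3)))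
  refine Subtype.ext (Subtype.ext (Subtype.ext ?_))
  rw [← h2, ← h2]
  calc _ = t w * (((z : P) : G) * ((t w)⁻¹ * t w')) * (t w')⁻¹ := by group
    _ = _ := by erw [← h4]; simp [mul_assoc]

theorem defect_of_central (hv : v ∈ P) (hP : P ≤ centralizer {v}) :
    blockDefect p (lblk p P e v) = blockDefect p B := by
  obtain ⟨e', h', -⟩ := h.exists_sub hv hP
  exact blockDefect_eq_of_majorSub h.hM (h.ind hv) h.isDefectGroup h'.isDefectGroup hP

theorem sctr_eq_of_centralizer_eq (hu : u ∈ P) (hv : v ∈ P)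
    (hC : centralizer ({v} : Set G) = centralizer {u}) (χ ψ : G → ℂ) :
    sctr p (lblk p P e v) v χ ψ = sctr p (lblk p P e u) v χ ψ := by
  have := fun x : G => Fintype.ofFinite (centralizer ({x} : Set G))
  rw [sctr_eq_bcmp h.hM (h.block hv), sctr_eq_bcmp h.hM (h.block hu),
    h.defect_eq_of_centralizer_eq hu hv hC, h.lblk_eq_of_centralizer_eq hu hv hC,
    bcmp_transport (MulEquiv.subgroupCongr hC) (χ := χ) (x := v) fun _ => rfl,
    bcmp_transport (MulEquiv.subgroupCongr hC) (χ := ψ) (x := v) fun _ => rfl,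
    classInner_comp_mulEquiv]

theorem galAt_sctr {A : Type*} [Group A] [Fintype A] (ι : A →* G) (hι : Function.Injective ι)
    (hA : ∀ a, ι a ∈ P) {χ ψ : G → ℂ} (hχ : IsGeneralizedCharacter G χ)
    (hψ : IsGeneralizedCharacter G ψ) (a : A) :
    GalAt (fun a => sctr p (lblk p P e (ι a)) (ι a) χ ψ) a := by
  have h1 := isGen_sctr_zpowers h.hM rfl (h.block (hA a)) hχ hψ
  refine ⟨h1.isIntegral (ygen _), fun σ m hm hσ => ?_⟩
  have h2 : orderOf (ι a) ∣ Nat.card A := orderOf_injective ι hι a ▸ orderOf_dvd_natCard a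
  refine (h1.galois_apply σ.toRingHom hσ (ygen (ι a))
    (orderOf_dvd_iff_pow_eq_one.1 (orderOf_ygen (ι a) ▸ h2))).trans ?_
  beta_reduce
  rw [h.sctr_eq_of_centralizer_eq (hA a) (hA (a ^ m)) (by
    rw [map_pow, centralizer_pow_eq_of_coprime (hm.coprime_dvd_right h2)]), map_pow]
  rfl

theorem sum_center_le {χ : IrrCharacter G} (hχ : χ ∈ B) [Fintype (center P)] :
    ∑ z : center P, ‖sctr p (lblk p P e (z : P)) (z : P) (χ : G → ℂ) (χ : G → ℂ)‖ ≤
      (P ⊔ centralizer (P : Set G)).relIndex (Alg.nst ⊤ P e) * Nat.card P := by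
  classical
  have := Fintype.ofFinite G
  have := Fintype.ofFinite P
  have := fun x : G => Fintype.ofFinite (centralizer ({x} : Set G))
  let r : G → ℝ := fun v => (classInner (bcmp p _ v (lblk p P e v) (χ : G → ℂ))
    (bcmp p _ v (lblk p P e v) (χ : G → ℂ))).re
  let w : G → ℝ := fun u => (Nat.card {v : P // PF p P e u v} : ℝ)⁻¹
  have hr : ∀ v, classInner (bcmp p _ v (lblk p P e v) (χ : G → ℂ))
      (bcmp p _ v (lblk p P e v) (χ : G → ℂ)) = r v := fun v =>
    Complex.ext rfl (classInner_self_im _)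
  have hr0 : ∀ v, 0 ≤ r v := fun v => classInner_self_re_nonneg _
  have hw : ∀ u, pfw p P e u = w u := fun u => by simp [pfw, w]
  have h1 := h.classInner_eq_sum_wt (rep := Subtype.val) (fun v : P => v.2) h.sum_pfw
    (blockPart_irr_of_mem hχ) χ.2.isClassFunction
  simp only [hr, hw, χ.2.inner_self] at h1
  have h2 : ∑ u : P, w u * r u = 1 := by exact_mod_cast h1.symm
  have h3 : ∀ z : center P, r (z : P) = ∑ u : P, if PF p P e u (z : P) then w u * r u else 0 := by
    intro z
    have h4 := h.sum_pfw _ z.1.2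
    simp only [hw] at h4
    have h5 : ∑ u : P, (if PF p P e u (z : P) then w u else 0) = 1 := by
      rw [← Complex.ofReal_inj, Complex.ofReal_sum, Complex.ofReal_one, ← h4]
      exact Finset.sum_congr rfl fun u _ => by split_ifs <;> simp
    rw [← one_mul (r _), ← h5, Finset.sum_mul]
    refine Finset.sum_congr rfl fun u _ => ?_
    split_ifs with h6
    · simp only [r, h.inner_bcmp_eq h6 χ.2.isClassFunction χ.2.isClassFunction]
    · rw [zero_mul]
  rw [Finset.sum_congr rfl fun z _ => by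
    rw [sctr_eq_bcmp h.hM (h.block z.1.2), hr, h.defect_of_central z.1.2
      (le_centralizer_of_center z), ← Nat.cast_pow, ← h.card, norm_mul, Complex.norm_natCast,
      Complex.norm_of_nonneg (hr0 _), h3], ← Finset.mul_sum, mul_comm, Finset.sum_comm]
  gcongr
  rw [← mul_one (Nat.cast _ : ℝ), ← h2, Finset.mul_sum]
  refine Finset.sum_le_sum fun u _ => ?_
  rw [← Finset.sum_filter, Finset.sum_const, nsmul_eq_mul, ← Fintype.card_subtype,
    ← Nat.card_eq_fintype_card]
  exact mul_le_mul_of_nonneg_right (Nat.cast_le.2 (h.card_pf_center_le u))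
    (mul_nonneg (by positivity) (hr0 _))

theorem card_center_mul_pow_le {χ : IrrCharacter G} (hχ : χ ∈ B) :
    Nat.card (center P) * p ^ blockHeight p B (χ : G → ℂ) ≤
      (P ⊔ centralizer (P : Set G)).relIndex (Alg.nst ⊤ P e) * Nat.card P := by
  have := Fintype.ofFinite (center P)
  have h1 := fun z : center P => h.defect_of_central z.1.2 (le_centralizer_of_center z)
  have h2 := (card_mul_pow_le_of_galAt h.hM (h.galAt_sctr (P.subtype.comp (center P).subtype)
    (Subtype.val_injective.comp Subtype.val_injective) (fun z => z.1.2) χ.2.isGen χ.2.isGen)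
    (fun z h2 => regPart_blockPart_sec_ne_zero_of_major h.hM (h.ind z.1.2) (h1 z)
      (inclusion_mem_center rfl (ygen _)) (orderOf_inclusion_eq_pow (h.order z.1.2) rfl _) hχ
      ((sctr_self_eq_zero_iff h.hM (h.block z.1.2) _ _).1 h2))
    fun z => val_sctr_zp_le_of_major h.hM rfl (h1 z) hχ χ.2.isGen (ygen _)).trans
    (h.sum_center_le hχ)
  exact_mod_cast h2

end MP

/-- A block of `P C_G(P)` inducing `B` gives a maximal Brauer pair. -/
theorem mp_of_sup (hM : IsPModular p M) (hD : IsDefectGroup p M B P) {H : Subgroup G}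
    (hH : H = P ⊔ centralizer (P : Set G)) {b : Set (IrrCharacter H)}
    (hind : IsInducedBlock M H b B) : MP p B P (sbar M H b) := by
  have := charP_resField hM
  have h1 : P ≤ H := hH ▸ le_sup_left
  have h2 : centralizer (P : Set G) ≤ H := hH ▸ le_sup_right
  have h3 := isPrim_bar_subtype hM hind.1
  have hP := isPGroup_of_isDefectGroup hD
  obtain ⟨e, he⟩ := Alg.exists_of_of_br_ne_zero h3 h1 hP (by
    rw [Alg.br_eq_of_normal hP h1 (hH ▸ sup_le le_normalizer (centralizer_le_normalizer _))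
      h3.mem h3.idem]
    exact h3.ne_zero)
  have h4 : sbar M H b = e := he.unique ⟨he.pair.isPrim_Z h1 inf_le_left (hH.le.trans
    (sup_le he.pair.le_nst ((le_inf h2 le_rfl).trans he.pair.centralizer_le_nst))), he.pair, by
      rw [he.pair.br_eq, he.pair.prim.idem]⟩
  refine ⟨hM, hind.2.1, ?_⟩
  rw [h4]
  exact ((isInducedBlock_iff_of hM hind.1 he h2 hind.2.1).1 hind).maxBP_of_isDef
    ((isDef_top_iff hM hind.2.1).2 hD)

end Cfsg.Agent.Block
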