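import Mathlib
import Cfsg.Agent.Char.CycCoset
import Cfsg.Agent.Char.Degrees
import Cfsg.Agent.Char.AmbExt
import Cfsg.Agent.Char.Zeros
import Cfsg.Agent.Block.PPart

/-!
# Knörr's quadratic form for the `k(GV)` problem: abelian stabilisers
-/

set_option autoImplicit false
set_option linter.unusedSectionVars false
set_option linter.style.haveILetI false

namespace Cfsg.Agent.Block

open Cfsg Cfsg.Agent.Char Subgroup
open scoped ComplexConjugate

theorem sum_sum_norm_sub_sq {ι : Type*} [Fintype ι] (y : ι → ℂ) :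
    ∑ j, ∑ k, ‖y j - y k‖ ^ 2 = 2 * (Fintype.card ι * ∑ j, ‖y j‖ ^ 2 - ‖∑ j, y j‖ ^ 2) := by
  have h : ‖∑ j, y j‖ ^ 2 = ∑ j, ∑ k, (y j * conj (y k)).re := by
    rw [← Complex.normSq_eq_norm_sq, ← Complex.ofReal_re (Complex.normSq _), ← Complex.mul_conj,
      map_sum, Finset.sum_mul_sum]
    simp only [Complex.re_sum]
  simp only [← Complex.normSq_eq_norm_sq, Complex.normSq_sub] at h ⊢
  rw [h]
  simp only [Finset.sum_sub_distrib, Finset.sum_add_distrib, Finset.sum_const, Finset.card_univ,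
    nsmul_eq_mul, ← Finset.mul_sum]
  ring

theorem graph_bound {ι β : Type*} [Fintype ι] (x : ι → β) {i₀ i₁ : ι} (hne : x i₀ ≠ x i₁)
    (F : ι → ι → ℝ) {m : ℝ} (hm : 0 ≤ m) (h0 : ∀ j k, 0 ≤ F j k)
    (h : ∀ j k, x j ≠ x k → m ≤ F j k) : 2 * ((Fintype.card ι - 1) * m) ≤ ∑ j, ∑ k, F j k := by
  classical
  set S := Finset.univ.filter fun j => x j = x i₀ with hS
  set T := Finset.univ.filter fun j => ¬ x j = x i₀ with hT
  have h1 : (S.card : ℝ) + T.card = Fintype.card ι := by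
    exact_mod_cast Finset.card_filter_add_card_filter_not (s := Finset.univ) _
  have h2 : (1 : ℝ) ≤ S.card := by exact_mod_cast Finset.card_pos.2 ⟨i₀, by simp [hS]⟩
  have h3 : (1 : ℝ) ≤ T.card := by exact_mod_cast Finset.card_pos.2 ⟨i₁, by simp [hT, hne.symm]⟩
  have key : ∀ U W : Finset ι, (∀ j ∈ U, ∀ k ∈ W, x j ≠ x k) →
      U.card * (W.card * m) ≤ ∑ j ∈ U, ∑ k, F j k := fun U W hUW => by
    rw [← nsmul_eq_mul, ← nsmul_eq_mul]
    refine Finset.card_nsmul_le_sum _ _ _ fun j hj => (Finset.card_nsmul_le_sum _ _ _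
      fun k hk => h j k (hUW j hj k hk)).trans ?_
    exact Finset.sum_le_sum_of_subset_of_nonneg (Finset.subset_univ _) fun k _ _ => h0 j k
  have h4 := key S T fun j hj k hk e => by
    simp only [hS, hT, Finset.mem_filter] at hj hk; exact hk.2 (e ▸ hj.2)
  have h5 := key T S fun j hj k hk e => by
    simp only [hS, hT, Finset.mem_filter] at hj hk; exact hj.2 (e ▸ hk.2)
  rw [← Finset.sum_filter_add_sum_filter_not Finset.univ (fun j => x j = x i₀), ← hS, ← hT, ← h1]
  nlinarith [mul_nonneg (mul_nonneg (sub_nonneg.2 h2) (sub_nonneg.2 h3)) hm]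

section Lattice

variable {A : Type*} [CommGroup A] [Fintype A]

/-- A lower bound for the form with weight `δ` on generalised characters of `A / L`. -/
def KP (δ : A → ℝ) (L : Subgroup A) (m : ℝ) : Prop :=
  ∀ θ : A → ℂ, IsGeneralizedCharacter A θ → θ ≠ 0 → (∀ l ∈ L, ∀ t, θ (l * t) = θ t) →
    m ≤ ∑ a, δ a * ‖θ a‖ ^ 2

theorem kp_top : KP (fun _ : A => 1) ⊤ (Nat.card A) := fun θ hθ h0 h => by
  obtain ⟨z, hz⟩ := hθ.exists_int_one
  have h1 : ∀ a, θ a = z := fun a => by rw [← hz, ← h a trivial 1, mul_one]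
  have h2 : z ≠ 0 := by rintro rfl; exact h0 (funext fun a => by simp [h1])
  have h3 : (1 : ℝ) ≤ |(z : ℝ)| := by exact_mod_cast Int.one_le_abs h2
  simp only [h1, one_mul, Complex.norm_intCast, Finset.sum_const, Finset.card_univ, nsmul_eq_mul,
    Nat.card_eq_fintype_card]
  exact le_mul_of_one_le_right (Nat.cast_nonneg _) (by nlinarith)

theorem KP.mono {δ δ' : A → ℝ} {L : Subgroup A} {m : ℝ} (h : KP δ L m) (hδ : ∀ a, δ a ≤ δ' a) :
    KP δ' L m := fun θ hθ h0 hL => (h θ hθ h0 hL).trans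
  (Finset.sum_le_sum fun a _ => mul_le_mul_of_nonneg_right (hδ a) (sq_nonneg _))

theorem KP.graph {δ : A → ℝ} {L : Subgroup A} {m : ℝ} (h : KP δ L m) (hm : 0 ≤ m)
    (hδ : ∀ a, 0 ≤ δ a) {ι : Type*} [Fintype ι] (x : ι → A → ℂ)
    (hx : ∀ i, IsGeneralizedCharacter A (x i)) (hL : ∀ i, ∀ l ∈ L, ∀ t, x i (l * t) = x i t)
    {i₀ i₁ : ι} (hne : x i₀ ≠ x i₁) : (Fintype.card ι - 1) * m ≤
      ∑ a, δ a * (Fintype.card ι * ∑ j, ‖x j a‖ ^ 2 - ‖∑ j, x j a‖ ^ 2) := by
  have := graph_bound x hne (fun j k => ∑ a, δ a * ‖x j a - x k a‖ ^ 2) hm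
    (fun j k => Finset.sum_nonneg fun a _ => mul_nonneg (hδ a) (sq_nonneg _))
    fun j k hjk => h (x j - x k) ((hx j).sub (hx k)) (sub_ne_zero.2 hjk) fun l hl t => by
      simp only [Pi.sub_apply, hL _ l hl]
  rw [Finset.sum_congr rfl fun j _ => Finset.sum_comm, Finset.sum_comm] at this
  simp only [← Finset.mul_sum, sum_sum_norm_sub_sq, mul_left_comm _ (2 : ℝ)] at this
  linarith

open Classical in
theorem sum_irr_quot (K : Subgroup A) (a b : A) :
    ∑ χ : IrrCharacter (A ⧸ K), χ.1 a * conj (χ.1 b) = if a * b⁻¹ ∈ K then (K.index : ℂ) else 0 := by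
  rw [sum_irr_mul_conj, isConj_iff_eq, QuotientGroup.eq_iff_div_mem, div_eq_mul_inv,
    show centralizer {(a : A ⧸ K)} = ⊤ from eq_top_iff.2 fun x _ =>
      mem_centralizer_singleton_iff.2 (mul_comm _ _), card_top]
  rfl

theorem card_irr_quot (K : Subgroup A) : Fintype.card (IrrCharacter (A ⧸ K)) = K.index := by
  have := sum_charDegree_sq (G := A ⧸ K)
  simp only [charDegree_eq_one_of_comm (G := A ⧸ K) fun a b => mul_comm a b, one_pow, Finset.sum_const, Finset.card_univ,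
    smul_eq_mul, mul_one] at this
  exact this

open Classical in
theorem exists_fourier (L K : Subgroup A) {θ : A → ℂ} (hθ : IsGeneralizedCharacter A θ)
    (hM : ∀ l ∈ L ⊓ K, ∀ t, θ (l * t) = θ t) : ∃ x : IrrCharacter (A ⧸ K) → A → ℂ,
      (∀ i, IsGeneralizedCharacter A (x i)) ∧ (∀ i, ∀ l ∈ L, ∀ t, x i (l * t) = x i t) ∧
      ∀ (δ : A → ℝ) (N : ℝ), (∀ l ∈ L, ∀ t, δ (l * t) = δ t) →
        K.relIndex L * ∑ a, δ a * (N * ∑ j, ‖x j a‖ ^ 2 - ‖∑ j, x j a‖ ^ 2) =
          K.index * ∑ a, δ a * (N - if a ∈ K then (K.index : ℝ) else 0) * ‖θ a‖ ^ 2 := by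
  letI := Fintype.ofFinite L
  refine ⟨fun χ => cavg L.subtype fun a => θ a * χ.1 a, fun χ => ?_,
    fun χ l hl t => cavg_mul_left L.subtype _ ⟨l, hl⟩ t, fun δ N hδ => ?_⟩
  · obtain ⟨a, b, ha, hb, e⟩ := hθ.mul ((χ.2.isCharacter.comp (QuotientGroup.mk' K)).isGen)
    have hn : L.subtype.range.Normal := inferInstance
    refine ⟨_, _, isCharacter_cavg _ L.subtype_injective hn ha,
      isCharacter_cavg _ L.subtype_injective hn hb, funext fun t => ?_⟩
    have e' : ∀ s, θ s * χ.1 s = a s - b s := fun s => congrFun e s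
    simp only [cavg, e', Pi.sub_apply, Finset.sum_sub_distrib, mul_sub]
  have hL0 : (Nat.card L : ℝ) ≠ 0 := Nat.cast_ne_zero.2 Nat.card_pos.ne'
  have hc : (Nat.card (K.subgroupOf L) : ℝ) * K.relIndex L = Nat.card L := by
    exact_mod_cast card_mul_index (K.subgroupOf L)
  have k1 : ∀ (t : A) (l : L) (c : ℂ), ∑ l' : L, θ (l * t) * conj (θ (l' * t)) *
      (if (l : A) * (l' : A)⁻¹ ∈ K then c else 0) =
        Nat.card (K.subgroupOf L) * (c * (‖θ (l * t)‖ ^ 2 : ℝ)) := by
    intro t l c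
    rw [← Equiv.sum_comp ((Equiv.inv L).trans (Equiv.mulRight l))]
    have : ∀ u : L, θ (l * t) * conj (θ ((u⁻¹ * l : L) * t)) *
        (if (l : A) * ((u⁻¹ * l : L) : A)⁻¹ ∈ K then c else 0) =
          if u ∈ K.subgroupOf L then c * (‖θ (l * t)‖ ^ 2 : ℝ) else 0 := fun u => by
      rw [show (l : A) * ((u⁻¹ * l : L) : A)⁻¹ = u by simp, mem_subgroupOf]
      split_ifs with hu
      · rw [coe_mul, mul_assoc ((u⁻¹ : L) : A), hM _ ⟨(u⁻¹).2, K.inv_mem hu⟩, Complex.mul_conj,
          Complex.normSq_eq_norm_sq, mul_comm]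
      · rw [mul_zero]
    simp only [Equiv.trans_apply, Equiv.inv_apply, Equiv.coe_mulRight, this]
    rw [← Finset.sum_filter, Finset.sum_const, nsmul_eq_mul, Nat.card_eq_fintype_card,
      Fintype.card_subtype]
  have k2 : ∀ t : A, (Nat.card L : ℝ) ^ 2 *
      ∑ j : IrrCharacter (A ⧸ K), ‖cavg L.subtype (fun a => θ a * j.1 a) t‖ ^ 2 =
        Nat.card (K.subgroupOf L) * ∑ l : L, K.index * ‖θ (l * t)‖ ^ 2 := by
    intro t
    have : ∀ j : IrrCharacter (A ⧸ K), (((Nat.card L : ℝ) ^ 2 *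
        ‖cavg L.subtype (fun a => θ a * j.1 a) t‖ ^ 2 : ℝ) : ℂ) = ∑ l : L, ∑ l' : L,
          θ (l * t) * conj (θ (l' * t)) * (j.1 ((l * t : A)) * conj (j.1 ((l' * t : A)))) := by
      intro j
      rw [← mul_pow, ← Complex.norm_natCast, ← norm_mul, cavg, mul_inv_cancel_left₀
        (card_ne_zero L), ← Complex.normSq_eq_norm_sq, ← Complex.mul_conj, map_sum,
        Finset.sum_mul_sum]
      refine Finset.sum_congr rfl fun l _ => Finset.sum_congr rfl fun l' _ => ?_
      simp only [coe_subtype, map_mul]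
      ring
    apply Complex.ofReal_injective
    rw [Finset.mul_sum, Complex.ofReal_sum, Finset.sum_congr rfl fun j _ => this j, Finset.sum_comm,
      Finset.mul_sum, Complex.ofReal_sum]
    refine Finset.sum_congr rfl fun l _ => ?_
    rw [Finset.sum_comm]
    simp only [← Finset.mul_sum, sum_irr_quot, mul_inv_rev, mul_assoc (l : A) t, mul_inv_cancel_left,
      k1]
    push_cast; ring
  have k3 : ∀ t : A, (Nat.card L : ℝ) ^ 2 *
      ‖∑ j : IrrCharacter (A ⧸ K), cavg L.subtype (fun a => θ a * j.1 a) t‖ ^ 2 =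
        Nat.card (K.subgroupOf L) * ∑ l : L, K.index *
          ((if (l : A) * t ∈ K then (K.index : ℝ) else 0) * ‖θ (l * t)‖ ^ 2) := by
    intro t
    have h1 : ∀ a : A, ∑ j : IrrCharacter (A ⧸ K), j.1 a = if a ∈ K then (K.index : ℂ) else 0 :=
      fun a => by
        have := sum_irr_quot K a 1
        simp only [QuotientGroup.mk_one, ← coe_charDegree_irr,
          charDegree_eq_one_of_comm (G := A ⧸ K) fun a b => mul_comm a b, Nat.cast_one, map_one, mul_one, inv_one] at this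
        exact this
    have h2 : (Nat.card L : ℂ) * ∑ j : IrrCharacter (A ⧸ K),
        cavg L.subtype (fun a => θ a * j.1 a) t =
          ∑ l : L, θ (l * t) * if (l : A) * t ∈ K then (K.index : ℂ) else 0 := by
      simp only [cavg, ← Finset.mul_sum, mul_inv_cancel_left₀ (card_ne_zero L), coe_subtype]
      rw [Finset.sum_comm]
      simp only [← Finset.mul_sum, h1]
    apply Complex.ofReal_injective
    rw [← mul_pow, ← Complex.norm_natCast, ← norm_mul, h2, ← Complex.normSq_eq_norm_sq,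
      ← Complex.mul_conj, map_sum, Finset.sum_mul_sum, Finset.mul_sum, Complex.ofReal_sum]
    refine Finset.sum_congr rfl fun l _ => ?_
    by_cases hl : (l : A) * t ∈ K
    · rw [Finset.sum_congr rfl fun (l' : L) _ => show _ = θ (l * t) * conj (θ (l' * t)) *
        (if (l : A) * (l' : A)⁻¹ ∈ K then (K.index : ℂ) ^ 2 else 0) by
          have : (l : A) * (l' : A)⁻¹ ∈ K ↔ (l' : A) * t ∈ K := by
            rw [← mul_mem_cancel_left (inv_mem hl), ← inv_mem_iff]
            simp [mul_comm]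
          simp only [this, if_pos hl]
          split_ifs <;> simp
          ring, k1, if_pos hl]
      push_cast; ring
    · simp [hl]
  have k4 : ∀ g : A → ℝ, ∑ t, δ t * ∑ l : L, g (l * t) = Nat.card L * ∑ a, δ a * g a := by
    intro g
    simp only [Finset.mul_sum]
    rw [Finset.sum_comm, Finset.sum_congr rfl fun (l : L) _ =>
      show ∑ t, δ t * g (l * t) = ∑ a, δ a * g a by
        rw [← Equiv.sum_comp (Equiv.mulLeft (l : A)) fun a => δ a * g a]
        simp [hδ l l.2]]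
    simp [← Finset.mul_sum]
  apply mul_left_cancel₀ (pow_ne_zero 2 hL0)
  have k5 := k4 fun a => K.index * ((N - if a ∈ K then (K.index : ℝ) else 0) * ‖θ a‖ ^ 2)
  calc _ = K.relIndex L * ∑ t, δ t * (N * ((Nat.card L : ℝ) ^ 2 *
        ∑ j : IrrCharacter (A ⧸ K), ‖cavg L.subtype (fun a => θ a * j.1 a) t‖ ^ 2) -
        (Nat.card L : ℝ) ^ 2 *
          ‖∑ j : IrrCharacter (A ⧸ K), cavg L.subtype (fun a => θ a * j.1 a) t‖ ^ 2) := by
        rw [mul_left_comm, Finset.mul_sum]
        exact congrArg _ (Finset.sum_congr rfl fun t _ => by ring)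
    _ = K.relIndex L * (Nat.card (K.subgroupOf L) * ∑ t, δ t * ∑ l : L, K.index *
        ((N - if (l : A) * t ∈ K then (K.index : ℝ) else 0) * ‖θ (l * t)‖ ^ 2)) := by
        simp only [k2, k3]
        rw [Finset.mul_sum Finset.univ _ (Nat.card (K.subgroupOf L) : ℝ)]
        refine congrArg _ (Finset.sum_congr rfl fun t _ => ?_)
        simp only [sub_mul, mul_sub, Finset.sum_sub_distrib, mul_left_comm (K.index : ℝ) N,
          ← Finset.mul_sum]
        ring
    _ = _ := by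
        rw [k5, ← mul_assoc, mul_comm (K.relIndex L : ℝ), hc]
        simp only [Finset.mul_sum]
        exact Finset.sum_congr rfl fun t _ => by ring

open Classical in
theorem KP.step {δ : A → ℝ} {L : Subgroup A} {m : ℝ} (h : KP δ L m) (hm : 0 ≤ m)
    (hδ : ∀ a, 0 < δ a) (hδL : ∀ l ∈ L, ∀ t, δ (l * t) = δ t) (K : Subgroup A) :
    KP (fun a => δ a * if a ∈ K then 1 else (K.index + 1 : ℝ)) (L ⊓ K) (K.relIndex L * m) := by
  intro θ hθ h0 hM
  obtain ⟨x, hx, hxL, e⟩ := exists_fourier L K hθ hM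
  have hK : (0 : ℝ) < K.index := Nat.cast_pos.2 (Nat.pos_of_ne_zero index_ne_zero_of_finite)
  have e1 := e δ (K.index + 1) hδL
  have e2 : ∀ a, δ a * ((K.index : ℝ) + 1 - if a ∈ K then (K.index : ℝ) else 0) =
      δ a * if a ∈ K then 1 else (K.index + 1 : ℝ) := fun a => by split_ifs <;> ring
  simp only [e2] at e1
  obtain ⟨j, hj⟩ : ∃ j, x j ≠ 0 := by
    by_contra! hz
    obtain ⟨a, ha⟩ := Function.ne_iff.1 h0
    simp only [hz, Pi.zero_apply, norm_zero, Finset.sum_const_zero, ne_eq, OfNat.ofNat_ne_zero,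
      not_false_eq_true, zero_pow, mul_zero, sub_zero] at e1
    have hpos : ∀ b, 0 < δ b * if b ∈ K then 1 else (K.index + 1 : ℝ) := fun b =>
      mul_pos (hδ b) (by split_ifs <;> positivity)
    exact (mul_pos hK (Finset.sum_pos' (fun b _ => mul_nonneg (hpos b).le (sq_nonneg ‖θ b‖))
      ⟨a, Finset.mem_univ a, mul_pos (hpos a) (pow_pos (norm_pos_iff.2 ha) 2)⟩)).ne e1
  have := h.graph hm (fun a => (hδ a).le) (fun o : Option _ => o.elim 0 x)
    (fun o => by cases o; exacts [isGen_zero, hx _])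
    (fun o l hl t => by cases o; exacts [rfl, hxL _ l hl t]) (i₀ := some j) (i₁ := none) hj
  simp only [Fintype.card_option, card_irr_quot, Fintype.sum_option, Option.elim, Pi.zero_apply,
    norm_zero, zero_add, Nat.cast_add, Nat.cast_one, add_sub_cancel_right, ne_eq,
    OfNat.ofNat_ne_zero, not_false_eq_true, zero_pow] at this
  refine le_of_mul_le_mul_left ?_ hK
  rw [← e1, mul_left_comm]
  exact mul_le_mul_of_nonneg_left this (Nat.cast_nonneg _)

open Classical in
theorem KP.step_zero {δ : A → ℝ} {L : Subgroup A} {m : ℝ} (h : KP δ L m) (hm : 0 ≤ m)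
    (hδ : ∀ a, 0 < δ a) (hδL : ∀ l ∈ L, ∀ t, δ (l * t) = δ t) {K : Subgroup A} (hLK : L ⊓ K = ⊥)
    (hi : K.relIndex L = K.index) {θ : A → ℂ} (hθ : IsGeneralizedCharacter A θ) {a : A}
    (ha : a ∉ K) (h0 : θ a ≠ 0) :
    (K.index - 1) * m ≤ K.index * ∑ a ∈ Finset.univ.filter (· ∉ K), δ a * ‖θ a‖ ^ 2 := by
  obtain ⟨x, hx, hxL, e⟩ := exists_fourier L K hθ (fun l hl t => by
    rw [hLK, mem_bot] at hl; rw [hl, one_mul])
  have hK : (0 : ℝ) < K.index := Nat.cast_pos.2 (Nat.pos_of_ne_zero index_ne_zero_of_finite)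
  have e1 := e δ K.index hδL
  have e2 : ∑ a, δ a * ((K.index : ℝ) - if a ∈ K then (K.index : ℝ) else 0) * ‖θ a‖ ^ 2 =
      K.index * ∑ a ∈ Finset.univ.filter (· ∉ K), δ a * ‖θ a‖ ^ 2 := by
    rw [Finset.mul_sum, Finset.sum_filter]
    exact Finset.sum_congr rfl fun a _ => by split_ifs <;> ring
  rw [hi, mul_right_inj' hK.ne', e2, ← card_irr_quot] at e1
  obtain ⟨j, k, hj⟩ : ∃ j k, x j ≠ x k := by
    by_contra! hz
    have h1 : ∀ b, (Fintype.card (IrrCharacter (A ⧸ K)) : ℝ) * ∑ j, ‖x j b‖ ^ 2 -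
        ‖∑ j, x j b‖ ^ 2 = 0 := fun b => by
      have := sum_sum_norm_sub_sq fun j => x j b
      simp only [fun j k => show x j b - x k b = 0 by rw [hz j k, sub_self]] at this
      simp only [norm_zero, ne_eq, OfNat.ofNat_ne_zero, not_false_eq_true, zero_pow,
        Finset.sum_const_zero] at this
      linarith
    simp only [h1, mul_zero, Finset.sum_const_zero] at e1
    rw [card_irr_quot] at e1
    exact (mul_pos hK (Finset.sum_pos' (fun b _ => mul_nonneg (hδ b).le (sq_nonneg ‖θ b‖))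
      ⟨a, Finset.mem_filter.2 ⟨Finset.mem_univ _, ha⟩, mul_pos (hδ a) (pow_pos (norm_pos_iff.2 h0) 2)⟩)).ne e1
  have := h.graph hm (fun a => (hδ a).le) x hx hxL hj
  rwa [e1, card_irr_quot] at this

theorem kp_chain {X : Type*} [Group X] [Finite X] {p m : ℕ} (hpm : p.Coprime m) (f : A →* X)
    (hf : ∀ a, f a ^ m = 1) (W : Subgroup X) (hc : ∀ a ∈ W, ∀ b ∈ W, a * b = b * a)
    (hp : ∀ v ∈ W, v ^ p = 1) (hW : ∀ a, ∀ u ∈ W, f a * u * (f a)⁻¹ ∈ W) :
    KP (fun a => ((centralizer {f a}).relIndex W : ℝ)) ((centralizer (W : Set X)).comap f)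
      (Nat.card A * ((centralizer (W : Set X)).comap f).index) := by
  classical
  induction' hn : Nat.card W using Nat.strong_induction_on with n ih generalizing W
  by_cases h0 : W = ⊥
  · have : centralizer ((⊥ : Subgroup X) : Set X) = ⊤ :=
      eq_top_iff.2 fun x _ y hy => by rw [show y = 1 from hy, one_mul, mul_one]
    rw [h0, this, comap_top, index_top]
    simpa using kp_top (A := A)
  obtain ⟨U, ⟨hU, hUi⟩, hmax⟩ := Set.Finite.exists_maximal (s := {U : Subgroup X | U < W ∧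
    ∀ a, ∀ u ∈ U, f a * u * (f a)⁻¹ ∈ U}) (Set.toFinite _)
      ⟨⊥, bot_lt_iff_ne_bot.2 h0, fun a u hu => by simp [show u = 1 from hu]⟩
  have hcom : ∀ a b, f a * f b = f b * f a := fun a b => by rw [← map_mul, mul_comm, map_mul]
  let K : Subgroup A :=
    { carrier := {a | ∀ u ∈ W, f a * u * (f a)⁻¹ * u⁻¹ ∈ U}
      one_mem' := fun u _ => by simp
      mul_mem' := fun {a b} ha hb u hu => by
        have := mul_mem (hUi a _ (hb u hu)) (ha u hu)
        simpa [mul_assoc] using this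
      inv_mem' := fun {a} ha u hu => by
        have := inv_mem (ha _ (hW a⁻¹ u hu))
        simpa [mul_assoc] using this }
  have hR : ∀ a ∉ K, ∀ u ∈ W, f a * u * (f a)⁻¹ * u⁻¹ ∈ U → u ∈ U := fun a ha u hu h => by
    let R : Subgroup X :=
      { carrier := {u | u ∈ W ∧ f a * u * (f a)⁻¹ * u⁻¹ ∈ U}
        one_mem' := ⟨one_mem _, by simp⟩
        mul_mem' := fun {x y} hx hy => ⟨mul_mem hx.1 hy.1, by
          have := mul_mem hx.2 hy.2
          rwa [mul_assoc _ x⁻¹, hc _ (inv_mem hx.1) _ (hU.le hy.2), show f a * x * (f a)⁻¹ *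
            (f a * y * (f a)⁻¹ * y⁻¹ * x⁻¹) = f a * (x * y) * (f a)⁻¹ * (x * y)⁻¹ by group] at this⟩
        inv_mem' := fun {x} hx => ⟨inv_mem hx.1, by
          have := inv_mem hx.2
          rwa [mul_inv_rev, inv_inv, hc _ hx.1 _ (inv_mem (hW a x hx.1)), show
            (f a * x * (f a)⁻¹)⁻¹ * x = f a * x⁻¹ * (f a)⁻¹ * x⁻¹⁻¹ by group] at this⟩ }
    refine hmax (y := R) ⟨lt_of_le_of_ne (fun x hx => hx.1) fun e => ha fun x hx =>
      (show x ∈ R from e ▸ hx).2, fun b x hx => ⟨hW b x hx.1, ?_⟩⟩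
        (fun x hx => ⟨hU.le hx, mul_mem (hUi a x hx) (inv_mem hx)⟩) ⟨hu, h⟩
    have := hUi b _ hx.2
    rwa [show f b * (f a * x * (f a)⁻¹ * x⁻¹) * (f b)⁻¹ = f b * f a * x * (f b * f a)⁻¹ *
      (f b * x * (f b)⁻¹)⁻¹ by group, hcom, show f a * f b * x * (f a * f b)⁻¹ =
        f a * (f b * x * (f b)⁻¹) * (f a)⁻¹ by group] at this
  have hK : K.index + 1 ≤ U.relIndex W := by
    obtain ⟨w, hw, hwU⟩ := SetLike.exists_of_lt hU
    let g : Option (A ⧸ K) → W ⧸ U.subgroupOf W := fun o =>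
      ((o.elim 1 fun q => ⟨_, hW q.out w hw⟩ : W) : W ⧸ U.subgroupOf W)
    have h1 : ∀ a, f a * w * (f a)⁻¹ ∉ U := fun a h => hwU (by simpa [mul_assoc] using hUi a⁻¹ _ h)
    have : Function.Injective g := by
      rintro (_ | a) (_ | b) h <;> simp only [g, Option.elim, QuotientGroup.eq, mem_subgroupOf,
        coe_mul, coe_inv, inv_one, one_mul, mul_one, inv_mem_iff] at h
      · rfl
      · exact (h1 _ h).elim
      · exact (h1 _ h).elim
      · rw [← a.out_eq', ← b.out_eq']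
        refine congrArg some (QuotientGroup.eq.2 ?_)
        by_contra hab
        refine hwU (hR _ hab w hw ?_)
        have := hUi (a.out)⁻¹ _ h
        rw [← hc _ (inv_mem hw) _ (hW _ w hw)]
        simpa [mul_assoc] using this
    have := Nat.card_le_card_of_injective g this
    rwa [Finite.card_option] at this
  have hL : (centralizer (U : Set X)).comap f ⊓ K = (centralizer (W : Set X)).comap f := by
    refine le_antisymm (fun a ha => mem_of_pow_coprime hpm ?_ (by simp [hf])) (le_inf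
      (comap_mono (centralizer_le hU.le)) fun a ha u hu => by
        rw [← ha u hu, mul_inv_cancel_right, mul_inv_cancel]; exact one_mem _)
    intro u hu
    have h1 : ∀ n : ℕ, f a ^ n * u = (f a * u * (f a)⁻¹ * u⁻¹) ^ n * u * f a ^ n := fun n => by
      induction n with
      | zero => simp
      | succ n ihn =>
        rw [pow_succ', mul_assoc, ihn, ← mul_assoc, ← mul_assoc,
          ← ha.1 _ (pow_mem (ha.2 u hu) n), pow_succ]
        group
    rw [map_pow, h1, hp _ (hU.le (ha.2 u hu)), one_mul]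
  have hlt : Nat.card U < n := hn ▸ Set.Finite.card_lt_card (Set.toFinite _) hU
  have := (ih _ hlt U (fun a ha b hb => hc a (hU.le ha) b (hU.le hb)) (fun v hv => hp v (hU.le hv))
    hUi rfl).step (by positivity)
    (fun a => Nat.cast_pos.2 (Nat.pos_of_ne_zero index_ne_zero_of_finite)) (fun l hl t => by
      congr 1
      refine congrArg index (Subgroup.ext fun u => ?_)
      simp only [mem_subgroupOf, mem_centralizer_singleton_iff, map_mul]
      rw [← mul_assoc, hl u u.2, mul_assoc, mul_assoc, mul_left_cancel_iff]) K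
  rw [hL, mul_left_comm, ← Nat.cast_mul, ← inf_relIndex_right, relIndex_mul_index inf_le_right,
    inf_comm, hL] at this
  refine this.mono fun a => ?_
  split_ifs with ha
  · rw [mul_one, Nat.cast_le]
    exact relIndex_le_of_le_right hU.le index_ne_zero_of_finite
  · have h1 : centralizer {f a} ⊓ W ≤ U := fun u hu => hR a ha u hu.2 (by
      rw [← mem_centralizer_singleton_iff.1 hu.1, mul_inv_cancel_right, mul_inv_cancel]
      exact one_mem _)
    rw [← inf_relIndex_right _ W, ← relIndex_mul_relIndex _ U W h1 hU.le,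
      ← inf_relIndex_right (_ ⊓ W), inf_assoc, inf_of_le_right hU.le, inf_relIndex_right]
    exact_mod_cast Nat.mul_le_mul_left _ hK

end Lattice

theorem knorr_sum {X : Type*} [Group X] [Finite X] {p : ℕ} [Fact p.Prime] {V G H : Subgroup X}
    [hn : V.Normal] [Fintype H] (hVp : ∀ v ∈ V, v ^ p = 1) (hG : ¬ p ∣ Nat.card G)
    (hab : ∀ a ∈ V, ∀ b ∈ V, a * b = b * a) (hGV : IsComplement' V G) {v : X} (hv : v ∈ V)
    (hH : ∀ g, g ∈ H ↔ g ∈ G ∧ Commute g v) {U : Subgroup X} (hU : U ≤ V) :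
    ∑ χ : IrrCharacter X, ∑ h : H, ((centralizer {(h : X)}).relIndex U : ℝ) * ‖χ.1 (h * v)‖ ^ 2 ≤
      Nat.card V * (Nat.card H * Fintype.card (IrrCharacter H)) := by
  have h1 : ∑ h : H, (Nat.card (centralizer {h}) : ℝ) =
      Nat.card H * Fintype.card (IrrCharacter H) := by
    simp only [← sum_irr_norm_sq]
    rw [Finset.sum_comm, Finset.sum_congr rfl fun (φ : IrrCharacter H) _ => φ.2.sum_norm_sq]
    simp [mul_comm]
  rw [Finset.sum_comm, ← h1, Finset.mul_sum]
  refine Finset.sum_le_sum fun h _ => ?_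
  rw [← Finset.mul_sum, sum_irr_norm_sq]
  obtain ⟨hG', hc⟩ := (hH h).1 h.2
  have hvp : ∃ k, orderOf v = p ^ k := orderOf_eq_pow_iff.2 ⟨1, by simpa using hVp v hv⟩
  have h2 : Nat.card (centralizer {(h : X) * v}) ≤
      Nat.card ((centralizer {(h : X)}).subgroupOf V) * Nat.card (centralizer {h}) := by
    rw [← Nat.card_prod]
    refine Nat.card_le_card_of_surjective (fun x : (centralizer {(h : X)}).subgroupOf V ×
      centralizer {h} => (⟨(x.1 : X) * x.2, mem_centralizer_singleton_iff.2 (Commute.mul_left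
        (Commute.mul_right (mem_centralizer_singleton_iff.1 x.1.2) (hab _ x.1.1.2 v hv))
        (Commute.mul_right (congrArg Subtype.val (mem_centralizer_singleton_iff.1 x.2.2))
          ((hH _).1 x.2.1.2).2))⟩ : centralizer {(h : X) * v})) fun c => ?_
    obtain ⟨⟨a, b⟩, e⟩ := hGV.2 (c : X)
    have h3 := commute_iff_pPart_pReg (p := p).1
      (show Commute (c : X) (v * h) from hc.eq ▸ mem_centralizer_singleton_iff.1 c.2)
    rw [pPart_mul_eq hc.symm hvp (not_dvd_orderOf_of_mem hG hG'),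
      pReg_mul_eq hc.symm hvp (not_dvd_orderOf_of_mem hG hG'), ← e] at h3
    have h4 : Commute (b : X) v := by
      simpa using Commute.mul_left (show Commute (a : X)⁻¹ v from hab _ (inv_mem a.2) v hv) h3.1
    have h5 := hGV.1 (a₁ := (⟨h * a * (h : X)⁻¹, hn.conj_mem _ a.2 _⟩,
      ⟨h * b * (h : X)⁻¹, mul_mem (mul_mem hG' b.2) (inv_mem hG')⟩)) (a₂ := (a, b)) (by
        simp only
        rw [show (h : X) * a * (h : X)⁻¹ * (h * b * (h : X)⁻¹) = h * (a * b) * (h : X)⁻¹ by group,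
          ← h3.2.eq, mul_inv_cancel_right])
    refine ⟨(⟨⟨a, a.2⟩, mem_centralizer_singleton_iff.2 ?_⟩, ⟨⟨b, (hH b).2 ⟨b.2, h4⟩⟩,
      mem_centralizer_singleton_iff.2 (Subtype.ext ?_)⟩), Subtype.ext e⟩
    · exact (mul_inv_eq_iff_eq_mul.1 (congrArg (fun x => (x.1 : X)) h5)).symm
    · exact (mul_inv_eq_iff_eq_mul.1 (congrArg (fun x => (x.2 : X)) h5)).symm
  have h3 : (centralizer {(h : X)}).relIndex U ≤ (centralizer {(h : X)}).relIndex V :=
    relIndex_le_of_le_right hU index_ne_zero_of_finite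
  rw [← card_mul_index ((centralizer {(h : X)}).subgroupOf V)]
  exact_mod_cast (Nat.mul_le_mul h3 h2).trans_eq (by rw [relIndex]; ring)

end Cfsg.Agent.Block
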