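import Mathlib
import Cfsg.Agent.Fus.SatFn
import Cfsg.Agent.Fus.GroupFus

/-! Elementary consequences of saturation for a fusion system on a whole `p`-group. -/

set_option autoImplicit false
set_option linter.unusedSectionVars false

namespace Cfsg.Agent.Block.Ols

open Cfsg Cfsg.Agent.Fus Subgroup

variable {X : Type*} [Group X] [Finite X] {F : FusionSystem (⊤ : Subgroup X)} {p : ℕ}
  [Fact p.Prime] {u v : X} {f : X → X}

theorem img_zpowers (hf : HomOn (zpowers u) f) : img (zpowers u) f = zpowers (f u) :=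
  img_eq_of (by
    rintro _ ⟨k, rfl⟩
    exact ⟨k, (hf.map_zpow (mem_zpowers u) k).symm⟩) (by
    rintro _ ⟨k, rfl⟩
    exact ⟨_, ⟨k, rfl⟩, hf.map_zpow (mem_zpowers u) k⟩)

theorem centralizerIn_zpowers (u : X) : FusionSystem.centralizerIn ⊤ (zpowers u) = centralizer {u} := by
  rw [centralizerIn_top, zpowers_eq_closure, centralizer_closure]

theorem conj_pow' (h : F.IsConjElt u v) (n : ℕ) : F.IsConjElt (u ^ n) (v ^ n) := by
  obtain ⟨f, hf, rfl⟩ := isConjElt_iff.1 h
  rw [← hf.map_pow (mem_zpowers u)]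
  exact hf.isConjElt (pow_mem (mem_zpowers u) n)

theorem conj_pow_eq_one (h : F.IsConjElt u v) (n : ℕ) : v ^ n = 1 ↔ u ^ n = 1 := by
  obtain ⟨f, hf, rfl⟩ := isConjElt_iff.1 h
  rw [← hf.map_pow (mem_zpowers u), hf.eq_one_iff (pow_mem (mem_zpowers u) n)]

variable (hX : IsPGroup p X) (hF : F.IsSaturated p)
include hX hF

/-- A map to a fully centralized conjugate, defined on the centralizer. -/
theorem exists_ext (u : X) : ∃ g, IsMap F (centralizer {u}) g ∧ ∀ v, F.IsConjElt u v →
    Nat.card (centralizer ({v} : Set X)) ≤ Nat.card (centralizer ({g u} : Set X)) := by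
  obtain ⟨Q, h1, h2⟩ := exists_fullyCentralized F (P := zpowers u) le_top
  obtain ⟨f, hf, rfl⟩ := isConj_iff.1 h1
  obtain ⟨g, hg, h3⟩ := sat_extend_centralizer (hX.to_subgroup ⊤) hF hf h2
  refine ⟨g, hg.mono (centralizerIn_zpowers u ▸ le_sup_right), fun v hv => ?_⟩
  obtain ⟨f', hf', rfl⟩ := isConjElt_iff.1 hv
  have h4 := h2.2 _ (isConj_trans (isConj_symm h1) hf'.isConj)
  rwa [img_zpowers hf.homOn, img_zpowers hf'.homOn, centralizerIn_zpowers, centralizerIn_zpowers,
    ← h3 u (mem_zpowers u)] at h4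

theorem fullyCentralized_of_normal (Q : Subgroup X) [Q.Normal] : F.IsFullyCentralized Q :=
  sat_fullyCentralized (hX.to_subgroup ⊤) hF
    (fullyNormalized_of_le_normalizer F le_top (normalizer_eq_top Q).ge)

theorem card_centralizer_img_le {Q : Subgroup X} [Q.Normal] (hf : IsMap F Q f) :
    Nat.card (centralizer (img Q f : Set X)) ≤ Nat.card (centralizer (Q : Set X)) := by
  simpa only [centralizerIn_top] using (fullyCentralized_of_normal hX hF Q).2 _ hf.isConj

/-- The normalizer of a subgroup fused into the centre centralizes it. -/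
theorem conj_eq_of_center {W : Subgroup X} (hf : IsMap F W f) (h : ∀ x ∈ W, f x ∈ center X)
    {a : X} (ha : ∀ x ∈ W, a * x * a⁻¹ ∈ W) {x : X} (hx : x ∈ W) : a * x * a⁻¹ = x := by
  have h1 : img W f ≤ center X := img_le_iff.2 h
  obtain ⟨g, hg, h2⟩ := sat_exists_map_normalizer (hX.to_subgroup ⊤) hF
    (fullyNormalized_of_le_normalizer F le_top fun y _ => mem_normalizer_of_conj_mem fun z hz => by
      rwa [mem_center_iff.1 (h1 hz) y, mul_inv_cancel_right]) hf.isConj
  have h3 := mem_normalizerIn_of_conj (mem_top a) ha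
  have h4 := le_normalizerIn (S := ⊤) (P := W) le_top
  refine hg.inj (h4 (ha x hx)) (h4 hx) ?_
  rw [hg.map_conj h3 (h4 hx), mem_center_iff.1 (h1 (h2.le (mem_img_of_mem g hx))) (g a),
    mul_inv_cancel_right]

theorem conj_eq_of_center' (h : F.IsConjElt u v) (hv : v ∈ center X) {a : X}
    (ha : a * u * a⁻¹ ∈ zpowers u) : a * u * a⁻¹ = u := by
  obtain ⟨f, hf, rfl⟩ := isConjElt_iff.1 h
  refine conj_eq_of_center hX hF hf (img_le_iff.1 ?_) ?_ (mem_zpowers u)
  · rwa [img_zpowers hf.homOn, zpowers_le]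
  · rintro _ ⟨k, rfl⟩
    simpa only [conj_zpow] using zpow_mem ha k

/-- Fused central elements are conjugate under an automorphism. -/
theorem exists_aut (h : F.IsConjElt u v) (hu : u ∈ center X) (hv : v ∈ center X) :
    ∃ α : X ≃* X, α u = v := by
  obtain ⟨f, hf, rfl⟩ := isConjElt_iff.1 h
  have : (zpowers (f u)).Normal := ⟨fun x hx g => by
    rwa [mem_center_iff.1 (zpowers_le.2 hv hx) g, mul_inv_cancel_right]⟩
  obtain ⟨g, hg, h1⟩ := sat_extend_centralizer (hX.to_subgroup ⊤) hF hf
    (img_zpowers hf.homOn ▸ fullyCentralized_of_normal hX hF _)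
  have h2 : IsMap F ⊤ g := hg.mono fun x _ => mem_sup_right
    (centralizerIn_zpowers u ▸ mem_centralizer_singleton_iff.2 (mem_center_iff.1 hu x))
  have h3 : Function.Injective (MonoidHom.mk' g fun x y => h2.map_mul trivial trivial) :=
    fun x y => h2.inj trivial trivial
  exact ⟨MulEquiv.ofBijective _ h3.bijective_of_finite, h1 u (mem_zpowers u)⟩

end Cfsg.Agent.Block.Ols
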