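import Mathlib
import Cfsg.Agent.Block.OlsFus
import Cfsg.Agent.Fus.EssSmall
import Cfsg.Agent.Grp.MaxClass

/-! Elements with small centralizers in fusion systems on groups of order at most `32`. -/

set_option autoImplicit false
set_option linter.unusedSectionVars false

namespace Cfsg.Agent.Block.Ols

open Cfsg Cfsg.Agent.Fus Subgroup Cfsg.Agent.Grp.MaxClass
open scoped commutatorElement

variable {X : Type*} [Group X] [Finite X] {F : FusionSystem (⊤ : Subgroup X)}

theorem mem_cen {x y : X} : y ∈ centralizer ({x} : Set X) ↔ y * x = x * y :=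
  mem_centralizer_singleton_iff

theorem center_le_cen (x : X) : center X ≤ centralizer {x} := center_le_centralizer _

theorem cen_lt_top {x : X} (hx : x ∉ center X) : centralizer ({x} : Set X) < ⊤ :=
  lt_top_iff_ne_top.2 fun h => hx (mem_center_iff.2 fun g => mem_cen.1 (h.ge trivial))

theorem index_eq_two {H : Subgroup X} (hc : Nat.card X = 32) (h : Nat.card H = 16) :
    H.index = 2 := by
  have := H.card_mul_index
  rw [h, hc] at this
  omega

theorem card_eq_sixteen (hc : Nat.card X = 32) {x : X} (hx : x ∉ center X)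
    (h : 8 < Nat.card (centralizer ({x} : Set X))) : Nat.card (centralizer ({x} : Set X)) = 16 := by
  have h1 := hc ▸ card_subgroup_dvd_card (centralizer ({x} : Set X))
  have h2 : Nat.card (centralizer ({x} : Set X)) ≠ 32 := fun h2 =>
    (cen_lt_top hx).ne (eq_top_of_card_eq _ (h2.trans hc.symm))
  have := Nat.le_of_dvd (by norm_num) h1
  generalize Nat.card (centralizer ({x} : Set X)) = n at *
  interval_cases n <;> omega

theorem exists_comm_ne_one (h : ¬ IsMulCommutative X) : ∃ x y : X, ⁅x, y⁆ ≠ 1 := by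
  by_contra! h1
  exact h ⟨⟨fun x y => commutatorElement_eq_one_iff_mul_comm.1 (h1 x y)⟩⟩

theorem card_le_four (hX : IsPGroup 2 X) {C : Subgroup X} (hC : Nat.card C = 16)
    (hna : ¬ IsMulCommutative C) {H : Subgroup X} (h1 : H ≤ C) (h2 : H ≤ centralizer C) :
    Nat.card H ≤ 4 ∧ (Nat.card H = 4 → (center C).index = 2 ^ 2) := by
  obtain ⟨k, hk⟩ := AC.sq_dvd_index_center (hX.to_subgroup C) (exists_comm_ne_one hna)
  have h3 := (center C).card_mul_index
  have h4 : Nat.card H ≤ Nat.card (center C) := by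
    rw [← Nat.card_congr (subgroupOfEquivOfLe h1).toEquiv]
    exact Subgroup.card_le_of_le fun x hx => mem_center_iff.2 fun g => Subtype.ext (h2 hx g g.2)
  rw [hC, hk] at h3
  rw [hk]
  have h5 : k ≠ 0 := by rintro rfl; simp at h3
  constructor
  · nlinarith [Nat.pos_of_ne_zero h5]
  · intro h6
    have : k ≤ 1 := by nlinarith
    rw [show k = 1 by omega, mul_one]

theorem comm_mem_center (h : ∀ x : X, x ^ 2 ∈ center X) (x y : X) : ⁅x, y⁆ ∈ center X := by
  have h1 : ⁅x, y⁆ = (x * y) ^ 2 * (y⁻¹ * (x ^ 2)⁻¹ * y) * (y ^ 2)⁻¹ := by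
    simp only [commutatorElement_def, pow_two]
    group
  rw [h1, mul_assoc y⁻¹, ← mem_center_iff.1 (inv_mem (h x)) y, inv_mul_cancel_left]
  exact mul_mem (mul_mem (h _) (inv_mem (h x))) (inv_mem (h y))

theorem eq_of_mem_zpowers {x w : X} {n : ℕ} (hx : orderOf x = 2 * n) (hw : w ∈ zpowers x)
    (h : w ^ 2 = 1) : w = 1 ∨ w = x ^ n := by
  obtain ⟨k, rfl⟩ := mem_powers_iff_mem_zpowers.2 hw
  have h1 : n ≠ 0 := by rintro rfl; exact (orderOf_pos x).ne' hx
  simp only at h ⊢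
  rw [← pow_mul, ← orderOf_dvd_iff_pow_eq_one, hx, mul_comm k] at h
  obtain ⟨m, rfl⟩ := Nat.dvd_of_mul_dvd_mul_left two_pos h
  have h2 : (x ^ n) ^ 2 = 1 := by rw [← pow_mul, mul_comm, ← hx, pow_orderOf_eq_one]
  rw [pow_mul]
  rcases Nat.even_or_odd' m with ⟨j, rfl | rfl⟩ <;> simp [pow_succ, pow_mul, h2]

theorem no_four (hX : IsPGroup 2 X) (hc : Nat.card X = 32) (hd : Nat.card (commutator X) = 4)
    (hZ : Nat.card (center X) = 2) (h4 : ∀ y : X, y ^ 4 = 1) {x : X} (hx : x ^ 2 ≠ 1)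
    (hC : Nat.card (centralizer ({x} : Set X)) = 16)
    (hna : ¬ IsMulCommutative (centralizer ({x} : Set X))) : False := by
  set C := centralizer ({x} : Set X)
  have hi := index_eq_two hc hC
  have hN := normal_of_index_eq_two hi
  have ho : orderOf x = 4 := orderOf_eq_prime_pow (p := 2) (n := 1) (by simpa using hx) (h4 x)
  have hx1 : zpowers x ≤ C := zpowers_le.2 (mem_cen.2 rfl)
  have hx2 : zpowers x ≤ centralizer C := zpowers_le.2 fun g hg => mem_cen.1 hg
  have h1 : ∀ w ∈ C, (∀ y ∈ C, y * w = w * y) → w ^ 2 = 1 → w = 1 ∨ w = x ^ 2 :=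
    fun w hw h1 => eq_of_mem_zpowers ho (by
      rw [eq_of_le_of_card_ge (le_sup_left : zpowers x ≤ zpowers x ⊔ zpowers w) (by
        rw [Nat.card_zpowers, ho]
        exact (card_le_four hX hC hna (sup_le hx1 (zpowers_le.2 hw))
          (sup_le hx2 (zpowers_le.2 h1))).1)]
      exact mem_sup_right (mem_zpowers w))
  have hsq : ∀ z ∈ center X, z ^ 2 = 1 := fun z hz =>
    congrArg Subtype.val (hZ ▸ pow_card_eq_one' (x := (⟨z, hz⟩ : center X)))
  have h2 : ∀ w ∈ C, (∀ y ∈ C, y * w = w * y) → w ^ 2 = 1 → w ∈ center X := by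
    have : Nontrivial (center X) := Finite.one_lt_card_iff_nontrivial.1 (by omega)
    obtain ⟨⟨z, hz⟩, h2⟩ := exists_ne (1 : center X)
    have h3 := (h1 z (center_le_cen x hz) (fun y _ => mem_center_iff.1 hz y) (hsq z hz)).resolve_left
      fun h3 => h2 (Subtype.ext h3)
    intro w a b c
    rcases h1 w a b c with rfl | rfl
    exacts [one_mem _, h3 ▸ hz]
  obtain ⟨z, z1, z2, z3, z4, -⟩ := AC.exists_z (p := 2)
    ((card_le_four hX hC hna hx1 hx2).2 (by rw [Nat.card_zpowers, ho]))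
  have h3 : ∀ w : C, w ∈ center C → w ^ 2 = 1 → (w : X) ∈ center X := fun w a b =>
    h2 w w.2 (fun y hy => congrArg Subtype.val (mem_center_iff.1 a ⟨y, hy⟩)) (congrArg Subtype.val b)
  have hs : ∀ y ∈ C, y ^ 2 ∈ center X := fun y hy =>
    h3 _ (z4 ⟨y, hy⟩) (Subtype.ext (by simpa [← pow_mul] using h4 y))
  have hk : ∀ a ∈ C, ∀ b ∈ C, ⁅a, b⁆ ∈ center X := fun a ha b hb =>
    h3 _ (zpowers_le.2 z2 (z3 ⟨a, ha⟩ ⟨b, hb⟩)) (by
      obtain ⟨k, hk⟩ := z3 ⟨a, ha⟩ ⟨b, hb⟩
      rw [← hk, ← zpow_natCast, ← zpow_mul, mul_comm, zpow_mul, zpow_natCast, ← z1,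
        pow_orderOf_eq_one, one_zpow])
  have hfix : ∀ z ∈ center X, ∀ t : X, t * z * t⁻¹ = z := fun z hz t => by
    rw [mem_center_iff.1 hz t, mul_inv_cancel_right]
  obtain ⟨y, hy, t, ht, hyt⟩ : ∃ y ∈ C, ∃ t ∉ C, ⁅y, t⁆ ∉ center X := by
    by_contra! h5
    have h6 : commutator X ≤ center X := commutator_le.2 fun a _ b _ => by
      by_cases ha : a ∈ C <;> by_cases hb : b ∈ C
      · exact hk a ha b hb
      · exact h5 a ha b hb
      · simpa using inv_mem (h5 b hb a ha)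
      · have := h5 (a * b⁻¹) ((mul_mem_iff_of_index_two hi).2 (by simp [ha, hb])) b hb
        simpa [commutatorElement_def, mul_assoc] using this
    have := Subgroup.card_le_of_le h6
    omega
  have ha := hN.conj_mem y hy t
  have hs2 : t ^ 2 ∈ C := sq_mem_of_index_two hi t
  have hya : y * (t * y * t⁻¹) = t * y * t⁻¹ * y := by
    have k1 := mem_center_iff.1 (hk y hy _ ha)
    have k2 := mem_center_iff.1 (hk _ hs2 y hy)
    have e1 : ⁅t ^ 2, t * y * t⁻¹⁆ = ⁅t ^ 2, y⁆ := by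
      rw [← hfix _ (hk _ hs2 y hy) t]
      simp only [commutatorElement_def]
      group
    have e2 : (t * y * t⁻¹) ^ 2 = y ^ 2 := by rw [conj_pow, hfix _ (hs y hy)]
    have e3 : (t * y) ^ 4 = (t * y * t⁻¹) * t ^ 2 * (y * (t * y * t⁻¹)) * t ^ 2 * y := by
      simp only [pow_succ, pow_zero]
      group
    have e4 : (t ^ 2) ^ 2 = 1 := by rw [← pow_mul, h4]
    have e5 : y ^ 2 * y ^ 2 = 1 := by rw [← pow_add, h4]
    generalize t * y * t⁻¹ = a at *
    generalize t ^ 2 = s at *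
    refine commutatorElement_eq_one_iff_mul_comm.1 ?_
    calc ⁅y, a⁆ = ⁅y, a⁆ * (a ^ 2 * s ^ 2 * y ^ 2) := by rw [e2, e4, mul_one, e5, mul_one]
      _ = ⁅y, a⁆ * (a * (⁅s, y⁆ * ⁅s, y⁆⁻¹) * (a * s * s * y * y)) := by
        simp only [pow_two, mul_assoc, mul_inv_cancel, one_mul]
      _ = ⁅y, a⁆ * (a * (⁅s, a⁆ * a * s) * (⁅s, y⁆⁻¹ * s * y) * y) := by
        rw [e1, ← mul_inv_eq_one]
        have k3 : ∀ g, g * ⁅s, y⁆⁻¹ = ⁅s, y⁆⁻¹ * g := mem_center_iff.1 (inv_mem (mem_center_iff.2 k2))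
        rw [mul_assoc a (⁅s, y⁆ * a * s), mul_assoc (⁅s, y⁆ * a) s, mul_assoc ⁅s, y⁆⁻¹,
          ← mul_assoc s ⁅s, y⁆⁻¹, k3 s, mul_assoc ⁅s, y⁆ a, mul_assoc ⁅s, y⁆⁻¹ s,
          ← mul_assoc a ⁅s, y⁆⁻¹, k3 a]
        group
      _ = a * s * ⁅y, a⁆ * (a * y * s * y) := by
        rw [k1]
        simp only [commutatorElement_def]
        group
      _ = 1 := by
        rw [← h4 (t * y), e3]
        simp only [commutatorElement_def]
        group
  have hc1 : ⁅y, t⁆ = y * (t * y * t⁻¹)⁻¹ := by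
    simp only [commutatorElement_def]
    group
  have hc2 : ∀ w ∈ C, ⁅w, t⁆ ∈ center X → w * ⁅y, t⁆ = ⁅y, t⁆ * w := fun w hw h5 => by
    have e1 : ⁅w, t * y * t⁻¹⁆ = ⁅w, y⁆ := by
      have e2 : w = ⁅w, t⁆ * (t * w * t⁻¹) := by
        simp only [commutatorElement_def]
        group
      calc _ = ⁅w, t⁆ * (t * w * t⁻¹ * (t * y * t⁻¹) * (t * w * t⁻¹)⁻¹) * ⁅w, t⁆⁻¹ *
            (t * y * t⁻¹)⁻¹ := by
            simp only [commutatorElement_def]
            group
        _ = t * ⁅w, y⁆ * t⁻¹ := by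
            rw [← mem_center_iff.1 h5, mul_inv_cancel_right]
            simp only [commutatorElement_def]
            group
        _ = _ := hfix _ (hk w hw y hy) t
    rw [hc1, ← mul_inv_eq_iff_eq_mul]
    calc _ = ⁅w, y⁆ * y * (⁅w, t * y * t⁻¹⁆ * (t * y * t⁻¹))⁻¹ := by
          simp only [commutatorElement_def]
          group
      _ = _ := by
          rw [e1, ← mem_center_iff.1 (hk w hw y hy), ← mem_center_iff.1 (hk w hw y hy)]
          group
  have hc3 : y * ⁅y, t⁆ = ⁅y, t⁆ * y := by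
    rw [hc1, mul_assoc y _ y, (Commute.inv_right hya).eq.symm]
  have hzd : center X ≤ commutator X := by
    obtain ⟨a, b, hab⟩ := exists_comm_ne_one hna
    have h5 : zpowers ⁅(a : X), (b : X)⁆ = center X :=
      eq_of_le_of_card_ge (zpowers_le.2 (hk a a.2 b b.2)) (by
        rw [hZ, Nat.card_zpowers]
        exact Nat.lt_of_le_of_ne (orderOf_pos _) fun h =>
          hab (Subtype.ext (orderOf_eq_one_iff.1 h.symm)))
    exact h5 ▸ zpowers_le.2 (commutator_mem_commutator trivial trivial)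
  have hi2 : ((center X).subgroupOf (commutator X)).index = 2 := by
    have := ((center X).subgroupOf (commutator X)).card_mul_index
    rw [Nat.card_congr (subgroupOfEquivOfLe hzd).toEquiv, hZ, hd] at this
    omega
  refine hyt (h2 _ (hc1 ▸ mul_mem hy (inv_mem ha)) (fun w hw => ?_) ?_)
  · by_cases h5 : ⁅w, t⁆ ∈ center X
    · exact hc2 w hw h5
    have h6 := hc2 (y * w) (mul_mem hy hw) (by
      have e : ⁅y * w, t⁆ = y * ⁅w, t⁆ * y⁻¹ * ⁅y, t⁆ := by
        simp only [commutatorElement_def]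
        group
      rw [e]
      refine (mul_mem_iff_of_index_two hi2 (a := ⟨_, (inferInstance : (commutator X).Normal).conj_mem
        _ (commutator_mem_commutator trivial trivial) y⟩)
        (b := ⟨_, commutator_mem_commutator trivial trivial⟩)).2 (iff_of_false (fun h6 => h5 ?_) hyt)
      simpa [mul_assoc] using (inferInstance : (center X).Normal).conj_mem _ h6 y⁻¹)
    rwa [← mul_assoc, ← hc3, mul_assoc, mul_assoc, mul_left_cancel_iff] at h6
  · rw [hc1, (Commute.inv_right hya).mul_pow, inv_pow, conj_pow, hfix _ (hs y hy), mul_inv_cancel]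

variable (hX : IsPGroup 2 X) (hF : F.IsSaturated 2)
include hX hF

theorem exists_not_fused (hsq : ∀ x : X, x ^ 2 ∈ center X) (hna : commutator X ≠ ⊥) :
    ∃ u : X, u ^ 2 ≠ 1 ∧ ∀ v, F.IsConjElt u v → v ∉ center X := by
  by_cases h : ∃ u : X, ∀ w ∈ center X, u ^ 2 ≠ w ^ 2
  · obtain ⟨u, hu⟩ := h
    refine ⟨u, fun h1 => hu 1 (one_mem _) (by rw [h1, one_pow]), fun v hv hv' => ?_⟩
    obtain ⟨α, hα⟩ := exists_aut hX hF (conj_pow' hv 2) (hsq u) (hsq v)
    refine hu (α.symm v) (mem_center_iff.2 fun g => α.injective ?_) (α.injective ?_)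
    · simp [mem_center_iff.1 hv' (α g)]
    · simp [← hα]
  push Not at h
  have h1 : ∀ x : X, ∃ a, a * a = 1 ∧ ∀ y, a * y = y * a → x * y = y * x := fun x => by
    obtain ⟨w, hw, h1⟩ := h x
    have h2 : Commute x w⁻¹ := mem_center_iff.1 (inv_mem hw) x
    refine ⟨x * w⁻¹, by rw [← pow_two, h2.mul_pow, h1, inv_pow, mul_inv_cancel], fun y hy => ?_⟩
    rwa [mul_assoc, ← mem_center_iff.1 (inv_mem hw) y, ← mul_assoc, ← mul_assoc,
      mul_right_cancel_iff] at hy
  obtain ⟨x, y, hxy⟩ : ∃ x y : X, x * y ≠ y * x := by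
    by_contra! h2
    exact hna (eq_bot_iff.2 (commutator_le.2 fun a _ b _ =>
      commutatorElement_eq_one_iff_mul_comm.2 (h2 a b)))
  obtain ⟨a, ha, h2⟩ := h1 x
  obtain ⟨b, hb, h3⟩ := h1 y
  have h4 : b * a = (a * b)⁻¹ := by
    rw [mul_inv_rev, inv_eq_of_mul_eq_one_right ha, inv_eq_of_mul_eq_one_right hb]
  have h5 : a * b ≠ b * a := fun h5 => hxy (h3 x (h2 b h5).symm).symm
  have h6 : a * (a * b) * a⁻¹ = b * a := by
    rw [← mul_assoc, ha, one_mul, inv_eq_of_mul_eq_one_right ha]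
  refine ⟨a * b, fun h7 => h5 (h4 ▸ eq_inv_of_mul_eq_one_left (pow_two (a * b) ▸ h7)), fun v hv hv' =>
    h5 (h6 ▸ (conj_eq_of_center' hX hF hv hv' ?_).symm)⟩
  rw [h6, h4]
  exact inv_mem (mem_zpowers _)

variable (F) in
/-- Some nontrivial element has only conjugates with centralizers of order at most `8`. -/
def Small : Prop :=
  ∃ u : X, u ≠ 1 ∧ ∀ v, F.IsConjElt u v → Nat.card (centralizer ({v} : Set X)) ≤ 8

variable (hc : Nat.card X = 32) (hd : Nat.card (commutator X) = 4)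
include hc hd

theorem small_of_not_comm (hA : ∀ A : Subgroup X, Nat.card A = 16 → ¬ IsMulCommutative A) :
    Small F := by
  have hna : commutator X ≠ ⊥ := fun h => by simp [h] at hd
  by_cases hZ : 4 ≤ Nat.card (center X)
  · have h1 : ∀ x ∉ center X, Nat.card (centralizer ({x} : Set X)) ≤ 8 := fun x hx => by
      by_contra! h1
      have h2 := card_eq_sixteen hc hx h1
      have h3 := (card_le_four hX h2 (hA _ h2) (sup_le (center_le_cen x) (zpowers_le.2 (mem_cen.2 rfl)))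
        (sup_le (center_le_centralizer _) (zpowers_le.2 fun g hg => mem_cen.1 hg))).1
      have h4 := mul_card_le_of_lt hX (left_lt_sup.2 fun h => hx (zpowers_le.1 h))
      omega
    obtain ⟨u, h2, h3⟩ := exists_not_fused hX hF (fun x => by
      by_contra hx
      have h2 : x ∉ center X := fun h => hx (pow_mem h 2)
      have h3 := ((center X).subgroupOf (centralizer {x})).card_mul_index
      rw [Nat.card_congr (subgroupOfEquivOfLe (center_le_cen x)).toEquiv] at h3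
      have h4 := mul_card_le_of_lt hX ((center_le_cen x).lt_of_ne fun h => h2 (h.ge (mem_cen.2 rfl)))
      have h5 := h1 x h2
      exact hx (sq_mem_of_index_two (H := (center X).subgroupOf (centralizer {x})) (by nlinarith)
        ⟨x, mem_cen.2 rfl⟩)) hna
    exact ⟨u, fun h => h2 (by simp [h]), fun v hv => h1 v (h3 v hv)⟩
  have hZ2 : Nat.card (center X) = 2 := by
    have : Nontrivial X := Finite.one_lt_card_iff_nontrivial.1 (by omega)
    have := AC.dvd_card_center hX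
    have := Nat.card_pos (α := center X)
    omega
  have h1 : ∀ v : X, v ^ 2 ≠ 1 → 8 < Nat.card (centralizer ({v} : Set X)) →
      Nat.card (centralizer ({v} : Set X)) = 16 := fun v hv =>
    card_eq_sixteen hc fun h => hv
      (congrArg Subtype.val (hZ2 ▸ pow_card_eq_one' (x := (⟨v, h⟩ : center X))))
  by_cases h4 : ∀ y : X, y ^ 4 = 1
  · obtain ⟨u, hu⟩ : ∃ u : X, u ^ 2 ≠ 1 := by
      by_contra! h
      obtain ⟨u, hu, -⟩ := exists_not_fused hX hF (fun x => h x ▸ one_mem _) hna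
      exact hu (h u)
    refine ⟨u, fun h => hu (by simp [h]), fun v hv => not_lt.1 fun h => ?_⟩
    have h2 := (conj_pow_eq_one hv 2).not.2 hu
    exact no_four hX hc hd hZ2 h4 h2 (h1 v h2 h) (hA _ (h1 v h2 h))
  push Not at h4
  obtain ⟨u, hu⟩ := h4
  refine ⟨u, fun h => hu (by simp [h]), fun v hv => not_lt.1 fun h => ?_⟩
  have h2 := (conj_pow_eq_one hv 4).not.2 hu
  have h3 := h1 v (fun h => h2 (by rw [show 4 = 2 * 2 from rfl, pow_mul, h, one_pow])) h
  have h5 := (card_le_four hX h3 (hA _ h3) (zpowers_le.2 (mem_cen.2 rfl))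
    (zpowers_le.2 fun g hg => mem_cen.1 hg)).1
  obtain ⟨k, hk⟩ := IsPGroup.iff_orderOf.1 hX v
  rw [Nat.card_zpowers, hk] at h5
  exact h2 (orderOf_dvd_iff_pow_eq_one.1 (hk ▸ pow_dvd_pow 2
    ((Nat.pow_le_pow_iff_right one_lt_two (m := 2)).1 h5)))

variable {A : Subgroup X} (hA : Nat.card A = 16) (hab : IsMulCommutative A)
include hA hab

omit hX hF in
theorem ab_basic : A.index = 2 ∧ Nat.card (center X) = 4 ∧ center X ≤ A ∧
    (∀ a ∈ A, ∀ b ∈ A, a * b = b * a) ∧ ∀ u ∉ A, (∀ a ∈ A, a * u = u * a → a ∈ center X) ∧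
      u ^ 2 ∈ center X ∧ Nat.card (centralizer ({u} : Set X)) ≤ 8 := by
  have hi := index_eq_two hc hA
  have := normal_of_index_eq_two hi
  have h1 := fun u => center_eq_of_abelian A hab Nat.prime_two hi (fun h => by simp [h] at hd) (x := u)
  obtain ⟨t, ht⟩ := exists_not_mem_of_index_ne_one (H := A) (by omega)
  have h2 := card_eq_of_abelian A hab (sup_zpowers_eq_top_of_prime_index Nat.prime_two hi ht)
  rw [← h1 t ht, hA, hd] at h2
  refine ⟨hi, by omega, (h1 t ht).le.trans inf_le_left,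
    fun a ha b hb => congrArg Subtype.val (hab.is_comm.comm ⟨a, ha⟩ ⟨b, hb⟩), fun u hu =>
    ⟨fun a ha h => (h1 u hu).ge ⟨ha, mem_cen.2 h⟩, (h1 u hu).ge
      ⟨sq_mem_of_index_two hi u, mem_cen.2 (pow_mul_comm' u 2)⟩, ?_⟩⟩
  have h3 := (A.subgroupOf (centralizer {u})).card_mul_index
  have h4 := Nat.le_of_dvd two_pos (hi ▸ relIndex_dvd_index_of_normal A (centralizer {u}))
  rw [← inf_subgroupOf_right, Nat.card_congr (subgroupOfEquivOfLe inf_le_right).toEquiv,
    ← h1 u hu, h1 u hu, inf_subgroupOf_right, ← h1 u hu] at h3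
  change _ * A.relIndex _ = _ at h3
  nlinarith

theorem small_of_sq (hsq : ∀ a ∈ A, a ^ 2 ∈ center X) : Small F := by
  obtain ⟨hi, hZ, hZA, hcm, h1⟩ := ab_basic hc hd hA hab
  have := normal_of_index_eq_two hi
  obtain ⟨u, hu⟩ := exists_not_mem_of_index_ne_one (H := A) (by omega)
  have h2 : commutator X = center X := eq_of_le_of_card_ge (commutator_le.2 fun a _ b _ =>
    comm_mem_center (fun x => (em (x ∈ A)).elim (hsq x) fun h => (h1 x h).2.1) a b) (by omega)
  have : (centralizer ({u} : Set X)).Normal := ⟨fun x hx g => by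
    have := mul_mem (center_le_cen u (h2.le (commutator_mem_commutator (mem_top g) (mem_top x)))) hx
    simpa [commutatorElement_def] using this⟩
  obtain ⟨g, hg, h3⟩ := exists_ext hX hF u
  refine ⟨u, fun h => hu (h ▸ one_mem _), fun v hv => (h3 v hv).trans (not_lt.1 fun h4 => ?_)⟩
  have h5 : g u ∈ A := by_contra fun h => h4.not_ge (h1 _ h).2.2
  have hu1 : u ∈ centralizer ({u} : Set X) := mem_cen.2 rfl
  obtain ⟨q, hq, h6⟩ : ∃ q ∈ centralizer ({u} : Set X), g q ∉ A := by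
    by_contra! h
    have h6 := card_centralizer_img_le hX hF hg
    have h7 := Subgroup.card_le_of_le (centralizer_le (Set.singleton_subset_iff.2 hu1))
    have h8 : A ≤ centralizer (img (centralizer {u}) g) := fun a ha b hb =>
      hcm b (img_le_iff.2 h hb) a ha
    have := Subgroup.card_le_of_le h8
    have := (h1 u hu).2.2
    omega
  have h7 : ∀ w ∈ centralizer ({u} : Set X), w * q = q * w → g w ∈ A → g w ∈ center X :=
    fun w hw h h' => (h1 _ h6).1 _ h' (by rw [← hg.map_mul hw hq, h, hg.map_mul hq hw])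
  obtain ⟨w, hw, h8, h9⟩ : ∃ w ∈ center X, w ≠ 1 ∧ g w ∈ A := by
    have key : ∀ a b : center X, a ≠ b → (g a ∈ A ↔ g b ∈ A) → ∃ w ∈ center X, w ≠ 1 ∧ g w ∈ A :=
      fun a b h h' => ⟨a * (b : X)⁻¹, mul_mem a.2 (inv_mem b.2),
        fun e => h (Subtype.ext (mul_inv_eq_one.1 e)), by
          rw [hg.map_mul (center_le_cen u a.2) (inv_mem (center_le_cen u b.2)),
            hg.map_inv (center_le_cen u b.2), mul_mem_iff_of_index_two hi, inv_mem_iff, h']⟩
    have := Fintype.ofFinite (center X)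
    obtain ⟨a, b, c, h8, h9, h10⟩ := (Fintype.two_lt_card_iff (α := center X)).1
      (by rw [← Nat.card_eq_fintype_card]; omega)
    by_cases e1 : g a ∈ A ↔ g b ∈ A
    · exact key a b h8 e1
    by_cases e2 : g a ∈ A ↔ g c ∈ A
    · exact key a c h9 e2
    · exact key b c h10 (by tauto)
  obtain ⟨a, -, ha⟩ := (mem_commutator_iff_of_abelian A hab
    (sup_zpowers_eq_top_of_prime_index Nat.prime_two hi hu)).1 (h2.ge hw)
  have h10 : IsMap F (zpowers u ⊔ zpowers w) g :=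
    hg.mono (sup_le (zpowers_le.2 hu1) (zpowers_le.2 (center_le_cen u hw)))
  have h11 : a * u * a⁻¹ = w * u := by simp [← ha, commutatorElement_def]
  have h12 := conj_eq_of_center hX hF h10 (h10.homOn.mem_of_sup
    (img_le_iff.1 (by
      rw [img_zpowers (h10.homOn.mono le_sup_left), zpowers_le]
      exact h7 u hu1 (mem_cen.1 hq).symm h5))
    (img_le_iff.1 (by
      rw [img_zpowers (h10.homOn.mono le_sup_right), zpowers_le]
      exact h7 w (center_le_cen u hw) (mem_center_iff.1 hw q).symm h9))) (a := a)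
    (fun x hx => (sup_le (zpowers_le.2 ?_) (zpowers_le.2 ?_) :
      _ ≤ comap (MulAut.conj a).toMonoidHom (zpowers u ⊔ zpowers w)) hx)
    (mem_sup_left (mem_zpowers u))
  · exact h8 (mul_eq_right.1 (h11.symm.trans h12))
  · change a * u * a⁻¹ ∈ zpowers u ⊔ zpowers w
    exact h11 ▸ mul_mem (mem_sup_right (mem_zpowers w)) (mem_sup_left (mem_zpowers u))
  · change a * w * a⁻¹ ∈ zpowers u ⊔ zpowers w
    rw [mem_center_iff.1 hw a, mul_inv_cancel_right]
    exact mem_sup_right (mem_zpowers w)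

theorem small_or {a : X} (ha : a ∈ A) (ha2 : a ^ 2 ∉ center X) : Small F ∨
    ∃ (t : X) (r : ℕ), (r = 3 ∨ r = 7) ∧ orderOf a = 8 ∧
      Nat.card (centralizer ({a} : Set X)) = 16 ∧
      (∀ w : X, orderOf w = 8 → Nat.card (centralizer ({w} : Set X)) ≤ 16) ∧
      t * a * t⁻¹ = a ^ r ∧ ∀ g : X, g * a * g⁻¹ = a ∨ g * a * g⁻¹ = a ^ r := by
  obtain ⟨hi, hZ, hZA, hcm, h1⟩ := ab_basic hc hd hA hab
  obtain ⟨u, hu⟩ := exists_not_mem_of_index_ne_one (H := A) (by omega)
  have hua : u * a ∉ A := by simp [mul_mem_iff_of_index_two hi, hu, ha]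
  have hz4 : ∀ w ∈ center X, w ^ 4 = 1 := fun w hw =>
    congrArg Subtype.val (hZ ▸ pow_card_eq_one' (x := (⟨w, hw⟩ : center X)))
  have hq : Nat.card (A ⧸ (center X).subgroupOf A) = 4 := by
    have := ((center X).subgroupOf A).card_mul_index
    rw [Nat.card_congr (subgroupOfEquivOfLe hZA).toEquiv, hZ, hA] at this
    change ((center X).subgroupOf A).index = 4
    omega
  have ha4 : a ^ 4 ∈ center X :=
    (QuotientGroup.eq_one_iff (N := (center X).subgroupOf A) (⟨a, ha⟩ ^ 4)).1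
      (by rw [QuotientGroup.mk_pow, ← hq, pow_card_eq_one'])
  have hdec : ∀ b ∈ A, ∃ i : ℕ, ∃ w ∈ center X, b = a ^ i * w := fun b hb => by
    have h2 : orderOf (QuotientGroup.mk ⟨a, ha⟩ : A ⧸ (center X).subgroupOf A) = 4 :=
      orderOf_eq_prime_pow (p := 2) (n := 1) (fun h => ha2
        ((QuotientGroup.eq_one_iff (N := (center X).subgroupOf A) ((⟨a, ha⟩ : A) ^ 2)).1 h))
        (by rw [show 2 ^ (1 + 1) = 4 from rfl, ← hq, pow_card_eq_one'])
    obtain ⟨i, h3⟩ := mem_powers_iff_mem_zpowers.2 ((eq_top_of_card_eq (zpowers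
      (QuotientGroup.mk ⟨a, ha⟩ : A ⧸ (center X).subgroupOf A)) (by
        rw [Nat.card_zpowers, h2, hq])).ge (mem_top (QuotientGroup.mk ⟨b, hb⟩)))
    exact ⟨i, (a ^ i)⁻¹ * b, (QuotientGroup.eq (s := (center X).subgroupOf A)
      (a := (⟨a, ha⟩ : A) ^ i) (b := ⟨b, hb⟩)).1 h3,
      (mul_inv_cancel_left _ _).symm⟩
  have hpow : ∀ (i n : ℕ), ∀ w ∈ center X, (a ^ i * w) ^ n = a ^ (i * n) * w ^ n := fun i n w hw => by
    rw [Commute.mul_pow (mem_center_iff.1 hw _), pow_mul]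
  obtain ⟨z, hz, h2, h3⟩ : ∃ z ∈ center X, (u * a) ^ 2 = u ^ 2 * z ∧ u * a * u⁻¹ = z * a⁻¹ := by
    refine ⟨(u ^ 2)⁻¹ * (u * a) ^ 2, mul_mem (inv_mem (h1 u hu).2.1) (h1 _ hua).2.1,
      (mul_inv_cancel_left _ _).symm, ?_⟩
    rw [mul_assoc (u ^ 2)⁻¹, pow_two (u * a), mul_assoc (u * a), ← mul_assoc (u ^ 2)⁻¹,
      ← mem_center_iff.1 (inv_mem (h1 u hu).2.1)]
    simp [pow_two, mul_assoc]
  have h4 : ∀ n : ℕ, a ^ n ∈ center X ↔ a ^ (2 * n) = z ^ n := fun n => by
    have e : u * a ^ n * u⁻¹ = z ^ n * (a ^ n)⁻¹ := by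
      rw [← conj_pow, h3, Commute.mul_pow (mem_center_iff.1 hz _).symm, inv_pow]
    rw [two_mul, pow_add, ← eq_mul_inv_iff_mul_eq, ← e, eq_mul_inv_iff_mul_eq]
    exact ⟨fun h => (mem_center_iff.1 h u).symm, (h1 u hu).1 _ (pow_mem ha n)⟩
  have ha8 : a ^ 8 = 1 := ((h4 4).1 ha4).trans (hz4 z hz)
  have hz2 : a ^ 4 ≠ z ^ 2 := fun h => ha2 ((h4 2).2 h)
  have key : ∀ x ∉ A, (∀ v ∈ A, ¬ F.IsConjElt x v) → Small F := fun x hx h =>
    ⟨x, fun e => hx (e ▸ one_mem _), fun v hv => (h1 v fun h' => h v h' hv).2.2⟩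
  have hc2 : Commute (u ^ 2) z := mem_center_iff.1 hz _
  by_cases h5 : a ^ 4 = 1
  · have h6 : ∀ x ∉ A, (x ^ 2) ^ 2 ≠ 1 → Small F := fun x hx h => key x hx fun v hv h' => by
      obtain ⟨i, w, hw, rfl⟩ := hdec v hv
      refine h (pow_mul x 2 2 ▸ (conj_pow_eq_one h' 4).1 ?_)
      rw [hpow i 4 w hw, pow_mul', h5, hz4 w hw, one_pow, one_mul]
    by_cases h7 : (u ^ 2) ^ 2 = 1
    · exact Or.inl (h6 _ hua fun h => hz2 (by rw [h5, ← h, h2, hc2.mul_pow, h7, one_mul]))
    · exact Or.inl (h6 u hu h7)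
  have ho : orderOf a = 8 := orderOf_eq_prime_pow (p := 2) (n := 2) h5 ha8
  have ho4 : orderOf (a ^ 4) = 2 := orderOf_eq_prime (by rw [← pow_mul, ha8]) h5
  by_cases h6 : z ∈ zpowers (a ^ 4)
  · have h7 : ∀ w : X, orderOf w = 8 → w ∉ center X := fun w hw h =>
      absurd (hw ▸ orderOf_dvd_of_pow_eq_one (hz4 w h)) (by decide)
    obtain ⟨r, hr, h8⟩ : ∃ r, (r = 3 ∨ r = 7) ∧ u * a * u⁻¹ = a ^ r := by
      rcases eq_of_mem_zpowers (n := 1) ho4 h6 (by
        obtain ⟨k, rfl⟩ := h6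
        simp only
        rw [← zpow_natCast, ← zpow_mul, mul_comm, zpow_mul, zpow_natCast, ← pow_mul, ha8,
          one_zpow]) with rfl | rfl
      · exact ⟨7, Or.inr rfl, by rw [h3, one_mul, inv_eq_iff_mul_eq_one, ← pow_succ', ha8]⟩
      · exact ⟨3, Or.inl rfl, by rw [h3, pow_one, pow_succ, mul_inv_cancel_right]⟩
    refine Or.inr ⟨u, r, hr, ho, card_eq_sixteen hc (h7 a ho) (lt_of_lt_of_le (by omega)
      (hA ▸ Subgroup.card_le_of_le fun b hb => mem_cen.2 (hcm b hb a ha))), fun w hw => ?_, h8,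
      fun g => ?_⟩
    · have := mul_card_le_of_lt hX (cen_lt_top (h7 w hw))
      rw [card_top] at this
      omega
    · by_cases hg : g ∈ A
      · exact Or.inl (by rw [hcm g hg a ha, mul_inv_cancel_right])
      · have h9 := hcm (u⁻¹ * g) (by simp [mul_mem_iff_of_index_two hi, hu, hg]) a ha
        refine Or.inr (h8 ▸ ?_)
        calc _ = u * (u⁻¹ * g * a) * g⁻¹ := by group
          _ = _ := by rw [h9]; group
  have hle : zpowers (a ^ 4) ≤ center X := zpowers_le.2 ha4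
  have hi2 : ((zpowers (a ^ 4)).subgroupOf (center X)).index = 2 := by
    have := ((zpowers (a ^ 4)).subgroupOf (center X)).card_mul_index
    rw [Nat.card_congr (subgroupOfEquivOfLe hle).toEquiv, hZ, Nat.card_zpowers, ho4] at this
    omega
  have h7 : ∀ w ∈ zpowers (a ^ 4), w ^ 2 = 1 := fun w hw =>
    congrArg Subtype.val ((Nat.card_zpowers _).trans ho4 ▸
      pow_card_eq_one' (x := (⟨w, hw⟩ : zpowers (a ^ 4))))
  have h8 : z ^ 2 = 1 := (eq_of_mem_zpowers (n := 1) (w := z ^ 2) ho4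
    (sq_mem_of_index_two hi2 ⟨z, hz⟩) (by rw [← pow_mul, hz4 z hz])).resolve_right
      fun h => hz2 (by rw [h, pow_one])
  have h9 : ∀ w ∈ center X, w ^ 2 = 1 := fun w hw => by
    by_cases h : w ∈ zpowers (a ^ 4)
    · exact h7 w h
    have := h7 _ ((mul_mem_iff_of_index_two hi2 (a := ⟨w, hw⟩) (b := ⟨z, hz⟩)).2 (iff_of_false h h6))
    change (w * z) ^ 2 = 1 at this
    rwa [Commute.mul_pow (mem_center_iff.1 hz w), h8, mul_one] at this
  have h10 : ∀ x : X, x ^ 4 ∈ zpowers (a ^ 4) := fun x => by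
    by_cases hx : x ∈ A
    · obtain ⟨i, w, hw, rfl⟩ := hdec x hx
      rw [hpow i 4 w hw, pow_mul', hz4 w hw, mul_one]
      exact pow_mem (mem_zpowers _) i
    · rw [pow_mul x 2 2, h9 _ (h1 x hx).2.1]
      exact one_mem _
  have h11 : ∀ x ∉ A, x ^ 2 ∉ zpowers (a ^ 4) → Small F := fun x hx h => key x hx fun v hv h' => by
    obtain ⟨i, w, hw, rfl⟩ := hdec v hv
    have e1 := (conj_pow_eq_one h' 4).2 (by rw [show 4 = 2 * 2 from rfl, pow_mul, h9 _ (h1 x hx).2.1])
    rw [hpow i 4 w hw, hz4 w hw, mul_one, ← orderOf_dvd_iff_pow_eq_one, ho] at e1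
    obtain ⟨j, rfl⟩ : 2 ∣ i := by omega
    have e2 : (a ^ (2 * j) * w) ^ 2 = (a ^ j) ^ 4 := by
      rw [hpow _ 2 w hw, h9 w hw, mul_one, ← pow_mul]
      congr 1
      ring
    obtain ⟨α, hα⟩ := exists_aut hX hF (conj_pow' h' 2) (h1 x hx).2.1 (e2 ▸ hle (h10 _))
    refine h ?_
    rw [← α.symm_apply_apply (x ^ 2), hα, e2, map_pow]
    exact h10 _
  by_cases h12 : u ^ 2 ∈ zpowers (a ^ 4)
  · exact Or.inl (h11 _ hua fun h => h6 (by simpa [h2] using mul_mem (inv_mem h12) h))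
  · exact Or.inl (h11 u hu h12)

omit hc hd hA hab in
theorem exists_good (hc : Nat.card X ≤ 32) (hn : 4 < (commutator X).index)
    (hna : commutator X ≠ ⊥) : (∃ u : X, (commutator X).index ≤ 4 * orderOf u ∧
      ∀ v, F.IsConjElt u v → Nat.card (centralizer ({v} : Set X)) ≤ (commutator X).index) ∨
    (commutator X).index = 8 ∧ ∃ (a t : X) (r : ℕ), (r = 3 ∨ r = 7) ∧ orderOf a = 8 ∧
      Nat.card (centralizer ({a} : Set X)) = 16 ∧
      (∀ w : X, orderOf w = 8 → Nat.card (centralizer ({w} : Set X)) ≤ 16) ∧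
      t * a * t⁻¹ = a ^ r ∧ ∀ g : X, g * a * g⁻¹ = a ∨ g * a * g⁻¹ = a ^ r := by
  have h1 := (commutator X).card_mul_index
  obtain ⟨i, hi⟩ := hX.index (commutator X)
  obtain ⟨j, hj⟩ := IsPGroup.iff_card.1 (hX.to_subgroup (commutator X))
  have h2 : 2 < i := (Nat.pow_lt_pow_iff_right one_lt_two).1 (hi ▸ hn)
  have h3 : j + i ≤ 5 := (Nat.pow_le_pow_iff_right one_lt_two).1 (by rwa [pow_add, ← hi, ← hj, h1])
  have h4 : j ≠ 0 := fun h => hna (card_eq_one.1 (by simpa [h] using hj))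
  obtain rfl | ⟨rfl, rfl⟩ : j = 1 ∨ j = 2 ∧ i = 3 := by omega
  · have h5 : ∀ c ∈ commutator X, c ^ 2 = 1 ∧ c ∈ center X := fun c h => ⟨congrArg Subtype.val
      ((hj.trans (pow_one 2)) ▸ pow_card_eq_one' (x := (⟨c, h⟩ : commutator X))), by
        by_cases h0 : c = 1
        · exact h0 ▸ one_mem _
        refine mem_center_iff.2 fun g => mul_inv_eq_iff_eq_mul.1 ?_
        obtain ⟨y, -, hy⟩ := (Nat.card_eq_two_iff' (1 : commutator X)).1 hj
        exact congrArg Subtype.val ((hy ⟨_, (inferInstance : (commutator X).Normal).conj_mem c h g⟩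
          fun e => h0 (by simpa using e)).trans (hy ⟨c, h⟩ fun e => h0 (by simpa using e)).symm)⟩
    obtain ⟨u, h6, h7⟩ := exists_not_fused hX hF (fun x => mem_center_iff.2 fun y => by
      obtain ⟨h6, h7⟩ := h5 _ (commutator_mem_commutator (mem_top x) (mem_top y))
      have h8 : x * y = ⁅x, y⁆ * y * x := by simp [commutatorElement_def]
      calc y * x ^ 2 = ⁅x, y⁆ ^ 2 * y * x * x := by rw [h6, one_mul, pow_two, mul_assoc]
        _ = ⁅x, y⁆ * (x * y) * x := by rw [h8]; simp only [pow_two, mul_assoc]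
        _ = x * (⁅x, y⁆ * y * x) := by
          rw [← mul_assoc, ← mem_center_iff.1 h7 x]; simp only [mul_assoc]
        _ = _ := by rw [← h8, pow_two, mul_assoc]) hna
    refine Or.inl ⟨u, ?_, fun v hv => ?_⟩
    · obtain ⟨k, hk⟩ := IsPGroup.iff_orderOf.1 hX u
      have h8 : ¬ k ≤ 1 := fun h => h6 (orderOf_dvd_iff_pow_eq_one.1 (hk ▸ pow_dvd_pow 2 h))
      rw [hi, hk, show 4 = 2 ^ 2 from rfl, ← pow_add]
      exact Nat.pow_le_pow_right two_pos (by omega)
    · have := mul_card_le_of_lt hX (cen_lt_top (h7 v hv))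
      rw [card_top, ← h1, hj] at this
      omega
  have h5 : Nat.card X = 32 := by rw [← h1, hi, hj]; rfl
  have h6 : Small F → ∃ u : X, (commutator X).index ≤ 4 * orderOf u ∧
      ∀ v, F.IsConjElt u v → Nat.card (centralizer ({v} : Set X)) ≤ (commutator X).index :=
    fun ⟨u, h6, h7⟩ => ⟨u, by
      have := orderOf_pos u
      have := orderOf_eq_one_iff.not.2 h6
      omega, hi ▸ h7⟩
  by_cases h7 : ∀ A : Subgroup X, Nat.card A = 16 → ¬ IsMulCommutative A
  · exact Or.inl (h6 (small_of_not_comm hX hF h5 hj h7))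
  push Not at h7
  obtain ⟨A, hA, hab⟩ := h7
  by_cases h8 : ∀ a ∈ A, a ^ 2 ∈ center X
  · exact Or.inl (h6 (small_of_sq hX hF h5 hj hA hab h8))
  push Not at h8
  obtain ⟨a, ha, ha2⟩ := h8
  exact (small_or hX hF h5 hj hA hab ha ha2).imp h6 fun h => ⟨hi, a, h⟩

end Cfsg.Agent.Block.Ols
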