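import Mathlib
import Cfsg.Agent.Block.BSQ8

/-! The principal 2-block of a group with quaternion Sylow subgroup of order 8 has 7 characters. -/

set_option autoImplicit false
set_option linter.unusedSectionVars false

namespace Cfsg.Agent.Block

open Cfsg Cfsg.Agent.Char Subgroup
open scoped ComplexConjugate

variable {G : Type*} [Group G] [Finite G] {M : Ideal AlgInt}

theorem classInner_kernel_one [Fintype G] (A : Set (IrrCharacter G)) :
    classInner (fun g => ∑ᶠ ξ ∈ A, (ξ : G → ℂ) g * conj ((ξ : G → ℂ) g)) (fun _ => 1) =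
      Nat.card A := by
  classical
  rw [classInner_one_right]
  simp only [finsum_mem_irr_eq_sum]
  rw [Finset.sum_comm, Finset.mul_sum, Finset.sum_congr rfl (g := fun _ => (1 : ℂ))
    fun ξ _ => ξ.2.inner_self, Finset.sum_const, nsmul_eq_mul, mul_one, Nat.card_eq_fintype_card,
    Fintype.card_subtype]

theorem norm_central_mul {t : G} (hc : t ∈ center G) (ξ : IrrCharacter G) (h : G) :
    (ξ : G → ℂ) (t * h) * conj ((ξ : G → ℂ) (t * h)) = (ξ : G → ℂ) h * conj ((ξ : G → ℂ) h) := by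
  obtain ⟨ω, h1, hω⟩ := (isCharacter_norm_eq_iff ξ.2.isCharacter t).1 (norm_eq_of_mem_center ξ.2 hc)
  have h2 : ω * conj ω = 1 := by rw [Complex.mul_conj, Complex.normSq_eq_norm_sq, h1]; simp
  rw [hω, map_mul]
  linear_combination (ξ : G → ℂ) h * conj ((ξ : G → ℂ) h) * h2

theorem odd_or_of_not_dvd_quotient {t : G} (ht : orderOf t = 2) (hc : t ∈ center G)
    [(zpowers t).Normal] {h : G} (h1 : ¬ 2 ∣ orderOf (h : G ⧸ zpowers t)) :
    ¬ 2 ∣ orderOf h ∨ ¬ 2 ∣ orderOf (t * h) := by
  classical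
  have h2 : h ^ orderOf (h : G ⧸ zpowers t) ∈ zpowers t := by
    rw [← QuotientGroup.eq_one_iff, QuotientGroup.mk_pow, pow_orderOf_eq_one]
  rw [mem_zpowers_iff_mem_range_orderOf, ht, Finset.mem_image] at h2
  obtain ⟨k, hk, h2⟩ := h2
  have hc'' : Commute t h := (mem_center_iff.1 hc _).symm
  rcases (by rw [Finset.mem_range] at hk; omega : k = 0 ∨ k = 1) with rfl | rfl
  · exact Or.inl fun h3 => h1 (h3.trans (orderOf_dvd_of_pow_eq_one (by rw [← h2, pow_zero])))
  · refine Or.inr fun h3 => h1 (h3.trans (orderOf_dvd_of_pow_eq_one ?_))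
    rw [hc''.mul_pow, pow_eq_of_odd ht h1, ← h2, pow_one, Inv.mul_self_of_orderOf_two ht]

theorem Q8.sum_principal_singular (hM : IsPModular 2 M) {S : Sylow 2 G}
    (e : (S : Subgroup G) ≃* QuaternionGroup 2) {g : G} (hg : pPart 2 g * pPart 2 g ≠ 1) :
    ∑ᶠ ξ ∈ principalBlock M G, (ξ : G → ℂ) g * conj ((ξ : G → ℂ) g) = 4 := by
  obtain ⟨T, hT⟩ := (isPGroup_zpowers_pPart 2 g).exists_le_sylow
  obtain ⟨h1, h2⟩ := Q8.centralizer_facts ((T.equiv S).trans e) (hT (mem_zpowers _)) hg
  have hy : pReg 2 g ∈ centralizer ({pPart 2 g} : Set G) :=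
    mem_centralizer_singleton_iff.2 (commute_pPart_pReg 2 g).symm
  have hy2 : ¬ 2 ∣ orderOf (⟨_, hy⟩ : centralizer ({pPart 2 g} : Set G)) := by
    rw [← Subgroup.orderOf_coe]; exact not_dvd_orderOf_pReg 2 g
  have := sum_principal_section_of_index hM (orderOf_pPart 2 g)
    (index_pPrimeCore_of_hasNormalPComplement h1) hy2 hy2
  rw [h2, pPart_mul_pReg] at this
  exact this

theorem Q8.card_principal (hM : IsPModular 2 M) {S : Sylow 2 G}
    (e : (S : Subgroup G) ≃* QuaternionGroup 2) (hO : pPrimeCore 2 G = ⊥)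
    (hG : (S : Subgroup G) ≠ ⊤) : Nat.card (principalBlock M G) = 7 := by
  classical
  have := Fintype.ofFinite G
  have h : ¬ HasNormalPComplement 2 G := fun h =>
    hG (top_le_iff.1 (((isPGroup_of_hasNormalPComplement h hO).to_subgroup ⊤).le_sylow_of_normal S))
  obtain ⟨t, ht, ht2⟩ := Q8.exists_involution e
  have hc := Q8.mem_center e hO ht ht2
  have := normal_of_le_center (zpowers_le.2 hc)
  have hP := Q8.isKleinFour_quotient e ht ht2
  obtain ⟨a, b, c, n, ha, hb, hc', hab, hac, hbc, hB, hn, hpm, hy⟩ := klein_principal hM _ hP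
    (Q8.isConj_quotient e (fun a ha b hb h1 h2 =>
      (Q8.exists_conj_eq_or_inv e h ha hb h1 h2).imp fun _ h => h.2) ht ht2)
  have hsum : ∀ f : IrrCharacter (G ⧸ zpowers t) → ℂ, ∑ᶠ ψ ∈ principalBlock M (G ⧸ zpowers t), f ψ =
      f (irrOne _) + (f a + (f b + f c)) := fun f => by
    rw [hB, finsum_mem_insert _ (by simp [ha.symm, hb.symm, hc'.symm]) (Set.toFinite _),
      finsum_mem_insert _ (by simp [hab, hac]) (Set.toFinite _), finsum_mem_pair hbc]
  set W : G ⧸ zpowers t → ℂ := fun q => ∑ᶠ ψ ∈ principalBlock M (G ⧸ zpowers t),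
    (ψ : G ⧸ zpowers t → ℂ) q * conj ((ψ : G ⧸ zpowers t → ℂ) q) with hW
  set U : G ⧸ zpowers t → ℂ := (irrOne (G ⧸ zpowers t) : G ⧸ zpowers t → ℂ) +
    (n a : ℂ) • (a : G ⧸ zpowers t → ℂ) +
    (n b : ℂ) • (b : G ⧸ zpowers t → ℂ) + (n c : ℂ) • (c : G ⧸ zpowers t → ℂ) with hU
  have hnn : ∀ ψ ∈ principalBlock M (G ⧸ zpowers t), (n ψ : ℂ) * n ψ = 1 := fun ψ hψ => by
    rcases hpm _ hψ with h | h <;> simp [h]
  have haB : a ∈ principalBlock M (G ⧸ zpowers t) := by rw [hB]; simp
  have hbB : b ∈ principalBlock M (G ⧸ zpowers t) := by rw [hB]; simp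
  have hcB : c ∈ principalBlock M (G ⧸ zpowers t) := by rw [hB]; simp
  have key : (fun g : G => ∑ᶠ ξ ∈ principalBlock M G, (ξ : G → ℂ) g * conj ((ξ : G → ℂ) g)) =
      fun g : G => ((2 : ℂ) • W - U) (QuotientGroup.mk' (zpowers t) g) := by
    funext g
    simp only [QuotientGroup.mk'_apply, Pi.sub_apply, Pi.smul_apply, smul_eq_mul]
    by_cases hg : 2 ∣ orderOf (g : G ⧸ zpowers t)
    · have h1 : pPart 2 g * pPart 2 g ≠ 1 := fun h1 => by
        refine pPart_ne_one_iff.2 hg ?_
        rw [← QuotientGroup.mk'_apply, pPart_map, QuotientGroup.mk'_apply, QuotientGroup.eq_one_iff]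
        obtain ⟨T, hT⟩ := (isPGroup_zpowers_pPart 2 g).exists_le_sylow
        exact Q8.mem_zpowers_of_mul_self ((T.equiv S).trans e)
          ((Inv.isPGroup_zpowers_of_orderOf_two ht2).le_sylow_of_normal T (mem_zpowers t)) ht2
          (hT (mem_zpowers _)) h1
      have h2 := fun ψ hψ => klein_apply_singular hM _ hP hψ (hn ψ) hg
      rw [Q8.sum_principal_singular hM e h1, hW, hU]
      simp only [hsum, Pi.add_apply, Pi.smul_apply, smul_eq_mul, irrOne_apply, h2 a haB, h2 b hbB,
        h2 c hcB, map_intCast, hnn a haB, hnn b hbB, hnn c hcB, map_one]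
      norm_num
    · have h1 : U g = 0 := hy g (by rwa [← Nat.not_even_iff_odd, even_iff_two_dvd])
      rw [h1, sub_zero]
      rcases odd_or_of_not_dvd_quotient ht2 hc hg with h2 | h2
      · exact sum_principal_central hM ht2 hc h2 h2
      · have h3 := sum_principal_central hM ht2 hc h2 h2
        rw [QuotientGroup.mk_mul, (QuotientGroup.eq_one_iff t).2 (mem_zpowers t), one_mul] at h3
        simp only [norm_central_mul hc] at h3
        exact h3
  have h1 := classInner_kernel_one (principalBlock M G)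
  rw [key] at h1
  have h2 := classInner_comp_surjective (QuotientGroup.mk' (zpowers t))
    (QuotientGroup.mk'_surjective _) ((2 : ℂ) • W - U) (fun _ => 1)
  have h3 : classInner U (fun _ => 1) = 1 := by
    change classInner U (irrOne (G ⧸ zpowers t) : G ⧸ zpowers t → ℂ) = 1
    simp only [hU, classInner_add_left, classInner_smul_left, irr_inner, ha, hb, hc', if_true,
      if_false]
    simp
  have h4 : Nat.card (principalBlock M (G ⧸ zpowers t)) = 4 := by
    rw [hB, Nat.card_coe_set_eq, Set.ncard_insert_of_notMem (by simp [ha.symm, hb.symm, hc'.symm]),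
      Set.ncard_insert_of_notMem (by simp [hab, hac]), Set.ncard_pair hbc]
  rw [h1, classInner_sub_left, classInner_smul_left, h3, hW, classInner_kernel_one, h4] at h2
  have h5 : (Nat.card (principalBlock M G) : ℂ) = (7 : ℕ) := by rw [h2]; norm_num
  exact_mod_cast h5

end Cfsg.Agent.Block
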