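import Mathlib
import Cfsg.Agent.Block.DadeExt
import Cfsg.Agent.Block.PrinReg
import Cfsg.Agent.Block.GalBlock
import Cfsg.Agent.Char.AmbExt
import Cfsg.Agent.Char.PPrimeDeg
import Cfsg.Agent.Char.Det
import Cfsg.Agent.S0867

/-! Canonical extensions of principal-block characters of `p'`-degree
(Navarro-Tiep-Vallejo). -/

set_option autoImplicit false
set_option linter.unusedSectionVars false

namespace Cfsg.Agent.Block.RatExt

open Cfsg Cfsg.Agent.Char Cfsg.Agent.Block Subgroup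

variable {G : Type*} [Group G] [Finite G] {M : Ideal AlgInt} {p : ℕ} [hp : Fact p.Prime]
  {N : Subgroup G}

theorem detChar_galois {χ : G → ℂ} (hχ : IsCharacter G χ) (σ : ℂ →+* ℂ) (g : G) :
    detChar (fun g => σ (χ g)) g = σ (detChar χ g) := by
  obtain ⟨n, ρ, rfl⟩ := hχ
  rw [← funext (char_galRep ρ σ), detChar_character, detChar_character]
  change LinearMap.det (Matrix.toLin' ((LinearMap.toMatrix' (ρ g)).map σ)) = _
  rw [LinearMap.det_toLin']
  beta_reduce
  rw [← LinearMap.det_toMatrix', RingHom.map_det]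
  rfl

theorem pow_eq_one_of_pow {A : Type*} [Monoid A] {x : A} {e t m : ℕ} (h1 : x ^ (p ^ e * t) = 1)
    (h2 : x ^ m = 1) (hm : ¬ p ∣ m) : x ^ t = 1 := by
  rw [← orderOf_dvd_iff_pow_eq_one] at h1 h2 ⊢
  refine Nat.Coprime.dvd_of_dvd_mul_left (Nat.Coprime.pow_right _ ?_) h1
  exact ((Nat.Prime.coprime_iff_not_dvd hp.out).2 fun h => hm (h.trans h2)).symm

theorem exists_pow_regular (c : G) : ∃ k : ℕ, ¬ p ∣ orderOf (c ^ p ^ k) := by
  obtain ⟨k, t, ht, h⟩ := Nat.exists_eq_pow_mul_and_not_dvd (orderOf_pos c).ne' p hp.out.ne_one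
  refine ⟨k, fun hd => ht (hd.trans (orderOf_dvd_of_pow_eq_one ?_))⟩
  rw [← pow_mul, ← h, pow_orderOf_eq_one]

/-- The canonical extension. -/
structure Good (M : Ideal AlgInt) (p : ℕ) (N : Subgroup G) (θ : N → ℂ) (χ : G → ℂ) : Prop where
  irr : IsIrrCharacter G χ
  ext : ∀ n : N, χ n = θ n
  cong : ∀ c : G, ¬ p ∣ orderOf c → ¬ p ∣ (centralizer ({c} : Set G)).relIndex N →
    val M (χ c - χ 1) < 1
  det : ∃ t : ℕ, ¬ p ∣ t ∧ ∀ g, detHom χ g ^ t = 1

theorem Good.unique (hM : IsPModular p M) [N.Normal] {P : Subgroup G}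
    (hP : ¬ p ∣ P.relIndex N)
    (hG : ∀ g : G, ∃ a : ℕ, g ^ p ^ a ∈ N ⊔ centralizer (P : Set G))
    {θ : N → ℂ} (hθ : IsIrrCharacter N θ) (hd : ¬ p ∣ charDegree θ) {χ χ' : G → ℂ}
    (h : Good M p N θ χ) (h' : Good M p N θ χ') : χ' = χ := by
  have := Fintype.ofFinite G
  have hχN : IsIrrCharacter N (fun n : N => χ n) := by rw [funext h.ext]; exact hθ
  obtain ⟨μ, hμN, hμ⟩ := exists_hom_mul_of_extends h.irr.isCharacter hχN h'.irr.isCharacter
    fun n => (h'.ext n).trans (h.ext n).symm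
  have hd1 : χ 1 = charDegree θ := (h.ext 1).trans (coe_charDegree_of_isCharacter hθ.isCharacter).symm
  have hv1 : val M (χ 1) = 1 := by rw [hd1]; exact (val_natCast_eq_one_iff hM _).2 hd
  have h1 : ∀ c ∈ centralizer (P : Set G), ¬ p ∣ orderOf c → μ c = 1 := by
    intro c hc hreg
    have hi : ¬ p ∣ (centralizer ({c} : Set G)).relIndex N := fun hd =>
      hP (hd.trans (relIndex_dvd_of_le_left N ((le_centralizer_singleton_iff' P c).2 hc)))
    have h2 := h.cong c hreg hi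
    have h3 := h'.cong c hreg hi
    rw [hμ] at h3
    simp only [map_one, Units.val_one, one_mul] at h3
    have h4 : val M (χ c) = 1 := by
      rw [← hv1] at h2
      rw [← hv1, ← Valuation.map_add_eq_of_lt_left _ h2, add_sub_cancel]
    have h5 : val M ((μ c : ℂ) - 1) < 1 := by
      have h6 := Valuation.map_sub_lt _ h3 h2
      rw [show (μ c : ℂ) * χ c - χ 1 - (χ c - χ 1) = (μ c - 1) * χ c by ring, map_mul, h4,
        mul_one] at h6
      exact h6
    refine Units.ext (eq_one_of_pow_eq_one_of_val_sub_lt hM hreg ?_ h5)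
    rw [← Units.val_pow_eq_pow_val, ← map_pow, pow_orderOf_eq_one, map_one, Units.val_one]
  obtain ⟨t, ht, hdet⟩ := h.det
  obtain ⟨t', ht', hdet'⟩ := h'.det
  have h7 : ∀ g, μ g ^ (charDegree θ * t * t') = 1 := by
    intro g
    have h8 := detHom_hom_mul h.irr.isCharacter μ hd1
    rw [← hμ] at h8
    have h8' : detHom χ' g = μ g ^ charDegree θ * detHom χ g := by rw [h8]; rfl
    have h9 : (μ g ^ charDegree θ * detHom χ g) ^ (t * t') = 1 := by
      rw [← h8', mul_comm t, pow_mul, hdet', one_pow]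
    rwa [mul_pow, pow_mul (detHom χ g), hdet, one_pow, mul_one, ← pow_mul, ← mul_assoc] at h9
  have h10 : ∀ g, μ g = 1 := by
    intro g
    obtain ⟨a, ha⟩ := hG g
    have h11 : g ^ p ^ a ∈ ((N ⊔ centralizer (P : Set G) : Subgroup G) : Set G) := ha
    rw [normal_mul] at h11
    obtain ⟨n, hn, c, hc, hnc⟩ := h11
    obtain ⟨k, hk⟩ := exists_pow_regular (p := p) c
    have h12 := h1 _ (pow_mem hc _) hk
    have h13 : μ g ^ (p ^ (a + k) * 1) = 1 := by
      rw [mul_one, pow_add, pow_mul, ← map_pow μ g, ← hnc]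
      simp only [map_mul, hμN n hn, one_mul]
      rw [← map_pow, h12]
    have h15 := pow_eq_one_of_pow h13 (h7 g) fun hd' => by
      rcases (Nat.Prime.dvd_mul hp.out).1 hd' with h | h
      · rcases (Nat.Prime.dvd_mul hp.out).1 h with h | h
        exacts [hd h, ht h]
      · exact ht' h
    rwa [pow_one] at h15
  rw [hμ]
  funext g
  simp [h10 g]

theorem Good.comp {θ : N → ℂ} {χ : G → ℂ} (h : Good M p N θ χ) (φ : G ≃* G)
    (hφ : ∀ n, φ n ∈ N ↔ n ∈ N) (hθ : ∀ n : N, θ ⟨φ n, (hφ n).2 n.2⟩ = θ n) :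
    Good M p N θ (fun g => χ (φ g)) where
  irr := h.irr.comp_mulEquiv φ
  ext n := (h.ext ⟨φ n, (hφ n).2 n.2⟩).trans (hθ n)
  cong c h1 h2 := by
    rw [map_one]
    refine h.cong (φ c) (by rwa [φ.orderOf_eq]) ?_
    have h3 : centralizer ({c} : Set G) = (centralizer ({φ c} : Set G)).comap φ.toMonoidHom := by
      ext x
      simp only [mem_comap, mem_centralizer_singleton_iff, MulEquiv.toMonoidHom_eq_coe,
        MonoidHom.coe_coe, ← map_mul, φ.injective.eq_iff]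
    have h4 : N.map φ.toMonoidHom = N := by
      ext x
      constructor
      · rintro ⟨y, hy, rfl⟩
        exact (hφ y).2 hy
      · intro hx
        exact ⟨φ.symm x, (hφ _).1 (by simpa using hx), by simp⟩
    rwa [h3, relIndex_comap, h4] at h2
  det := by
    obtain ⟨t, ht, hdet⟩ := h.det
    refine ⟨t, ht, fun g => ?_⟩
    have h1 := detHom_comp h.irr.isCharacter φ.toMonoidHom
    erw [h1]
    exact hdet (φ g)

theorem Good.galois {θ : N → ℂ} {χ : G → ℂ} (h : Good M p N θ χ) (σ : ℂ →+* ℂ)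
    (hθ : ∀ n, σ (θ n) = θ n)
    (hσ : ∀ n : ℕ, ¬ p ∣ n → n ∣ Nat.card G → ∀ z : ℂ, z ^ n = 1 → σ z = z) :
    Good M p N θ (fun g => σ (χ g)) where
  irr := h.irr.galois σ
  ext n := by rw [h.ext n, hθ]
  cong c h1 h2 := by
    have h3 : ∀ c : G, ¬ p ∣ orderOf c → σ (χ c) = χ c := fun c hc => by
      have := h.irr.isCharacter.galois_apply σ (n := orderOf c) (m := 1)
        (fun z hz => by rw [pow_one]; exact hσ _ hc (orderOf_dvd_natCard c) z hz) c
        (pow_orderOf_eq_one c)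
      rwa [pow_one] at this
    rw [h3 c h1, h3 1 (by simpa using hp.out.one_lt.ne')]
    exact h.cong c h1 h2
  det := by
    obtain ⟨t, ht, hdet⟩ := h.det
    refine ⟨t, ht, fun g => Units.ext ?_⟩
    have h1 := congrArg Units.val (hdet g)
    simp only [Units.val_pow_eq_pow_val, coe_detHom, Units.val_one] at h1 ⊢
    rw [detChar_galois h.irr.isCharacter, ← map_pow, h1, map_one]

theorem exists_ext_of_not_dvd (hM : IsPModular p M) [N.Normal] {P : Subgroup G} (hPN : P ≤ N)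
    (hP : ¬ p ∣ P.relIndex N) (hidx : ¬ p ∣ N.index) (hsup : N ⊔ centralizer (P : Set G) = ⊤)
    {θ : IrrCharacter N} (hθ : θ ∈ principalBlock M N) :
    ∃ χ : IrrCharacter G, ∀ n : N, (χ : G → ℂ) n = (θ : N → ℂ) n := by
  have := Fintype.ofFinite G
  have := Fintype.ofFinite N
  have hP' : ¬ p ∣ P.index := by
    rw [← relIndex_mul_index hPN]
    exact fun h => ((Nat.Prime.dvd_mul hp.out).1 h).elim hP hidx
  obtain ⟨χ, hχ, h1⟩ := (covers_principal (N := N) hM).exists_over hM isPBlock_principal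
    isPBlock_principal hθ
  exact ⟨χ, (principal_restrict_of_sup_centralizer hM hidx hP' hPN hsup hθ hχ h1).1⟩

theorem subgroupOf_sup_eq_top [N.Normal] {P U : Subgroup G} (hNU : N ≤ U)
    (hU : U ≤ N ⊔ centralizer (P : Set G)) :
    N.subgroupOf U ⊔ centralizer ((P.subgroupOf U : Subgroup U) : Set U) = ⊤ := by
  refine eq_top_iff.2 fun u _ => ?_
  have h1 : (u : G) ∈ ((N ⊔ centralizer (P : Set G) : Subgroup G) : Set G) := hU u.2
  rw [normal_mul] at h1
  obtain ⟨n, hn, c, hc, hnc⟩ := h1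
  have hcU : c ∈ U := by
    have := U.mul_mem (U.inv_mem (hNU hn)) u.2
    rwa [← hnc, inv_mul_cancel_left] at this
  have h2 : u = ⟨n, hNU hn⟩ * ⟨c, hcU⟩ := Subtype.ext hnc.symm
  rw [h2]
  exact mul_mem (mem_sup_left hn) (mem_sup_right fun x hx => Subtype.ext (hc x hx))

theorem exists_ext (hM : IsPModular p M) [hN : N.Normal] {P : Subgroup G} (hPN : P ≤ N)
    (hP : ¬ p ∣ P.relIndex N) (hsup : N ⊔ centralizer (P : Set G) = ⊤)
    {θ : IrrCharacter N} (hθ : θ ∈ principalBlock M N) (hinv : InvBy ⊤ θ.1)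
    (hd : ¬ p ∣ charDegree θ.1) (ho : ¬ p ∣ detOrder θ.1) :
    ∃ χ : G → ℂ, IsIrrCharacter G χ ∧ ∀ n : N, χ n = (θ : N → ℂ) n := by
  have hn : ∀ H : Subgroup G, H ≤ normalizer (N : Set G) := fun H => by
    rw [normalizer_eq_top]; exact le_top
  obtain ⟨χ, hχ⟩ := hasExt_of_sylow (H := ⊤) le_top (hn _) θ hinv fun q hq => by
    have : Fact q.Prime := ⟨hq⟩
    obtain ⟨Q⟩ := (inferInstance : Nonempty (Sylow q G))
    obtain ⟨k, hk⟩ := Q.isPGroup'.index (N.subgroupOf (Q : Subgroup G))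
    have hk' : N.relIndex (N ⊔ Q) = q ^ k := by rw [relIndex_sup_left]; exact hk
    refine ⟨Q, Q.isPGroup', le_top, fun h => Q.not_dvd_index ?_, ?_⟩
    · rw [relIndex_top_right] at h
      exact h.trans (index_dvd_of_le le_sup_right)
    by_cases hqp : q = p
    · subst hqp
      obtain ⟨χ, ⟨h1, -⟩, -⟩ := exists_ext_of_coprime (le_sup_left : N ≤ N ⊔ Q) (hn _) θ
        (hinv.mono le_top) (by
          rw [hk']
          exact Nat.Coprime.pow_left _ ((Nat.Prime.coprime_iff_not_dvd hq).2 fun h =>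
            ((Nat.Prime.dvd_mul hq).1 h).elim ho hd))
      exact ⟨χ, fun n _ => h1 n⟩
    · obtain ⟨χ, h1⟩ := exists_ext_of_not_dvd (G := (N ⊔ Q : Subgroup G)) hM
        (N := N.subgroupOf (N ⊔ Q)) (P := P.subgroupOf (N ⊔ Q)) (fun x hx => hPN hx)
        (by rwa [relIndex_subgroupOf le_sup_left])
        (fun h => hqp ((Nat.prime_dvd_prime_iff_eq hp.out hq).1
          (hp.out.dvd_of_dvd_pow (hk' ▸ (show p ∣ N.relIndex (N ⊔ Q) from h)))).symm)
        (subgroupOf_sup_eq_top le_sup_left (hsup ▸ le_top))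
        ((irrCongr_mem_principalBlock (subgroupOfEquivOfLe le_sup_left)).2 hθ)
      exact ⟨χ, fun n hn => h1 ⟨⟨n, hn⟩, n.2⟩⟩
  exact ⟨fun g => χ.1 (topEquiv.symm g), χ.2.comp_mulEquiv _, fun n => hχ n trivial⟩

theorem exists_good_of_sup (hM : IsPModular p M) [hN : N.Normal] {P : Subgroup G} (hPN : P ≤ N)
    (hP : ¬ p ∣ P.relIndex N) (hsup : N ⊔ centralizer (P : Set G) = ⊤)
    {θ : IrrCharacter N} (hθ : θ ∈ principalBlock M N) (hinv : InvBy ⊤ θ.1)
    (hd : ¬ p ∣ charDegree θ.1) (ho : ¬ p ∣ detOrder θ.1) :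
    ∃ χ : IrrCharacter G, χ ∈ principalBlock M G ∧ Good M p N θ.1 χ.1 := by
  obtain ⟨ψ, hψi, hψ⟩ := exists_ext hM hPN hP hsup hθ hinv hd ho
  obtain ⟨lam, h1, h2⟩ := exists_ext_val_om_sub_aug_lt hM (forall_exists_goodElt hM hP hsup) hθ
    hψi hψ
  set χ₁ : IrrCharacter G := ⟨_, hψi.mul_linear lam⟩ with hχ₁
  have h3 : ∀ x : N, χ₁.1 x = (θ : N → ℂ) x := fun x => by
    change ψ x * lam x = _
    rw [h1 x x.2, hψ, Units.val_one, mul_one]
  have hB : χ₁ ∈ principalBlock M G := mem_principal_of_val_om hM h2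
  have hd1 : χ₁.1 1 = charDegree θ.1 := (h3 1).trans (coe_charDegree_irr θ).symm
  have hv1 : val M (χ₁.1 1) = 1 := by rw [hd1]; exact (val_natCast_eq_one_iff hM _).2 hd
  have hcong : ∀ c : G, ¬ p ∣ (centralizer ({c} : Set G)).relIndex N →
      val M (χ₁.1 c - χ₁.1 1) < 1 := by
    intro x hx
    have hst : Alg.stab (MonoidAlgebra.single x (1 : ℂ)) = centralizer ({x} : Set G) := by
      ext g
      rw [Alg.mem_stab, Alg.emb_single, mem_centralizer_singleton_iff,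
        MonoidAlgebra.single_left_inj one_ne_zero, Alg.cm_apply, mul_inv_eq_iff_eq_mul]
    have h4 : ∀ f : G → ℂ, IsClassFunction G f → om f (Alg.osum N (MonoidAlgebra.single x 1)) =
        (centralizer ({x} : Set G)).relIndex N * (f x / f 1) := fun f hf => by
      rw [Alg.osum, map_sum, ← hst, ← Alg.card_orb, Finset.sum_congr rfl (g := fun _ => f x / f 1),
        Finset.sum_const, nsmul_eq_mul]
      intro y hy
      obtain ⟨u, -, rfl⟩ := Alg.mem_orb.1 hy
      rw [Alg.emb_single, om_single, one_mul, Alg.cm_apply, hf]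
    have h5 := h2 _ (Alg.inv_osum N (MonoidAlgebra.single x 1))
      (osum_mem_intAlg N (single_one_mem_intAlg x))
    rw [← om_one_eq_aug, h4 _ (isClassFunction_const 1)] at h5
    erw [h4 _ χ₁.2.isClassFunction] at h5
    have h6 : χ₁.1 1 ≠ 0 := ne_zero_of_val_eq_one hv1
    rw [show ((centralizer ({x} : Set G)).relIndex N : ℂ) * (χ₁.1 x / χ₁.1 1) -
      (centralizer ({x} : Set G)).relIndex N * (1 / 1) =
      (centralizer ({x} : Set G)).relIndex N * (χ₁.1 x - χ₁.1 1) / χ₁.1 1 by field_simp,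
      map_div₀, map_mul, hv1, (val_natCast_eq_one_iff hM _).2 hx, one_mul, div_one] at h5
    exact h5
  set δ := detHom χ₁.1 with hδ
  obtain ⟨e, t, ht, het⟩ := Nat.exists_eq_pow_mul_and_not_dvd (detOrder_pos χ₁.1).ne' p
    hp.out.ne_one
  have hδ1 : δ ^ (p ^ e * t) = 1 := by rw [← het, detOrder_eq_orderOf, pow_orderOf_eq_one]
  have hδ2 : ∀ g m, δ g ^ m = 1 → ¬ p ∣ m → δ g ^ t = 1 := fun g m h hm =>
    pow_eq_one_of_pow (by rw [← MonoidHom.pow_apply, hδ1, MonoidHom.one_apply]) h hm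
  have hcop : IsCoprime ((t * charDegree θ.1 : ℕ) : ℤ) ((p ^ e : ℕ) : ℤ) :=
    Nat.isCoprime_iff_coprime.2 (Nat.Coprime.pow_right _ ((Nat.Prime.coprime_iff_not_dvd
      hp.out).2 fun h => ((Nat.Prime.dvd_mul hp.out).1 h).elim ht hd).symm)
  obtain ⟨a, b, hab⟩ := hcop
  set ν : G →* ℂˣ := (δ ^ t) ^ (-a) with hν
  have hν1 : ∀ g m, δ g ^ m = 1 → ¬ p ∣ m → ν g = 1 := fun g m h hm => by
    rw [hν, MonoidHom.zpow_apply, MonoidHom.pow_apply, hδ2 g m h hm, one_zpow]
  have hν2 : ∀ g, ¬ p ∣ orderOf g → ν g = 1 := fun g hg =>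
    hν1 g _ (by rw [← map_pow, pow_orderOf_eq_one, map_one]) hg
  have hirr : IsIrrCharacter G (fun g => (ν g : ℂ) * χ₁.1 g) := by
    simpa [mul_comm] using χ₁.2.mul_linear ν
  refine ⟨⟨_, hirr⟩, mem_of_eq_on_regular hM isPBlock_principal hB fun y hy => by
    simp [hν2 y hy], hirr, fun n => ?_, fun c h4 h5 => ?_, t, ht, ?_⟩
  · have h6 : ν n = 1 := by
      refine hν1 n _ ?_ ho
      rw [hδ, detHom_of_extends χ₁.2.isCharacter h3, ← MonoidHom.pow_apply, detOrder_eq_orderOf,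
        pow_orderOf_eq_one, MonoidHom.one_apply]
    simp [h6, h3]
  · simpa [hν2 c h4] using hcong c h5
  · intro g
    change detHom (fun g => (ν g : ℂ) * χ₁.1 g) g ^ t = 1
    rw [detHom_hom_mul χ₁.2.isCharacter ν hd1, ← hδ]
    change (((δ g ^ t) ^ (-a)) ^ charDegree θ.1 * δ g) ^ t = 1
    have h7 : ((δ g ^ t) ^ (-a)) ^ charDegree θ.1 * δ g = (δ g ^ (p ^ e)) ^ b := by
      rw [← zpow_natCast, ← zpow_natCast, ← zpow_natCast, ← zpow_mul, ← zpow_mul, ← zpow_mul,
        ← zpow_add_one]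
      congr 1
      push_cast at hab ⊢
      linear_combination -hab
    have h8 : δ g ^ (p ^ e * t) = 1 := by rw [← MonoidHom.pow_apply, hδ1, MonoidHom.one_apply]
    rw [h7, ← zpow_natCast, ← zpow_mul, mul_comm b, zpow_mul, zpow_natCast, ← pow_mul, h8,
      one_zpow]

theorem not_dvd_detOrder_of_rat (hp2 : p ≠ 2) {θ : G → ℂ} (hθ : IsCharacter G θ) {m : ℕ}
    (hm : ¬ p ∣ m) (h : ∀ σ : ℂ ≃+* ℂ, (∀ z : ℂ, z ^ m = 1 → σ z = z) → ∀ g, σ (θ g) = θ g) :
    ¬ p ∣ detOrder θ := by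
  rintro ⟨c, hc⟩
  have hm0 : m ≠ 0 := by rintro rfl; exact hm (dvd_zero p)
  have hcop : m.Coprime p := ((Nat.Prime.coprime_iff_not_dvd hp.out).2 hm).symm
  obtain ⟨k, hk1, hk2⟩ := Nat.chineseRemainder hcop 1 2
  have hkc : k.Coprime (m * p) := by
    refine Nat.Coprime.mul_right ?_ ?_
    · rw [Nat.Coprime, hk1.gcd_eq, Nat.gcd_one_left]
    · rw [Nat.Coprime, hk2.gcd_eq]
      exact (Nat.coprime_primes Nat.prime_two hp.out).2 hp2.symm
  obtain ⟨σ, hσ⟩ := exists_ringEquiv_pow (mul_ne_zero hm0 hp.out.ne_zero) hkc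
  have h1 := h σ fun z hz => by
    rw [hσ z (by rw [pow_mul, hz, one_pow]), pow_eq_pow_of_modEq hk1 hz, pow_one]
  have h2 : detHom θ ^ c = 1 := by
    ext g
    have h3 : (detChar θ g ^ c) ^ p = 1 := by
      rw [← pow_mul, mul_comm, ← hc, ← Pi.pow_apply, detOrder, pow_orderOf_eq_one, Pi.one_apply]
    have h4 : σ (detChar θ g) = detChar θ g := by
      have := detChar_galois hθ σ.toRingHom g
      simp only [RingEquiv.toRingHom_eq_coe, RingHom.coe_coe, h1] at this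
      exact this.symm
    have h5 : σ (detChar θ g ^ c) = detChar θ g ^ c := by rw [map_pow, h4]
    rw [hσ _ (by rw [mul_comm, pow_mul, h3, one_pow]), pow_eq_pow_of_modEq hk2 h3, pow_two] at h5
    have h6 := mul_left_cancel₀ (pow_ne_zero c (detChar_ne_zero θ g)) (h5.trans (mul_one _).symm)
    simpa [coe_detHom] using h6
  have h7 : orderOf (detHom θ) ∣ c := orderOf_dvd_of_pow_eq_one h2
  rw [← detOrder_eq_orderOf, hc] at h7
  have h8 : 0 < c := Nat.pos_of_mul_pos_left (hc ▸ detOrder_pos θ)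
  have h9 := Nat.le_of_dvd h8 h7
  have h10 := hp.out.two_le
  nlinarith

theorem exists_good (hM : IsPModular p M) [hN : N.Normal] {P : Subgroup G} (hPN : P ≤ N)
    (hP : ¬ p ∣ P.relIndex N) (hF : N ⊔ normalizer (P : Set G) = ⊤)
    (hidx : ∃ a, (N ⊔ centralizer (P : Set G)).index = p ^ a)
    {θ : IrrCharacter N} (hθ : θ ∈ principalBlock M N) (hinv : InvBy ⊤ θ.1)
    (hd : ¬ p ∣ charDegree θ.1) (ho : ¬ p ∣ detOrder θ.1) :
    ∃ χ : IrrCharacter G, χ ∈ principalBlock M G ∧ Good M p N θ.1 χ.1 ∧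
      ∀ χ', Good M p N θ.1 χ' → χ' = χ.1 := by
  set L := N ⊔ centralizer (P : Set G) with hL
  have hNL : N ≤ L := le_sup_left
  have hLn : L.Normal := ⟨fun x hx g => by
    obtain ⟨n, hn, h, hh, rfl⟩ := exists_mul_of_sup_eq_top hF g
    have h1 : x ∈ ((N ⊔ centralizer (P : Set G) : Subgroup G) : Set G) := hx
    rw [normal_mul] at h1
    obtain ⟨n', hn', c, hc, rfl⟩ := h1
    have h2 : h * c * h⁻¹ ∈ centralizer (P : Set G) := fun y hy => by
      have h3 := hc _ ((mem_normalizer_iff''.1 hh y).1 hy)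
      calc y * (h * c * h⁻¹) = h * (h⁻¹ * y * h * c) * h⁻¹ := by group
        _ = h * (c * (h⁻¹ * y * h)) * h⁻¹ := by rw [h3]
        _ = _ := by group
    have h4 := L.mul_mem (L.mul_mem (L.mul_mem (hNL hn) (hNL (hN.conj_mem _ hn' h)))
      (mem_sup_right h2)) (hNL (N.inv_mem hn))
    convert h4 using 1
    group⟩
  obtain ⟨a, ha⟩ := hidx
  have hG : ∀ g : G, ∃ a : ℕ, g ^ p ^ a ∈ L := fun g => ⟨a, ha ▸ L.pow_index_mem g⟩
  set θ' := irrCongr (subgroupOfEquivOfLe hNL) θ with hθ'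
  have hP' : ¬ p ∣ (P.subgroupOf L).relIndex (N.subgroupOf L) := by
    rwa [relIndex_subgroupOf hNL]
  have hsup := subgroupOf_sup_eq_top (P := P) hNL le_rfl
  have hd' : ¬ p ∣ charDegree θ'.1 := by rwa [hθ', charDegree_irrCongr]
  obtain ⟨η, hηB, hη⟩ := exists_good_of_sup (G := L) hM (N := N.subgroupOf L)
    (P := P.subgroupOf L) (fun x hx => hPN hx) hP' hsup (θ := θ')
    ((irrCongr_mem_principalBlock _).2 hθ)
    (fun s _ g g' h => hinv s trivial _ _ (congrArg Subtype.val h)) hd' (by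
      intro h
      refine ho (h.trans ?_)
      rw [detOrder_eq_orderOf, detOrder_eq_orderOf]
      refine orderOf_dvd_of_pow_eq_one ?_
      have h1 := detHom_comp θ.2.isCharacter (subgroupOfEquivOfLe hNL).toMonoidHom
      erw [h1]
      ext g
      rw [MonoidHom.pow_apply, MonoidHom.comp_apply, ← MonoidHom.pow_apply, pow_orderOf_eq_one]
      rfl)
  have hηinv : ∀ (g : G) (x : L), η.1 ⟨g * x * g⁻¹, hLn.conj_mem _ x.2 g⟩ = η.1 x := by
    intro g x
    have h1 := hη.comp (MulAut.conjNormal g) (fun n => by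
      simp only [mem_subgroupOf, MulAut.conjNormal_apply]
      exact ⟨fun h => by simpa [mul_assoc] using hN.conj_mem _ h g⁻¹, fun h => hN.conj_mem _ h g⟩)
      (fun n => hinv g trivial _ _ rfl)
    exact congrFun (hη.unique hM hP' (fun g => ⟨0, hsup ▸ mem_top _⟩) θ'.2 hd' h1) x
  have hη1 : charDegree η.1 = charDegree θ'.1 := charDegree_congr_one (hη.ext 1)
  obtain ⟨t, ht, hdet⟩ := hη.det
  have hot : detOrder η.1 ∣ t := by
    rw [detOrder_eq_orderOf]
    exact orderOf_dvd_of_pow_eq_one (MonoidHom.ext hdet)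
  obtain ⟨χ, ⟨h1, h2, h3⟩, -⟩ := Cfsg.Agent.S0867.result L η.1 η.2 hηinv _
    (coe_charDegree_irr η).symm (by
      rw [ha]
      exact Nat.Coprime.pow_left _ ((Nat.Prime.coprime_iff_not_dvd hp.out).2 fun h =>
        ((Nat.Prime.dvd_mul hp.out).1 h).elim (fun h => ht (h.trans hot)) (hη1 ▸ hd')))
  have hgood : Good M p N θ.1 χ := by
    refine ⟨h1, fun n => (h2 ⟨n, hNL n.2⟩).trans (hη.ext ⟨⟨n, hNL n.2⟩, n.2⟩), fun c h4 h5 => ?_,
      t, ht, fun g => ?_⟩
    · have hc : c ∈ L := mem_of_pow_coprime (a := orderOf c) (b := p ^ a)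
        (Nat.Coprime.pow_right _ ((Nat.Prime.coprime_iff_not_dvd hp.out).2 h4).symm)
        (by simp) (ha ▸ L.pow_index_mem c)
      have h6 := hη.cong ⟨c, hc⟩ (by rwa [← orderOf_coe]) (by
        have h7 : centralizer ({⟨c, hc⟩} : Set L) = (centralizer ({c} : Set G)).subgroupOf L := by
          ext x
          simp [mem_subgroupOf, mem_centralizer_singleton_iff, Subtype.ext_iff]
        rwa [h7, relIndex_subgroupOf hNL])
      rwa [← h2, ← h2] at h6
    · obtain ⟨s, hs⟩ := hot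
      rw [hs, ← h3, pow_mul, ← MonoidHom.pow_apply, detOrder_eq_orderOf, pow_orderOf_eq_one,
        MonoidHom.one_apply, one_pow]
  exact ⟨⟨χ, h1⟩, ((mem_principal_iff_of_extends hM L ⟨a, ha⟩ (χ := ⟨χ, h1⟩) (θ := η) h2).2
    ⟨hηB, hη1 ▸ hd'⟩).1, hgood, fun χ' h' => hgood.unique hM hP hG θ.2 hd h'⟩

end Cfsg.Agent.Block.RatExt
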