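import Mathlib
import Cfsg.Agent.Block.Star
import Cfsg.Agent.Block.RankQuot
import Cfsg.Agent.Block.PrincipalPow
import Cfsg.Agent.Block.AlgLocal
import Cfsg.Agent.Block.Contrib

/-! If the Sylow `2`-subgroups of `G` are abelian and `G` has a non-trivial real element of odd
order, then the principal block idempotent modulo `2` has such an element in its support. -/

set_option autoImplicit false
set_option linter.unusedSectionVars false

namespace Cfsg.Agent.Block

open Cfsg Cfsg.Agent.Char MonoidAlgebra Subgroup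
open scoped ComplexConjugate

theorem sum_eq_sum_fixed_two {X k : Type*} [Fintype X] [DecidableEq X] [Ring k] [CharP k 2]
    (σ : X → X) (hσ : ∀ x, σ (σ x) = x) (F : X → k) (hF : ∀ x, F (σ x) = F x) :
    ∑ x, F x = ∑ x with σ x = x, F x := by
  rw [← Finset.sum_filter_add_sum_filter_not Finset.univ (fun x => σ x = x), add_eq_left]
  refine Finset.sum_involution (fun x _ => σ x) (fun x _ => ?_)
    (fun x hx _ => (Finset.mem_filter.1 hx).2) (fun x hx => ?_) fun x _ => hσ x
  · rw [hF, CharTwo.add_self_eq_zero]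
  · simp only [Finset.mem_filter, Finset.mem_univ, true_and, hσ] at hx ⊢
    exact fun h => hx h.symm

namespace Alg

variable {k : Type*} [Field k] [CharP k 2] {G : Type*} [Group G] [Fintype G] [DecidableEq G]

/-- Central elements invariant under inversion. -/
structure Sym (F : MonoidAlgebra k G) : Prop where
  cjE : ∀ t g, F.coeff (t * g * t⁻¹) = F.coeff g
  inv : ∀ g, F.coeff g⁻¹ = F.coeff g

variable {F : MonoidAlgebra k G}

theorem Sym.eq (h : Sym F) {a b : G} (t : G) (e : a = t * b⁻¹ * t⁻¹) : F.coeff a = F.coeff b := by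
  rw [e, h.cjE, h.inv]

theorem Sym.inv_top (h : Sym F) : Inv ⊤ F := fun t _ g => h.cjE t g

theorem Sym.mul_self (h : Sym F) : Sym (F * F) := by
  refine ⟨fun t g => (h.inv_top.mul h.inv_top) t (mem_top t) g, fun g => ?_⟩
  rw [coeff_mul_fintype, coeff_mul_fintype, ← Equiv.sum_comp (Equiv.inv G)]
  refine Finset.sum_congr rfl fun x _ => ?_
  rw [Equiv.inv_apply, h.inv, h.eq (a := x⁻¹⁻¹ * g⁻¹) (b := x⁻¹ * g) x (by group)]

theorem Sym.coeff_sq_invol (h : Sym F) {v : G} (hv : v * v = 1) (h1 : v ≠ 1) :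
    (F * F).coeff v = 0 := by
  have hv' : v⁻¹ = v := inv_eq_of_mul_eq_one_right hv
  rw [coeff_mul_fintype, sum_eq_sum_fixed_two (fun x => v * x) (fun x => by
    rw [← mul_assoc, hv, one_mul]) _ fun x => ?_, Finset.sum_eq_zero]
  · intro x hx
    exact absurd (mul_eq_right.1 (Finset.mem_filter.1 hx).2) h1
  · rw [mul_comm, h.eq (a := v * x) (b := x⁻¹ * v) 1 (by simp [hv']),
      h.eq (a := (v * x)⁻¹ * v) (b := x) 1 (by simp [hv', mul_assoc, hv])]

theorem Sym.coeff_sq (h : Sym F) {t s w : G} (ht : t * t = 1) (hs : s * s = 1) (hw : w * w = 1)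
    (hws : w * t * w = s) :
    (F * F).coeff (t * s) = ∑ u with u * u = 1 ∧ u * s = s * u, F.coeff (w * u) ^ 2 := by
  have ht' : t⁻¹ = t := inv_eq_of_mul_eq_one_right ht
  have hs' : s⁻¹ = s := inv_eq_of_mul_eq_one_right hs
  have hw' : w⁻¹ = w := inv_eq_of_mul_eq_one_right hw
  have e1 : ∀ x, t * (t * x) = x := fun x => by rw [← mul_assoc, ht, one_mul]
  have e2 : ∀ x, s * (s * x) = x := fun x => by rw [← mul_assoc, hs, one_mul]
  have e3 : ∀ x, w * (w * x) = x := fun x => by rw [← mul_assoc, hw, one_mul]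
  have e4 : ∀ x, t * (w * x) = w * (s * x) := fun x => by
    rw [← hws]; simp only [mul_assoc, e3]
  have e5 : ∀ x, s * (w * x) = w * (t * x) := fun x => by
    rw [← hws]; simp only [mul_assoc, e3]
  rw [coeff_mul_fintype, ← Equiv.sum_comp ((Equiv.inv G).trans (Equiv.mulLeft (t * s)))]
  simp only [Equiv.trans_apply, Equiv.inv_apply, Equiv.coe_mulLeft, mul_inv_rev, inv_inv]
  have e6 : ∀ z : G, z * (s⁻¹ * t⁻¹) * (t * s) = z := fun z => by group
  simp only [e6]
  rw [sum_eq_sum_fixed_two (fun z => t * z * s) (fun z => by simp [mul_assoc, e1, hs]) _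
    fun z => ?_, Finset.sum_congr rfl (g := fun z => F.coeff z ^ 2) fun z hz => ?_,
    Finset.sum_filter, sum_eq_sum_fixed_two (fun z => w * z⁻¹ * w)
      (fun z => by simp [mul_assoc, hw', e3, hw]) _ fun z => ?_, Finset.sum_filter,
    Finset.sum_filter, ← Equiv.sum_comp (Equiv.mulLeft w)]
  · refine Finset.sum_congr rfl fun u _ => ?_
    simp only [Equiv.coe_mulLeft, mul_inv_rev, hw', mul_assoc, hw, mul_one, mul_right_inj, e4,
      ← ite_and]
    refine if_congr (and_congr inv_eq_iff_mul_eq_one ?_) rfl rfl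
    rw [← mul_right_inj s, e2]
  · have : t * (w * z⁻¹ * w) * s = w * z⁻¹ * w ↔ t * z * s = z := by
      have h1 : t * (w * z⁻¹ * w) * s = w * (t * z * s)⁻¹ * w := by
        have := e5 1
        simp only [mul_one] at this
        have h2 := e4 1
        simp only [mul_one] at h2
        simp only [mul_inv_rev, ht', hs', mul_assoc, e4, h2]
      rw [h1, mul_left_inj, mul_right_inj, inv_inj]
    simp only [this]
    rw [h.eq (b := z) w (by rw [hw'])]
  · have h1 := (Finset.mem_filter.1 hz).2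
    rw [sq, h.eq (b := z) t ?_]
    calc t * s * z⁻¹ = t * s * (t * z * s)⁻¹ := by rw [h1]
      _ = _ := by simp only [mul_inv_rev, hs', mul_assoc, e2]
  · rw [mul_comm, h.eq (a := t * z * s) (b := t * s * z⁻¹) t (by simp [mul_assoc, hs', ht', ht]),
      h.eq (a := t * s * (t * z * s)⁻¹) (b := z) t (by simp [mul_assoc, hs', e2])]

theorem exists_swap {t s : G} (ht : t * t = 1) (hs : s * s = 1) (ho : ¬ 2 ∣ orderOf (t * s)) :
    ∃ w, w * w = 1 ∧ w * t * w = s := by
  obtain ⟨r, hr⟩ : Odd (orderOf (t * s)) := Nat.odd_iff.2 (by omega)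
  have ht' : t⁻¹ = t := inv_eq_of_mul_eq_one_right ht
  have hs' : s⁻¹ = s := inv_eq_of_mul_eq_one_right hs
  have h1 : t * (t * s) * t⁻¹ = (t * s)⁻¹ := by
    rw [← mul_assoc, ht, one_mul, mul_inv_rev, hs']
  have h2 : t * (t * s) ^ r * t = ((t * s) ^ r)⁻¹ := by
    rw [← inv_pow, ← h1, conj_pow, ht']
  have h3 := pow_orderOf_eq_one (t * s)
  rw [hr, pow_succ, two_mul, pow_add] at h3
  refine ⟨(t * s) ^ r * t, ?_, ?_⟩
  · rw [mul_assoc, ← mul_assoc t, h2, mul_inv_cancel]
  · rw [mul_assoc _ t t, ht, mul_one, ← mul_assoc, ← mul_left_inj s, hs, mul_assoc _ t s, h3]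

theorem exists_real_coeff {e : MonoidAlgebra k G} (he : IsPrim (Z k ⊤) e) (h1 : aug e = 1)
    (hs : Sym e) (h0 : e.coeff 1 ≠ 0)
    (hc : ∀ a b : G, a * a = 1 → b * b = 1 → a * b = b * a ∨ ¬ 2 ∣ orderOf (a * b))
    (hodd : ∀ t s u : G, t * t = 1 → s * s = 1 → ¬ 2 ∣ orderOf (t * s) → u * u = 1 →
      u * (t * s) = t * s * u → t * s = 1 ∨ u = 1)
    {t s : G} (ht : t * t = 1) (hs' : s * s = 1) (ho : ¬ 2 ∣ orderOf (t * s)) (hts : t * s ≠ 1) :
    ∃ y, y ≠ 1 ∧ t * y⁻¹ * t = y ∧ e.coeff y ≠ 0 := by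
  have : Fact (Nat.Prime 2) := ⟨Nat.prime_two⟩
  let I : MonoidAlgebra k G := mk fun g => if g * g = 1 then 1 else 0
  have hI : Sym I := ⟨fun t g => by
    simp only [I, coeff_mk, conj_mul, conj_eq_one_iff], fun g => by
    simp only [I, coeff_mk, ← mul_inv_rev, inv_eq_one]⟩
  have hcnt : ∀ s : G, s * s = 1 → s ≠ 1 →
      ∑ u with u * u = 1 ∧ u * s = s * u, (1 : k) = 0 := fun s hs h => by
    rw [Finset.sum_filter, sum_eq_sum_fixed_two (fun u => s * u)
      (fun x => by rw [← mul_assoc, hs, one_mul]) _ fun u => ?_, Finset.sum_eq_zero]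
    · intro x hx
      exact absurd (mul_eq_right.1 (Finset.mem_filter.1 hx).2) h
    · have h2 : s * u * s = s * (s * u) ↔ u * s = s * u := by rw [mul_assoc, mul_right_inj]
      simp only [h2]
      refine if_congr (and_congr_left fun h3 => ?_) rfl rfl
      rw [mul_assoc, ← mul_assoc u, h3, mul_assoc, ← mul_assoc, hs, one_mul]
  have hne : ∀ {t s : G}, t * t = 1 → s * s = 1 → ¬ 2 ∣ orderOf (t * s) → t * s ≠ 1 →
      t ≠ 1 ∧ s ≠ 1 := fun {t s} ht hs ho h => by
    constructor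
    · rintro rfl
      rw [one_mul] at ho h
      exact ho (orderOf_eq_prime (by rw [sq, hs]) h).symm.dvd
    · rintro rfl
      rw [mul_one] at ho h
      exact ho (orderOf_eq_prime (by rw [sq, ht]) h).symm.dvd
  have hwu : ∀ {t s w u : G}, t * t = 1 → s * s = 1 → ¬ 2 ∣ orderOf (t * s) → t * s ≠ 1 →
      w * w = 1 → w * t * w = s → u * u = 1 → u * s = s * u → u ≠ 1 →
      ¬ 2 ∣ orderOf (w * u) ∧ w * u ≠ 1 := fun {t s w u} ht hs ho h hw hws hu hus h1 => by
    have h2 : w * u ≠ u * w := fun h2 => by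
      refine (hodd t s u ht hs ho hu ?_).elim h h1
      have h3 : t = w * s * w := by
        rw [← hws, ← mul_assoc, ← mul_assoc, hw, one_mul, mul_assoc, hw, mul_one]
      have h4 : Commute u w := h2.symm
      have h5 : Commute u s := hus
      exact ((h3 ▸ (h4.mul_right h5).mul_right h4 : Commute u t).mul_right h5)
    refine ⟨(hc w u hw hu).resolve_left h2, fun h3 => h2 ?_⟩
    rw [h3, eq_comm, mul_eq_one_iff_eq_inv, eq_inv_of_mul_eq_one_right h3]
  have key : ∀ n, Sym (I ^ 2 ^ (n + 1)) ∧ (∀ v, v * v = 1 → v ≠ 1 → (I ^ 2 ^ (n + 1)).coeff v = 0) ∧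
      ∀ t s : G, t * t = 1 → s * s = 1 → ¬ 2 ∣ orderOf (t * s) → t * s ≠ 1 →
        (I ^ 2 ^ (n + 1)).coeff (t * s) = 1 := by
    intro n
    induction n with
    | zero =>
      rw [zero_add, pow_one, sq]
      refine ⟨hI.mul_self, fun v => hI.coeff_sq_invol, fun t s ht hs ho h => ?_⟩
      obtain ⟨w, hw, hws⟩ := exists_swap ht hs ho
      rw [hI.coeff_sq ht hs hw hws, Finset.sum_eq_single 1]
      · simp [I, hw]
      · intro u hu h1
        obtain ⟨h2, h3⟩ := hwu ht hs ho h hw hws (Finset.mem_filter.1 hu).2.1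
          (Finset.mem_filter.1 hu).2.2 h1
        simp only [I, coeff_mk]
        rw [if_neg fun h4 => h2 (orderOf_eq_prime (by rw [sq, h4]) h3).symm.dvd]
        simp
      · simp
    | succ n ih =>
      rw [pow_succ 2 (n + 1), pow_mul, sq]
      refine ⟨ih.1.mul_self, fun v => ih.1.coeff_sq_invol, fun t s ht hs ho h => ?_⟩
      obtain ⟨w, hw, hws⟩ := exists_swap ht hs ho
      have h2 := hcnt s hs (hne ht hs ho h).2
      have hw1 : w ≠ 1 := by
        rintro rfl
        rw [one_mul, mul_one] at hws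
        exact h (hws ▸ ht)
      rw [← Finset.add_sum_erase _ _ (a := 1) (by simp), CharTwo.add_eq_zero] at h2
      rw [ih.1.coeff_sq ht hs hw hws, ← Finset.add_sum_erase _ _ (a := 1) (by simp), mul_one,
        ih.2.1 w hw hw1, zero_pow two_ne_zero, zero_add]
      refine Eq.trans (Finset.sum_congr rfl fun u hu => ?_) h2.symm
      obtain ⟨h4, h5⟩ := Finset.mem_erase.1 hu
      obtain ⟨h6, h7⟩ := hwu ht hs ho h hw hws (Finset.mem_filter.1 h5).2.1
        (Finset.mem_filter.1 h5).2.2 h4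
      rw [ih.2.2 w u hw (Finset.mem_filter.1 h5).2.1 h6 h7, one_pow]
  have hIZ : I ∈ Z k ⊤ := ⟨supp_top _, hI.inv_top⟩
  have hIa : aug I = 0 := by
    have h2 : ∑ _g : G, (1 : k) = 0 := by
      rw [sum_eq_sum_fixed_two (fun g => t * g) (fun x => by rw [← mul_assoc, ht, one_mul]) _
        fun _ => rfl, Finset.sum_eq_zero]
      intro x hx
      exact absurd (mul_eq_right.1 (Finset.mem_filter.1 hx).2) (hne ht hs' ho hts).1
    rw [sum_eq_sum_fixed_two (fun g : G => g⁻¹) inv_inv _ fun _ => rfl, Finset.sum_filter] at h2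
    rw [aug_apply, ← h2]
    exact Finset.sum_congr rfl fun g _ => if_congr inv_eq_iff_mul_eq_one.symm rfl rfl
  obtain ⟨n, hn⟩ : IsNilpotent (I * e) := by
    refine (he.nilp_or_unit (isComm_Z ⊤) hIZ).resolve_right ?_
    rintro ⟨u, -, h⟩
    have h2 := congrArg aug h
    rw [map_mul, map_mul, hIa, zero_mul, zero_mul, h1] at h2
    exact zero_ne_one h2
  have hcm : Commute I e := isComm_Z ⊤ _ hIZ _ he.mem
  have h2 : e * I ^ 2 ^ (n + 1) = 0 := by
    have h3 : (I * e) ^ 2 ^ (n + 1) = 0 :=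
      pow_eq_zero_of_le (Nat.lt_two_pow_self.le.trans
        (Nat.pow_le_pow_right two_pos (Nat.le_succ n))) hn
    rwa [hcm.mul_pow, IsIdempotentElem.pow_eq he.idem (by positivity),
      (hcm.pow_left _).eq] at h3
  obtain ⟨hF, -, hF2⟩ := key n
  have ht' : t⁻¹ = t := inv_eq_of_mul_eq_one_right ht
  have hs'' : s⁻¹ = s := inv_eq_of_mul_eq_one_right hs'
  have e1 : ∀ x, t * (t * x) = x := fun x => by rw [← mul_assoc, ht, one_mul]
  by_contra hcon
  push Not at hcon
  have h3 := congrArg (fun x => x.coeff (t * s)) h2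
  simp only [coeff_zero, Finsupp.coe_zero, Pi.zero_apply] at h3
  rw [coeff_mul_fintype, sum_eq_sum_fixed_two (fun y => t * y⁻¹ * t)
    (fun y => by simp [mul_assoc, ht', e1, ht]) _ fun y => ?_, Finset.sum_eq_single 1,
    inv_one, one_mul, hF2 t s ht hs' ho hts, mul_one] at h3
  · exact h0 h3
  · intro y hy h4
    rw [hcon y h4 (Finset.mem_filter.1 hy).2, zero_mul]
  · simp [ht]
  · rw [hs.eq (b := y) t (by rw [ht']),
      hF.eq (a := (t * y⁻¹ * t)⁻¹ * (t * s)) (b := y⁻¹ * (t * s)) s ?_]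
    have e2 : ∀ x, s * (s * x) = x := fun x => by rw [← mul_assoc, hs', one_mul]
    simp only [mul_inv_rev, ht', hs'', inv_inv, mul_assoc, e1, e2]

omit [CharP k 2] [Fintype G] [DecidableEq G] in
theorem br_eq_of_aug [Finite G] {p : ℕ} [Fact p.Prime] [CharP k p] {H P : Subgroup G}
    {b e : MonoidAlgebra k G} (hb : IsPrim (Z k H) b) (h1 : aug b = 1) (he : BP p H P e)
    (h2 : aug e = 1) : br P b = e := by
  refine idem_ext (isComm_Z _) (br_mem_Z hb.mem)
    (br_idem he.pgroup (hb.mem.2.mono he.le) hb.idem) he.prim.mem he.prim.idem fun f hf => ?_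
  constructor
  · intro h
    rw [hf.eq_of_aug (isComm_Z _) he.prim
      (Of.aug_eq (p := p) ⟨hb, ⟨he.le, he.pgroup, hf⟩, h⟩ h1) h2, he.prim.idem]
  · intro h
    have h3 : f = e := hf.eq_of_mul_ne_zero (isComm_Z _) he.prim fun h0 => hf.ne_zero (by
      rw [← h, isComm_Z _ _ he.prim.mem _ hf.mem, h0])
    rw [h3, (of_of_aug hb h1 he h2).mul]

end Alg

section
variable {G : Type*} [Group G] [Finite G] {M : Ideal AlgInt} {p k : ℕ}

theorem red_blockCoeff_principal_centralizer (hM : IsPModular p M) {z : G}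
    (hz : IsPGroup p (zpowers z)) (y : centralizer ({z} : Set G)) :
    red M (blockCoeff (principalBlock M G) y) =
      red M (blockCoeff (principalBlock M (centralizer ({z} : Set G))) y) := by
  have : Fact p.Prime := ⟨hM.1⟩
  have := charP_resField hM
  have h := Alg.br_eq_of_aug (isPrim_redAlg_eSet hM isPBlock_principal) (aug_gbar_principal hM)
    ((mem_cprims_iff_bp hz).1 (sbar_mem_cprims hM rfl isPBlock_principal))
    (aug_bar_principal hM _)
  have h2 := congrArg (fun a => a.coeff (y : G)) h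
  rw [Alg.coeff_br_of_mem _ (by rw [centralizer_zpowers_eq]; exact y.2)] at h2
  exact h2.trans (coeff_bar (subtype_injective _) _ y)

theorem blockCoeff_pow (hk : k.Coprime (Nat.card G)) (hkk : ∀ g : G, g ^ k ^ 2 = g)
    {A : Set (IrrCharacter G)} (hA : ∀ χ, powIrr hk χ ∈ A ↔ χ ∈ A) (g : G) :
    blockCoeff A (g ^ k) = blockCoeff A g := by
  classical
  have h1 : ∀ χ, powIrr hk (powIrr hk χ) = χ := fun χ => Subtype.ext (funext fun g => by
    rw [powIrr_apply, powIrr_apply, ← pow_mul, ← sq, hkk])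
  unfold blockCoeff
  rw [finsum_mem_irr_eq_sum, finsum_mem_irr_eq_sum]
  congr 1
  refine Finset.sum_nbij' (powIrr hk) (powIrr hk) (fun χ => by simp [hA]) (fun χ => by simp [hA])
    (fun χ _ => h1 χ) (fun χ _ => h1 χ) fun χ _ => ?_
  rw [powIrr_apply, powIrr_apply, one_pow]

theorem blockCoeff_principal_inv (g : G) :
    blockCoeff (principalBlock M G) g⁻¹ = blockCoeff (principalBlock M G) g := by
  have h0 : 0 < Nat.card G := Nat.card_pos
  have h1 : ∀ g : G, g ^ (Nat.card G - 1) = g⁻¹ := fun g => by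
    rw [eq_inv_iff_mul_eq_one, ← pow_succ, Nat.sub_add_cancel h0, pow_card_eq_one']
  have hk : (Nat.card G - 1).Coprime (Nat.card G) := by
    obtain ⟨m, hm⟩ := Nat.exists_eq_succ_of_ne_zero h0.ne'
    rw [hm]; simp
  have h2 : ∀ g : G, g ^ (Nat.card G - 1) ^ 2 = g := fun g => by
    rw [sq, pow_mul, h1, h1, inv_inv]
  rw [← h1, blockCoeff_pow hk h2 fun χ => powIrr_mem_principal_iff hk two_ne_zero h2]

theorem val_blockCoeff_principal_one (hM : IsPModular p M) :
    val M (blockCoeff (principalBlock M G) 1) = 1 := by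
  have h : 0 ∈ (fun χ : IrrCharacter G => (charDegree (χ : G → ℂ)).factorization p) ''
      principalBlock M G := ⟨irrOne G, irrOne_mem_principal hM, by simp [charDegree_irrOne]⟩
  rw [val_blockCoeff_one hM isPBlock_principal, blockDefect, Nat.sInf_eq_zero.2 (Or.inl h)]
  simp

theorem exists_conj_commute [Fact p.Prime]
    (hab : ∀ Q : Subgroup G, IsPGroup p Q → ∀ a ∈ Q, ∀ b ∈ Q, a * b = b * a) {u t : G}
    (hu : IsPGroup p (zpowers u)) (ht : IsPGroup p (zpowers t)) :
    ∃ n : G, Commute (n * u * n⁻¹) t := by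
  obtain ⟨T, hT⟩ := ht.exists_le_sylow
  obtain ⟨U, hU⟩ := hu.exists_le_sylow
  obtain ⟨n, hn⟩ := MulAction.exists_smul_eq G U T
  refine ⟨n, hab T T.isPGroup' _ ?_ _ (hT (mem_zpowers t))⟩
  rw [← hn]
  exact ⟨u, hU (mem_zpowers u), rfl⟩

theorem comm_subgroup
    (hab : ∀ Q : Subgroup G, IsPGroup p Q → ∀ a ∈ Q, ∀ b ∈ Q, a * b = b * a) (H : Subgroup G) :
    ∀ Q : Subgroup H, IsPGroup p Q → ∀ a ∈ Q, ∀ b ∈ Q, a * b = b * a := fun _ hQ _ ha _ hb =>
  Subtype.ext (hab _ (hQ.map H.subtype) _ (mem_map_of_mem _ ha) _ (mem_map_of_mem _ hb))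

theorem exists_two_inverts {x g : G} (h : g * x * g⁻¹ = x⁻¹) :
    ∃ t : G, (∃ j, orderOf t = 2 ^ j) ∧ t * x * t⁻¹ = x⁻¹ := by
  have : Fact (Nat.Prime 2) := ⟨Nat.prime_two⟩
  refine ⟨pPart 2 g, orderOf_pPart 2 g, ?_⟩
  have h1 : Commute x (g ^ 2) := by
    have h2 : g * x⁻¹ * g⁻¹ = x := by rw [← conj_inv, h, inv_inv]
    rw [sq, Commute, SemiconjBy]
    calc x * (g * g) = g * (g * x * g⁻¹) * g⁻¹ * (g * g) := by rw [h, h2]
      _ = _ := by group
  obtain ⟨r, hr⟩ : Odd (orderOf (pReg 2 g)) :=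
    Nat.odd_iff.2 (Nat.two_dvd_ne_zero.1 (not_dvd_orderOf_pReg 2 g))
  obtain ⟨n, hn⟩ := exists_pReg_eq_pow 2 g
  have h3 : Commute x (pReg 2 g) := by
    have h4 : pReg 2 g = (g ^ 2) ^ (n * (r + 1)) := by
      rw [← pow_mul, mul_left_comm, pow_mul, hn, mul_add, mul_one, add_comm (2 * r),
        show 2 + 2 * r = 1 + (2 * r + 1) by ring, ← hr, pow_add, pow_orderOf_eq_one, pow_one, mul_one]
    rw [h4]
    exact h1.pow_right _
  rw [← h]
  conv_rhs => rw [← pPart_mul_pReg 2 g, mul_assoc (pPart 2 g), ← h3.eq]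
  group

theorem invol_mul_inverts {G : Type*} [Group G] {a b : G} (ha : a * a = 1) (hb : b * b = 1) :
    a * (a * b) * a⁻¹ = (a * b)⁻¹ := by
  rw [← mul_assoc, ha, one_mul, mul_inv_rev, inv_eq_of_mul_eq_one_right hb]

theorem commute_of_invol_of_pReg
    (hab : ∀ Q : Subgroup G, IsPGroup 2 Q → ∀ a ∈ Q, ∀ b ∈ Q, a * b = b * a) {a b : G}
    (ha : a * a = 1) (hb : b * b = 1) (h5 : pReg 2 (a * b) = 1) : a * b = b * a := by
  have : Fact (Nat.Prime 2) := ⟨Nat.prime_two⟩
  have h6 := orderOf_eq_pow_iff_isPGroup.1 (pReg_eq_one_iff.1 h5)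
  have h7 : IsPGroup 2 (zpowers a) :=
    orderOf_eq_pow_iff_isPGroup.1 (orderOf_eq_pow_iff.2 ⟨1, by rw [pow_one, sq, ha]⟩)
  have h8 : zpowers a ≤ normalizer (zpowers (a * b) : Set G) := by
    rw [zpowers_le]
    refine mem_normalizer_fintype ?_
    rintro _ ⟨n, rfl⟩
    refine ⟨-n, ?_⟩
    simp only
    rw [← conj_zpow, invol_mul_inverts ha hb, zpow_neg, inv_zpow]
  have h9 := hab _ (h6.to_sup_of_normal_left' h7 h8) _ (mem_sup_right (mem_zpowers a)) _
    (mem_sup_left (mem_zpowers (a * b)))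
  rw [mul_assoc, mul_right_inj] at h9
  exact h9

theorem exists_real_val_base (hM : IsPModular 2 M)
    (hab : ∀ Q : Subgroup G, IsPGroup 2 Q → ∀ a ∈ Q, ∀ b ∈ Q, a * b = b * a)
    (hC : ∀ x g u : G, x ≠ 1 → ¬ 2 ∣ orderOf x → g * x * g⁻¹ = x⁻¹ → Commute u x →
      ¬ 2 ∣ orderOf u)
    {x g : G} (h1 : x ≠ 1) (ho : ¬ 2 ∣ orderOf x) (h : g * x * g⁻¹ = x⁻¹) :
    ∃ y g : G, y ≠ 1 ∧ g * y * g⁻¹ = y⁻¹ ∧ val M (blockCoeff (principalBlock M G) y) = 1 := by
  classical
  have : Fact (Nat.Prime 2) := ⟨Nat.prime_two⟩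
  have := charP_resField hM
  have := Fintype.ofFinite G
  obtain ⟨t, ⟨j, hj⟩, ht⟩ := exists_two_inverts h
  have htt : t * t = 1 := by
    refine eq_one_of_orderOf_pow_of_not_dvd (p := 2) (orderOf_eq_pow_of_mem
      (orderOf_eq_pow_iff_isPGroup.1 ⟨j, hj⟩) (mul_mem (mem_zpowers t) (mem_zpowers t)))
      (hC x g _ h1 ho h ?_)
    have h2 : t * x⁻¹ * t⁻¹ = x := by rw [← conj_inv, ht, inv_inv]
    rw [Commute, SemiconjBy]
    calc t * t * x = t * (t * x * t⁻¹) * t⁻¹ * (t * t) := by group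
      _ = _ := by rw [ht, h2]
  have ht' : t⁻¹ = t := inv_eq_of_mul_eq_one_right htt
  have hx : t * (t * x) = x := by rw [← mul_assoc, htt, one_mul]
  have hi := eSet_mem_intAlg (G := G) hM isPBlock_principal
  obtain ⟨y, hy, h2, h3⟩ := Alg.exists_real_coeff (isPrim_redAlg_eSet hM isPBlock_principal)
    (aug_gbar_principal hM) ⟨fun t g => congrArg (red M) (blockCoeff_conj _ g t),
      fun g => congrArg (red M) (blockCoeff_principal_inv g)⟩
    ((coeff_redAlg_eSet_ne_zero_iff hi 1).2 (val_blockCoeff_principal_one hM))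
    (fun a b ha hb => or_iff_not_imp_right.2 fun h4 => commute_of_invol_of_pReg hab ha hb <| by
      by_contra h5
      refine hC _ a _ h5 (not_dvd_orderOf_pReg 2 _) ?_ (commute_self_pReg 2 _) (not_not.1 h4)
      rw [← pReg_conj, invol_mul_inverts ha hb, pReg_inv])
    (fun a b u ha hb hab hu hc => or_iff_not_imp_left.2 fun h4 =>
      eq_one_of_orderOf_pow_of_not_dvd (p := 2) (orderOf_eq_pow_iff.2 ⟨1, by rw [pow_one, sq, hu]⟩)
        (hC _ a u h4 hab (invol_mul_inverts ha hb) hc)) (t := t) (s := t * x) htt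
    (by rw [ht'] at ht; rw [← mul_assoc, ht, inv_mul_cancel])
    (by rwa [hx]) (by rwa [hx])
  refine ⟨y, t, hy, ?_, (coeff_redAlg_eSet_ne_zero_iff hi y).1 h3⟩
  rw [← inv_inj, inv_inv, conj_inv, ht', h2]

end

/-- If the Sylow `2`-subgroups are abelian and there is a non-trivial real element of odd order,
the principal block idempotent modulo `2` has a non-trivial real element in its support. -/
theorem exists_real_val_blockCoeff {M : Ideal AlgInt} (hM : IsPModular 2 M) (n : ℕ) :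
    ∀ (G : Type*) [Group G] [Finite G], Nat.card G = n →
      (∀ Q : Subgroup G, IsPGroup 2 Q → ∀ a ∈ Q, ∀ b ∈ Q, a * b = b * a) →
      ∀ x g : G, x ≠ 1 → ¬ 2 ∣ orderOf x → g * x * g⁻¹ = x⁻¹ →
      ∃ y g : G, y ≠ 1 ∧ g * y * g⁻¹ = y⁻¹ ∧ val M (blockCoeff (principalBlock M G) y) = 1 := by
  have : Fact (Nat.Prime 2) := ⟨Nat.prime_two⟩
  induction n using Nat.strong_induction_on with
  | _ n ih =>
  intro G _ _ hn hab x₀ g₀ a1 a2 a3
  by_cases hC : ∀ x g u : G, x ≠ 1 → ¬ 2 ∣ orderOf x → g * x * g⁻¹ = x⁻¹ → Commute u x →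
      ¬ 2 ∣ orderOf u
  · exact exists_real_val_base hM hab hC a1 a2 a3
  clear a1 a2 a3 x₀ g₀
  simp only [not_forall, not_not] at hC
  obtain ⟨x, g, u, h1, ho, h, hu, hu2⟩ := hC
  obtain ⟨t, ht2, ht⟩ := exists_two_inverts h
  obtain ⟨z, hz, hz1, hzx, hzt⟩ : ∃ z : G, IsPGroup 2 (zpowers z) ∧ z ≠ 1 ∧ Commute z x ∧
      Commute z t := by
    have hN : ∀ {a : G} {m : ℤ}, a * x * a⁻¹ = x ^ m → a ∈ normalizer (zpowers x : Set G) :=
      fun {a m} ha => by
        refine mem_normalizer_fintype ?_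
        rintro _ ⟨n, rfl⟩
        refine ⟨m * n, ?_⟩
        simp only
        rw [← conj_zpow, ha, zpow_mul]
    have hux : Commute x (pPart 2 u) := commute_pPart hu.symm
    have h2 : ∀ a : normalizer (zpowers x : Set G), (∃ j, orderOf (a : G) = 2 ^ j) →
        IsPGroup 2 (zpowers a) := fun a ha =>
      orderOf_eq_pow_iff_isPGroup.1 (by rwa [← Subgroup.orderOf_coe])
    obtain ⟨c, hc⟩ := exists_conj_commute (comm_subgroup hab _)
      (h2 ⟨pPart 2 u, hN (m := 1) (by rw [← hux.eq, zpow_one, mul_inv_cancel_right])⟩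
        (orderOf_pPart 2 u)) (h2 ⟨t, hN (m := -1) (by rw [ht, zpow_neg_one])⟩ ht2)
    refine ⟨c * pPart 2 u * (c : G)⁻¹, orderOf_eq_pow_iff_isPGroup.1
      (by rw [orderOf_conj_eq]; exact orderOf_pPart 2 u), by
        rw [Ne, conj_eq_one_iff]; exact pPart_ne_one_iff.2 hu2, ?_, congrArg Subtype.val hc⟩
    obtain ⟨m, hm⟩ := (mem_normalizer_iff.1 (inv_mem c.2) x).1 (mem_zpowers x)
    have h3 := (hux.zpow_left m).map (MulAut.conj (c : G))
    simp only at hm
    rw [hm] at h3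
    simpa [mul_assoc] using h3.symm
  by_cases hc : centralizer ({z} : Set G) = ⊤
  · have hzc : ∀ v ∈ zpowers z, ∀ y : G, Commute v y := by
      rintro _ ⟨m, rfl⟩ y
      exact Commute.zpow_left (mem_centralizer_singleton_iff.1 (hc ▸ mem_top y)).symm m
    have : (zpowers z).Normal := ⟨fun v hv y => by
      rwa [← (hzc v hv y).eq, mul_inv_cancel_right]⟩
    have hker : (QuotientGroup.mk' (zpowers z)).ker = zpowers z := QuotientGroup.ker_mk' _
    obtain ⟨y, c, b1, b2, b3⟩ := ih (Nat.card (G ⧸ zpowers z)) (by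
        rw [← hn, card_eq_card_quotient_mul_card_subgroup (zpowers z)]
        exact lt_mul_of_one_lt_right Nat.card_pos
          ((one_lt_card_iff_ne_bot _).2 (by rwa [Ne, zpowers_eq_bot])))
      (G ⧸ zpowers z) rfl (fun Q hQ a ha b hb => by
        obtain ⟨a, rfl⟩ := QuotientGroup.mk'_surjective _ a
        obtain ⟨b, rfl⟩ := QuotientGroup.mk'_surjective _ b
        rw [← map_mul, ← map_mul, hab _ (hQ.comap_of_ker_isPGroup _ (hker.symm ▸ hz)) a ha b hb])
      (QuotientGroup.mk' _ x) (QuotientGroup.mk' _ t)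
      (fun h0 => h1 (eq_one_of_orderOf_pow_of_not_dvd (p := 2)
        (orderOf_eq_pow_of_mem hz ((QuotientGroup.eq_one_iff x).1 h0)) ho))
      (fun h0 => ho (h0.trans (orderOf_map_dvd _ x)))
      (by rw [← map_inv, ← map_mul, ← map_mul, ht, map_inv])
    have b4 : ¬ 2 ∣ orderOf y := fun h0 => by
      rw [blockCoeff_eq_zero_of_val hM (val_blockCoeff_principal_le_one hM) h0, map_zero] at b3
      exact zero_ne_one b3
    obtain ⟨y, b5, rfl⟩ := exists_pRegular_preimage _ (QuotientGroup.mk'_surjective _) b4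
    obtain ⟨c, rfl⟩ := QuotientGroup.mk'_surjective _ c
    refine ⟨y, c, fun h0 => b1 (by rw [h0, map_one]), ?_, ?_⟩
    · have hall : ∀ w : G, w ∈ centralizer (zpowers z : Set G) := fun w v hv => hzc v hv w
      refine injOn_mk_pRegular_centralizer hz le_rfl ⟨by rwa [orderOf_conj_eq], hall _⟩
        ⟨by rwa [orderOf_inv], hall _⟩ ?_
      rw [map_mul, map_mul, map_inv, map_inv, b2]
    · have := Fintype.ofFinite (QuotientGroup.mk' (zpowers z)).ker
      rwa [← domSet_principal_of_commute hM hz fun v hv w _ => hzc v hv w,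
        blockCoeff_domSet_apply, Finset.sum_eq_single 1 (fun v _ hv => ?_) (by simp),
        OneMemClass.coe_one, mul_one] at b3
      refine blockCoeff_eq_zero_of_val hM (val_blockCoeff_principal_le_one hM) ?_
      have hv' : (v : G) ∈ zpowers z := hker.le v.2
      rw [← pPart_ne_one_iff, ← (hzc v hv' y).eq,
        pPart_mul_eq (hzc v hv' y) (orderOf_eq_pow_of_mem hz hv') b5]
      exact fun h0 => hv (Subtype.ext h0)
  · obtain ⟨y, c, b1, b2, b3⟩ := ih (Nat.card (centralizer ({z} : Set G))) (by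
        rw [← hn]
        exact (card_le_card_group _).lt_of_ne fun h0 => hc (eq_top_of_card_eq _ h0))
      (centralizer ({z} : Set G)) rfl (comm_subgroup hab _)
      ⟨x, mem_centralizer_singleton_iff.2 hzx.symm⟩ ⟨t, mem_centralizer_singleton_iff.2 hzt.symm⟩
      (fun h0 => h1 (congrArg Subtype.val h0)) (by rwa [← Subgroup.orderOf_coe])
      (Subtype.ext ht)
    refine ⟨y, c, fun h0 => b1 (Subtype.ext h0), congrArg Subtype.val b2, ?_⟩
    rwa [← red_ne_zero_iff (val_blockCoeff_principal_le_one hM _),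
      red_blockCoeff_principal_centralizer hM hz,
      red_ne_zero_iff (val_blockCoeff_principal_le_one hM _)]

end Cfsg.Agent.Block
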