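import Mathlib
import Cfsg.Agent.Block.Count
import Cfsg.Agent.Block.Contrib

/-! Robinson's matrix: counting pairs of elements of two classes whose quotient lies in a Sylow
subgroup, modulo `M`, in terms of the blocks with a given defect group. -/

set_option autoImplicit false
set_option linter.unusedSectionVars false

namespace Cfsg.Agent.Block

open Cfsg Cfsg.Agent.Char MonoidAlgebra Subgroup Cfsg.Agent.PLocal
open scoped ComplexConjugate

/-- The rank of a square matrix does not change under a field extension. -/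
theorem rank_map_ringHom {K L n : Type*} [Field K] [Field L] [Fintype n] [DecidableEq n]
    (f : K →+* L) (A : Matrix n n K) : (A.map f).rank = A.rank := by
  classical
  obtain ⟨U, V, D, h⟩ := Matrix.Pivot.exists_list_transvec_mul_diagonal_mul_list_transvec A
  have hU := Matrix.TransvectionStruct.det_toMatrix_prod U
  have hV := Matrix.TransvectionStruct.det_toMatrix_prod V
  have hU' : (((U.map Matrix.TransvectionStruct.toMatrix).prod).map f).det = 1 := by
    rw [← RingHom.mapMatrix_apply, ← RingHom.map_det, hU, map_one]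
  have hV' : (((V.map Matrix.TransvectionStruct.toMatrix).prod).map f).det = 1 := by
    rw [← RingHom.mapMatrix_apply, ← RingHom.map_det, hV, map_one]
  rw [h, Matrix.map_mul, Matrix.map_mul,
    Matrix.rank_mul_eq_left_of_det_ne_zero _ _ (hV'.trans_ne one_ne_zero),
    Matrix.rank_mul_eq_left_of_det_ne_zero _ _ (hV.trans_ne one_ne_zero),
    Matrix.rank_mul_eq_right_of_det_ne_zero _ _ (hU'.trans_ne one_ne_zero),
    Matrix.rank_mul_eq_right_of_det_ne_zero _ _ (hU.trans_ne one_ne_zero),
    Matrix.diagonal_map (map_zero f), Matrix.rank_diagonal, Matrix.rank_diagonal]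
  simp

/-- A matrix with a left inverse has an invertible square submatrix of rows. -/
theorem exists_rows_isUnit {K I n : Type*} [Field K] [Fintype I] [Fintype n] [DecidableEq n]
    (U : Matrix I n K) (h : U.rank = Fintype.card n) :
    ∃ a : n → I, Function.Injective a ∧ IsUnit (U.submatrix a id) := by
  classical
  obtain ⟨κ, a, ha, hsp, hli⟩ := exists_linearIndependent' K U.row
  have : Finite κ := Finite.of_injective a ha
  have := Fintype.ofFinite κ
  have h1 : Fintype.card κ = Fintype.card n := by
    rw [← h, Matrix.rank_eq_finrank_span_row, ← hsp, finrank_span_eq_card hli]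
  let e := (Fintype.equivOfCardEq h1).symm
  refine ⟨a ∘ e, ha.comp e.injective, Matrix.linearIndependent_rows_iff_isUnit.1 ?_⟩
  exact hli.comp e e.injective

variable {G : Type*} [Group G] [Finite G] {M : Ideal AlgInt} {p : ℕ}

theorem cast_card_pairs_eq [Fintype G] (S : Subgroup G) (x y : G) :
    (Nat.card {yz : G × G // IsConj x yz.1 ∧ IsConj y yz.2 ∧ yz.2 * yz.1⁻¹ ∈ S} : ℂ) =
      ev (fun _ : S => (1 : ℂ)) (res ℂ S (classSum ℂ y * classSum ℂ x⁻¹)) := by
  classical
  rw [ev_apply]
  simp only [coeff_res, mul_one]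
  rw [← Finset.sum_subtype (Finset.univ.filter (· ∈ S)) (p := (· ∈ S)) (by simp)
    (fun u => (classSum ℂ y * classSum ℂ x⁻¹).coeff u), Finset.sum_filter,
    Nat.card_eq_fintype_card, Fintype.card_subtype, Finset.card_filter, Nat.cast_sum,
    Fintype.sum_prod_type_right]
  simp only [coeff_mul_left, coeff_classSum]
  simp only [Finset.ite_sum_zero]
  refine Eq.trans (Finset.sum_congr rfl fun g _ => ?_) Finset.sum_comm
  refine Fintype.sum_equiv ((Equiv.inv G).trans (Equiv.mulLeft g)) _ _ fun h => ?_
  have e : IsConj x⁻¹ (g⁻¹ * (g * h⁻¹)) ↔ IsConj x h := by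
    rw [inv_mul_cancel_left, isConj_iff, isConj_iff]
    refine exists_congr fun c => ?_
    rw [← inv_inj]
    simp [mul_assoc]
  simp only [Equiv.trans_apply, Equiv.inv_apply, Equiv.coe_mulLeft, e]
  by_cases h1 : IsConj x h <;> by_cases h2 : IsConj y g <;> by_cases h3 : g * h⁻¹ ∈ S <;>
    simp [-isConj_iff, h1, h2, h3]

theorem centralizer_singleton_inv (x : G) :
    centralizer ({x⁻¹} : Set G) = centralizer ({x} : Set G) := by
  ext u
  rw [mem_centralizer_singleton_iff, mem_centralizer_singleton_iff]
  exact ⟨fun e => Commute.inv_right_iff.1 e, fun e => Commute.inv_right_iff.2 e⟩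

theorem val_index_centralizer (hM : IsPModular p M) {D : Subgroup G} {x : G}
    (hx : IsSylowIn p D (centralizer {x})) :
    val M ((centralizer ({x} : Set G)).index : ℂ) =
      val M (p : ℂ) ^ ((Nat.card G).factorization p - (Nat.card D).factorization p) := by
  have := Fact.mk hM.1
  rw [val_natCast_eq_pow hM index_ne_zero_of_finite, hx.card_eq, hM.1.factorization_pow,
    ← (centralizer ({x} : Set G)).card_mul_index,
    Nat.factorization_mul Nat.card_pos.ne' index_ne_zero_of_finite]
  simp

theorem blockDefect_eq_of_isDefectGroup (hM : IsPModular p M) {B : Set (IrrCharacter G)}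
    (hB : IsPBlock M B) {D : Subgroup G} (hD : IsDefectGroup p M B D) :
    blockDefect p B = (Nat.card D).factorization p := by
  have := Fact.mk hM.1
  rw [card_defectGroup hM hB hD, hM.1.factorization_pow]
  simp

theorem blockDefect_lt_of_not_isDefectGroup (hM : IsPModular p M) {B : Set (IrrCharacter G)}
    (hB : IsPBlock M B) {χ : IrrCharacter G} (hχ : χ ∈ B) {D : Subgroup G} {y : G}
    (hy : IsSylowIn p D (centralizer {y})) (h : val M (centralChar (χ : G → ℂ) y) = 1)
    (hD : ¬ IsDefectGroup p M B D) : blockDefect p B < (Nat.card D).factorization p := by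
  have := Fact.mk hM.1
  obtain ⟨E, hE⟩ := exists_isDefectGroup hM hB
  obtain ⟨t, ht⟩ := exists_conj_defectGroup_le hM hB hE hχ h hy
  have hE' := isDefectGroup_conj hE t
  have h1 : Nat.card (E.map (MulAut.conj t).toMonoidHom) < Nat.card D :=
    lt_of_le_of_ne (card_le_of_le ht) fun e => hD (eq_of_le_of_card_ge ht e.ge ▸ hE')
  rw [card_defectGroup hM hB hE', hy.card_eq, Nat.pow_lt_pow_iff_right hM.1.one_lt] at h1
  rwa [hy.card_eq, hM.1.factorization_pow, Finsupp.single_eq_same]

/-- Robinson's congruence. -/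
theorem val_ev_classSum_mul_sub_lt [Fintype G] (hM : IsPModular p M) {θ : G → ℂ}
    (hθ : IsGeneralizedCharacter G θ) {D : Subgroup G} {x y : G}
    (hx : IsSylowIn p D (centralizer {x})) (hy : IsSylowIn p D (centralizer {y}))
    (r : Set (IrrCharacter G) → IrrCharacter G) (hr : ∀ B, IsPBlock M B → r B ∈ B)
    [DecidablePred fun B : Set (IrrCharacter G) => IsDefectGroup p M B D] :
    val M (ev θ (classSum ℂ y * classSum ℂ x) -
      ∑ B ∈ (blocks M G).filter (fun B => IsDefectGroup p M B D),
        ev θ (eSet B) * (centralChar (r B : G → ℂ) x * centralChar (r B : G → ℂ) y)) <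
      val M (p : ℂ) ^ ((Nat.card G).factorization p - (Nat.card D).factorization p) := by
  classical
  have hz : classSum ℂ y * classSum ℂ x ∈ ZA ℂ G := mul_mem (classSum_mem_ZA y) (classSum_mem_ZA x)
  have hi : classSum ℂ y * classSum ℂ x ∈ intAlg M G :=
    mul_mem (classSum_mem_intAlg y) (classSum_mem_intAlg x)
  have hom : ∀ (ξ : IrrCharacter G) (B : Set (IrrCharacter G)),
      om (ξ : G → ℂ) (classSum ℂ y * classSum ℂ x * eSet B) =
        centralChar (ξ : G → ℂ) y * centralChar (ξ : G → ℂ) x * om (ξ : G → ℂ) (eSet B) :=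
    fun ξ B => by
      rw [om_central_mul ξ.2 hz, om_central_mul ξ.2 (classSum_mem_ZA y),
        om_classSum ξ.2.isClassFunction, om_classSum ξ.2.isClassFunction]
  have h1 : ev θ (classSum ℂ y * classSum ℂ x) =
      ∑ B ∈ blocks M G, ev θ (classSum ℂ y * classSum ℂ x * eSet B) := by
    rw [← map_sum, ← Finset.mul_sum, sum_eSet_blocks hM, mul_one]
  rw [h1, Finset.sum_filter, ← Finset.sum_sub_distrib]
  refine Valuation.map_sum_lt _ (val_prime_pow_ne_zero hM _) fun B hB => ?_
  rw [mem_blocks] at hB
  split_ifs with hD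
  · rw [← blockDefect_eq_of_isDefectGroup hM hB hD, mul_comm (ev θ (eSet B)),
      ← smul_eq_mul _ (ev θ (eSet B)), ← map_smul, ← map_sub]
    refine val_ev_lt_of_om hM hθ (fun ξ hξ => ?_) fun ξ hξ => ?_
    · rw [map_sub, map_smul, hom, om_eSet_of_notMem hξ, mul_zero, smul_zero, sub_zero]
    · rw [map_sub, map_smul, hom, om_eSet_of_mem hξ, mul_one, smul_eq_mul, mul_one]
      have := val_om_sub_om_lt_of_mem hM hB hξ (hr B hB) hz hi
      rwa [om_central_mul ξ.2 (classSum_mem_ZA y), om_central_mul (r B).2 (classSum_mem_ZA y),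
        om_classSum ξ.2.isClassFunction, om_classSum ξ.2.isClassFunction,
        om_classSum (r B).2.isClassFunction, om_classSum (r B).2.isClassFunction,
        mul_comm (centralChar (r B : G → ℂ) y)] at this
  · rw [sub_zero]
    by_cases hv : val M (centralChar (r B : G → ℂ) y) = 1
    · have h2 := blockDefect_lt_of_not_isDefectGroup hM hB (hr B hB) hy hv hD
      refine (val_ev_le_of_om hM (b := B) hθ (fun ξ hξ => ?_) fun ξ _ => ?_).trans_lt ?_
      · rw [hom, om_eSet_of_notMem hξ, mul_zero]
      · exact val_om_le_one ξ.2 (mul_mem hz (eSet_mem_ZA B)) (mul_mem hi (eSet_mem_intAlg hM hB))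
      · rw [val_prime_pow_lt_iff hM]
        have h3 : (Nat.card D).factorization p ≤ (Nat.card G).factorization p :=
          (Nat.factorization_le_iff_dvd Nat.card_pos.ne' Nat.card_pos.ne').2
            (card_subgroup_dvd_card D) p
        omega
    · rw [ev_eq_sum_om hθ.isClassFunction]
      refine Valuation.map_sum_lt _ (val_prime_pow_ne_zero hM _) fun ξ _ => ?_
      by_cases hξ : ξ ∈ B
      · have h2 : val M (centralChar (ξ : G → ℂ) y) < 1 :=
          lt_of_le_of_ne (val_centralChar_le_one ξ.2 y) fun e =>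
            hv (val_centralChar_eq_one_of_mem hM hB hξ (hr B hB) e)
        obtain ⟨n, hn⟩ := hθ.exists_int_inner ξ.2.isGen
        have h3 : classInner θ ξ * (centralChar (ξ : G → ℂ) y * centralChar (ξ : G → ℂ) x *
            om (ξ : G → ℂ) (eSet B) * (ξ : G → ℂ) 1) =
            (n * centralChar (ξ : G → ℂ) y * (ξ : G → ℂ) x) *
              (centralizer ({x} : Set G)).index := by
          rw [hn, om_eSet_of_mem hξ, centralChar, centralChar]
          field_simp [ξ.2.one_ne_zero]
        rw [hom, h3, map_mul, val_index_centralizer hM hx]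
        exact mul_lt_of_lt_one_left (val_prime_pow_pos hM _)
          (val_mul_lt_one_left (val_mul_lt_one_right (val_intCast_le_one n) h2)
            (val_irr_le_one ξ x))
      · rw [hom, om_eSet_of_notMem hξ, mul_zero, zero_mul, mul_zero, map_zero]
        exact val_prime_pow_pos hM _

theorem ev_one_res_eSet [Fintype G] (hM : IsPModular p M) {S : Subgroup G} (hS : IsPGroup p S)
    {B : Set (IrrCharacter G)} (hB : IsPBlock M B) :
    ev (fun _ : S => (1 : ℂ)) (res ℂ S (eSet B)) = blockCoeff B 1 := by
  classical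
  have := Fact.mk hM.1
  rw [ev_apply, Finset.sum_eq_single (1 : S)]
  · simp
  · intro u _ hu
    rw [coeff_res, coeff_eSet, blockCoeff_eq_zero_of_val hM (val_blockCoeff_le_one hM hB), zero_mul]
    obtain ⟨n, hn⟩ := IsPGroup.iff_orderOf.1 hS u
    rw [orderOf_coe, hn]
    rcases n with _ | n
    · exact absurd (orderOf_eq_one_iff.1 hn) hu
    · exact dvd_pow_self p n.succ_ne_zero
  · simp

/-- Robinson's congruence for the number of pairs, in the residue field. -/
theorem red_card_pairs (hM : IsPModular p M) (S : Sylow p G) {D : Subgroup G} {x y : G}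
    (hx : IsSylowIn p D (centralizer {x})) (hy : IsSylowIn p D (centralizer {y}))
    [Fintype {B : Set (IrrCharacter G) // IsPBlock M B ∧ IsDefectGroup p M B D}]
    (r : {B : Set (IrrCharacter G) // IsPBlock M B ∧ IsDefectGroup p M B D} → IrrCharacter G)
    (hr : ∀ B, r B ∈ B.1) :
    val M ((Nat.card {yz : G × G // IsConj x yz.1 ∧ IsConj y yz.2 ∧
        yz.2 * yz.1⁻¹ ∈ (S : Subgroup G)} : ℂ) /
        (p : ℂ) ^ ((Nat.card G).factorization p - (Nat.card D).factorization p)) ≤ 1 ∧
    red M ((Nat.card {yz : G × G // IsConj x yz.1 ∧ IsConj y yz.2 ∧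
        yz.2 * yz.1⁻¹ ∈ (S : Subgroup G)} : ℂ) /
        (p : ℂ) ^ ((Nat.card G).factorization p - (Nat.card D).factorization p)) =
      ∑ B, red M (centralChar (r B : G → ℂ) x⁻¹) * (red M (blockCoeff B.1 1 /
        (p : ℂ) ^ ((Nat.card G).factorization p - (Nat.card D).factorization p)) *
          red M (centralChar (r B : G → ℂ) y)) := by
  classical
  have := Fact.mk hM.1
  have := Fintype.ofFinite G
  set q : ℂ := (p : ℂ) ^ ((Nat.card G).factorization p - (Nat.card D).factorization p) with hq
  have hq0 : val M q ≠ 0 := by rw [hq, map_pow]; exact val_prime_pow_ne_zero hM _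
  let r' : Set (IrrCharacter G) → IrrCharacter G := fun B =>
    if h : IsPBlock M B ∧ IsDefectGroup p M B D then r ⟨B, h⟩ else
      if h' : IsPBlock M B then (block_nonempty hM h').some else irrOne G
  have hr' : ∀ B, IsPBlock M B → r' B ∈ B := fun B hB => by
    simp only [r']
    split_ifs with h
    · exact hr ⟨B, h⟩
    · exact (block_nonempty hM hB).some_mem
  have h1 := val_ev_classSum_mul_sub_lt hM
    (isGeneralizedCharacter_indFun (H := (S : Subgroup G)) isGen_one) (x := x⁻¹)
    (by rwa [centralizer_singleton_inv]) hy r' hr'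
  have hS : val M ((S : Subgroup G).index : ℂ) = 1 :=
    (val_natCast_eq_one_iff hM _).2 S.not_dvd_index
  rw [ev_indFun_central _ _ (mul_mem (classSum_mem_ZA y) (classSum_mem_ZA x⁻¹)),
    ← cast_card_pairs_eq, Finset.sum_subtype (p := fun B => IsPBlock M B ∧ IsDefectGroup p M B D)
      _ (by simp [mem_blocks]), ← map_pow, ← hq] at h1
  have h2 : ∀ B : {B : Set (IrrCharacter G) // IsPBlock M B ∧ IsDefectGroup p M B D},
      ev (indFun (S : Subgroup G) fun _ => (1 : ℂ)) (eSet B.1) *
        (centralChar (r' B.1 : G → ℂ) x⁻¹ * centralChar (r' B.1 : G → ℂ) y) =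
      (S : Subgroup G).index * (q * (centralChar (r B : G → ℂ) x⁻¹ * (blockCoeff B.1 1 / q *
        centralChar (r B : G → ℂ) y))) := fun B => by
    rw [ev_indFun_central _ _ (eSet_mem_ZA _), ev_one_res_eSet hM S.isPGroup' B.2.1]
    simp only [r', dif_pos B.2]
    have : q ≠ 0 := fun h => hq0 (by rw [h, map_zero])
    field_simp
  have h3 : ∀ B : {B : Set (IrrCharacter G) // IsPBlock M B ∧ IsDefectGroup p M B D},
      val M (blockCoeff B.1 1 / q) ≤ 1 := fun B => by
    rw [map_div₀, val_blockCoeff_one hM B.2.1, blockDefect_eq_of_isDefectGroup hM B.2.1 B.2.2,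
      ← map_pow, ← hq, div_self hq0]
  have h4 : ∀ B : {B : Set (IrrCharacter G) // IsPBlock M B ∧ IsDefectGroup p M B D},
      val M (centralChar (r B : G → ℂ) x⁻¹ * (blockCoeff B.1 1 / q *
        centralChar (r B : G → ℂ) y)) ≤ 1 := fun B =>
    val_mul_le_one (val_centralChar_le_one (r B).2 _)
      (val_mul_le_one (h3 B) (val_centralChar_le_one (r B).2 _))
  rw [Finset.sum_congr rfl fun B _ => h2 B, ← Finset.mul_sum, ← Finset.mul_sum, ← mul_sub,
    map_mul, hS, one_mul] at h1
  have h5 : val M ((Nat.card {yz : G × G // IsConj x yz.1 ∧ IsConj y yz.2 ∧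
        yz.2 * yz.1⁻¹ ∈ (S : Subgroup G)} : ℂ) / q - ∑ B, centralChar (r B : G → ℂ) x⁻¹ *
          (blockCoeff B.1 1 / q * centralChar (r B : G → ℂ) y)) < 1 := by
    have : q ≠ 0 := fun h => hq0 (by rw [h, map_zero])
    rw [← mul_div_cancel_left₀ (∑ B, centralChar (r B : G → ℂ) x⁻¹ *
          (blockCoeff B.1 1 / q * centralChar (r B : G → ℂ) y)) this, ← sub_div, map_div₀]
    exact (div_lt_one₀ (zero_lt_iff.2 hq0)).2 h1
  have h6 := val_sum_le_one (s := Finset.univ) fun B _ => h4 B
  have h7 := val_add_le_one h5.le h6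
  rw [sub_add_cancel] at h7
  refine ⟨h7, ?_⟩
  rw [(red_eq_iff h7 h6).2 h5, red_sum fun B _ => h4 B]
  refine Finset.sum_congr rfl fun B _ => ?_
  rw [red_mul (val_centralChar_le_one (r B).2 _)
    (val_mul_le_one (h3 B) (val_centralChar_le_one (r B).2 _)),
    red_mul (h3 B) (val_centralChar_le_one (r B).2 _)]

theorem red_blockCoeff_one_div_ne_zero (hM : IsPModular p M) {B : Set (IrrCharacter G)}
    (hB : IsPBlock M B) {D : Subgroup G} (hD : IsDefectGroup p M B D) :
    red M (blockCoeff B 1 /
      (p : ℂ) ^ ((Nat.card G).factorization p - (Nat.card D).factorization p)) ≠ 0 := by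
  have : val M (blockCoeff B 1 /
      (p : ℂ) ^ ((Nat.card G).factorization p - (Nat.card D).factorization p)) = 1 := by
    rw [map_div₀, val_blockCoeff_one hM hB, blockDefect_eq_of_isDefectGroup hM hB hD, map_pow,
      div_self (val_prime_pow_ne_zero hM _)]
  exact (red_ne_zero_iff this.le).2 this

/-- If the representatives `x i` of distinct classes cover the unit support of a central element
`z`, its central character values are computed on these classes. -/
theorem red_om_eq_sum_reps {ι : Type*} [Fintype ι] (x : ι → G)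
    (hx : ∀ i j, IsConj (x i) (x j) → i = j) {z : MonoidAlgebra ℂ G} (hz : z ∈ ZA ℂ G)
    (hi : z ∈ intAlg M G) (hs : ∀ g, val M (z.coeff g) = 1 → ∃ i, IsConj (x i) g)
    (χ : IrrCharacter G) :
    red M (om (χ : G → ℂ) z) =
      ∑ i, red M (centralChar (χ : G → ℂ) (x i)) * red M (z.coeff (x i)) := by
  classical
  have := Fintype.ofFinite (ConjClasses G)
  have hinj : Function.Injective fun i => ConjClasses.mk (x i) := fun i j h =>
    hx i j (ConjClasses.mk_eq_mk_iff_isConj.1 h)
  rw [om_eq_sum_classes χ.2.isClassFunction hz, red_sum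
    (f := fun C : ConjClasses G => z.coeff C.out * centralChar (χ : G → ℂ) C.out) fun C _ =>
    val_mul_le_one (mem_intAlg.1 hi _) (val_centralChar_le_one χ.2 _),
    ← Finset.sum_subset (Finset.subset_univ (Finset.univ.image fun i => ConjClasses.mk (x i))),
    Finset.sum_image fun i _ j _ h => hinj h]
  · refine Finset.sum_congr rfl fun i _ => ?_
    rw [red_mul (mem_intAlg.1 hi _) (val_centralChar_le_one χ.2 _), mul_comm,
      ZA_coeff_eq_of_isConj hz (isConj_out_mk (x i)),
      centralChar_eq_of_isConj χ.2.isClassFunction (isConj_out_mk (x i))]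
  · intro C _ hC
    refine red_eq_zero_of_lt (val_mul_lt_one_left (lt_of_le_of_ne (mem_intAlg.1 hi _) fun h => ?_)
      (val_centralChar_le_one χ.2 _))
    obtain ⟨i, hi⟩ := hs _ h
    exact hC (Finset.mem_image.2 ⟨i, Finset.mem_univ _,
      (ConjClasses.mk_eq_mk_iff_isConj.2 hi).trans (mk_out_conj C)⟩)

end Cfsg.Agent.Block
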