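import Mathlib
import Cfsg.Agent.Char.PPrimeDeg
import Cfsg.Agent.Char.GlaubCount
import Cfsg.Agent.Char.Degrees
import Cfsg.Agent.Solv.Coprime2
import Cfsg.Agent.Solv.CoprimeSylow
import Cfsg.Agent.PLocal.AmbSyl
import Cfsg.Agent.PLocal.PSolv
import Cfsg.Agent.Grp.PFrattini
import Cfsg.Agent.Block.Dominate
import Cfsg.Agent.Block.Principal
import Cfsg.Agent.S4487

/-!
# Principal blocks for two primes in `{p,q}`-separable groups
-/

set_option autoImplicit false
set_option linter.unusedSectionVars false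
set_option linter.style.haveILetI false

namespace Cfsg.Agent.Block

open Cfsg Cfsg.Agent.Char Cfsg.Agent.PLocal Cfsg.Agent.PLocal.Amb Subgroup
open scoped ComplexConjugate commutatorElement

universe u

variable {G : Type*} [Group G] [Finite G] {p q : ℕ} [hp : Fact p.Prime] [hq : Fact q.Prime]

theorem mem_principal_iff_of_isPSolvable {M : Ideal AlgInt} (hM : IsPModular p M)
    (hs : IsPSolvable p G) (χ : IrrCharacter G) :
    χ ∈ principalBlock M G ↔ pPrimeCore p G ≤ charKer (χ : G → ℂ) := by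
  refine ⟨fun h => mem_charKer_of_mem_principal hM h _ (Grp.not_dvd_card_pPrimeCore p G),
    fun h => ?_⟩
  obtain ⟨ψ, rfl⟩ := (mem_range_inflateIrr (QuotientGroup.mk' (pPrimeCore p G))
    (QuotientGroup.mk'_surjective _) χ).2 fun n hn =>
      (mem_charKer_irr χ).1 (h (by rwa [QuotientGroup.ker_mk'] at hn))
  have h0 := Grp.pPrimeCore_quotient_pPrimeCore p G
  exact inflateIrr_mem_principalBlock hM _ _ (S4487.result p M hM h0
    (centralizer_pCore_le_of_isPSolvable (IsPSolvable.quotient hs _) h0) (irrOne _) ψ)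

theorem le_centralizer_of_forall_invBy {C S : Subgroup G} (hS : S ≤ normalizer (C : Set G))
    (hcop : (Nat.card C).Coprime (Nat.card S)) (hsolv : Group.IsSolvable S ∨ Group.IsSolvable C)
    (h : ∀ ξ : IrrCharacter C, InvBy S ξ.1) : C ≤ centralizer (S : Set G) := by
  refine subgroupOf_eq_top.1 (FGS.eq_top_of_forall_exists_conj_mem _ fun g => ?_)
  obtain ⟨c, hc, hc'⟩ := exists_conj_mem_centralizer hS hcop hsolv g fun s hs g' e =>
    (isConj_iff_irr g g').2 fun ξ => (h ξ s hs g g' e).symm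
  obtain ⟨x, rfl⟩ := isConj_iff.1 hc
  exact ⟨x, hc'⟩

theorem invBy_iff_le_inertia {N S : Subgroup G} [N.Normal] (θ : N → ℂ) :
    InvBy S θ ↔ S ≤ inertia N θ :=
  ⟨fun h s hs => (mem_inertia' N).2 fun n => h s hs n _ rfl,
    fun h s hs g g' e => by rw [← (mem_inertia' N).1 (h hs) g]; exact congrArg θ (Subtype.ext e)⟩

theorem not_dvd_index_inertia
    (H : ∀ χ : IrrCharacter G, ¬ p ∣ charDegree χ.1 → ¬ q ∣ charDegree χ.1) {N : Subgroup G}
    [N.Normal] (θ : IrrCharacter N) (χ : IrrCharacter (⊤ : Subgroup G))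
    (h : nmult le_top χ.1 θ.1 ≠ 0) (hd : ¬ p ∣ charDegree χ.1) :
    ¬ q ∣ (inertia N θ.1).index := by
  letI := Fintype.ofFinite N
  obtain ⟨χ, rfl⟩ := exists_topIrr_eq χ
  obtain ⟨e, -, -, he⟩ := exists_charDegree_eq_of_over N χ.2 θ.2
    (by rw [← coe_nmult_topIrr]; exact_mod_cast h)
  exact fun hd' => H χ hd (he ▸ (hd'.mul_left _).mul_right _)

theorem exists_isSyl_le_centralizer (h2 : ¬ p ∣ (pPrimeCore q G).index) {P W : Subgroup G}
    (hP : IsPGroup p P) (hW : ¬ p ∣ Nat.card W) (hPW : P ≤ normalizer (W : Set G)) :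
    ∃ Q, IsSyl q Q W ∧ Q ≤ centralizer (P : Set G) := by
  obtain ⟨Q, hQ⟩ := Solv.exists_invariant_sylow P W hPW
    (Solv.coprime_card_of_isPGroup hP (not_dvd_iff_coprime.1 hW)).symm
    (Or.inl (Solv.isSolvable_of_isPGroup hP)) q
  have h := isSyl_map_subtype Q
  refine ⟨_, h, fun y hy x hx => ?_⟩
  have h3 : x ∈ pPrimeCore q G :=
    mem_of_orderOf_eq_pow_of_index _ h2 (orderOf_eq_pow_of_mem hP hx)
  have h4 : x * y * x⁻¹ * y⁻¹ ∈ (Q : Subgroup W).map W.subtype ⊓ pPrimeCore q G :=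
    ⟨Subgroup.mul_mem _ ((hQ hx y).1 hy) (Subgroup.inv_mem _ hy), by
      have := mul_mem h3 ((inferInstance : (pPrimeCore q G).Normal).conj_mem _ (inv_mem h3) y)
      rwa [← mul_assoc, ← mul_assoc] at this⟩
  rwa [Grp.inf_eq_bot_of_isPGroup_of_coprime h.pgrp (Grp.pPrimeCore_coprime q G), mem_bot,
    mul_inv_eq_one, mul_inv_eq_iff_eq_mul] at h4

theorem isSyl_of_le_of_not_dvd {Q W V : Subgroup G} (h : IsSyl q Q W) (hWV : W ≤ V)
    (hi : ¬ q ∣ W.relIndex V) : IsSyl q Q V :=
  isSyl_of_not_dvd_relIndex h.pgrp (h.le.trans hWV) (by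
    rw [← relIndex_mul_relIndex _ _ _ h.le hWV]
    exact hq.out.not_dvd_mul h.not_dvd_relIndex hi)

theorem exists_isSyl_forall_le (hs : IsPSolvable q G)
    (H : ∀ χ : IrrCharacter G, ¬ p ∣ charDegree χ.1 → ¬ q ∣ charDegree χ.1)
    (h1 : ¬ q ∣ (pPrimeCore p G).index) (h2 : ¬ p ∣ (pPrimeCore q G).index) (P : Sylow p G) :
    ∃ Q : Subgroup G, IsSyl q Q ⊤ ∧ Q ≤ centralizer ((P : Subgroup G) : Set G) ∧
      ∀ T : Subgroup G, (P : Subgroup G) ≤ T → ¬ q ∣ T.index → Q ≤ T := by
  set A := pPrimeCore q G with hA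
  let π := QuotientGroup.mk' A
  let B := (pCore q (G ⧸ A)).comap π
  have hB : ¬ q ∣ B.index := by
    rw [index_comap_of_surjective _ (QuotientGroup.mk'_surjective A)]
    refine not_dvd_index_pCore_of_isPSolvable _ (IsPSolvable.quotient hs _) fun ψ => ?_
    exact H (inflateIrr π (QuotientGroup.mk'_surjective A) ψ) fun hd =>
      h2 (hd.trans (charDegree_irr_dvd_card ψ))
  let W := pPrimeCore p G ⊓ B
  have hWi : ¬ q ∣ W.index := by
    rw [← relIndex_mul_index (inf_le_right : W ≤ B), inf_relIndex_right]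
    exact hq.out.not_dvd_mul (fun hd => h1 (hd.trans (relIndex_dvd_index_of_normal _ _))) hB
  have hWp : ¬ p ∣ Nat.card W := fun hd =>
    Grp.not_dvd_card_pPrimeCore p G (hd.trans (card_dvd_of_le inf_le_left))
  let U := A ⊓ W
  have hb : ∀ T : Subgroup G, ¬ q ∣ T.index → U ≤ T → W ≤ T := by
    intro T hT hUT
    obtain ⟨k, hk⟩ := ((Grp.pCore_isPGroup q (G ⧸ A)).to_le
      (map_le_iff_le_comap.2 inf_le_right : W.map π ≤ _)).exists_card_eq
    rw [← relIndex_ker, QuotientGroup.ker_mk', ← inf_relIndex_right] at hk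
    refine relIndex_eq_one.1 (Nat.Coprime.eq_one_of_dvd ?_ (hk ▸ relIndex_dvd_of_le_left W hUT))
    exact Nat.Coprime.pow_right _ (not_dvd_iff_coprime.1 fun hd =>
      hT (hd.trans (FGS.relIndex_normal_dvd_index T W)))
  obtain ⟨Q, hQ, hQP⟩ := exists_isSyl_le_centralizer h2 P.2 hWp le_normalizer_of_normal
  have hQ' : IsSyl q Q ⊤ := isSyl_of_le_of_not_dvd hQ le_top (by rwa [relIndex_top_right])
  have hUp : ¬ p ∣ Nat.card U := fun hd => hWp (hd.trans (card_dvd_of_le inf_le_right))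
  have hQN : Q ≤ normalizer ((U ⊓ centralizer ((P : Subgroup G) : Set G) : Subgroup G) : Set G) :=
    Solv.le_normalizer_inf le_normalizer_of_normal (hQP.trans le_normalizer)
  have hd : U ⊓ centralizer ((P : Subgroup G) : Set G) ≤ centralizer (Q : Set G) := by
    refine le_centralizer_of_forall_invBy hQN (Solv.coprime_card_of_isPGroup hQ.pgrp
      (Grp.coprime_of_le_pPrimeCore (inf_le_left.trans inf_le_left)))
      (Or.inl (Solv.isSolvable_of_isPGroup hQ.pgrp)) fun ξ => ?_
    have gc := gcorr_centralizer P.2 le_normalizer_of_normal hUp rfl inf_le_left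
    have hξ := invBy_of_centralizer ξ.1 inf_le_right
    obtain ⟨θ, hθ, hm⟩ := gc.surj ξ hξ
    refine (gc.invBy_iff le_normalizer_of_normal hQN
      (fun χ hχ y => hχ.smul le_normalizer_of_normal _ (centralizer_le_normalizer _ (hQP y.2)))
      (fun χ _ y => invBy_of_centralizer _ inf_le_right) hθ hξ hm).1 ?_
    obtain ⟨χ, h3, h4⟩ := exists_over_not_dvd_of_invBy le_top le_top P.2 le_normalizer_of_normal
      (by rw [relIndex_top_right]; exact P.not_dvd_index) θ hθ
      (fun e => hUp (e.trans (charDegree_irr_dvd_card θ)))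
      (fun e => hUp (e.trans (detOrder_dvd_card _)))
    exact (invBy_iff_le_inertia _).2 (hQ.le.trans (hb _ (not_dvd_index_inertia H θ χ h3 h4)
      (le_inertia U θ.2.isClassFunction)))
  refine ⟨Q, hQ', hQP, fun T hPT hT => ?_⟩
  obtain ⟨R, hR, hRP⟩ := exists_isSyl_le_centralizer (W := T ⊓ W) h2 P.2
    (fun e => hWp (e.trans (card_dvd_of_le inf_le_right)))
    (Solv.le_normalizer_inf (hPT.trans le_normalizer) le_normalizer_of_normal)
  have hR' : IsSyl q R W := isSyl_of_le_of_not_dvd hR inf_le_right (by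
    rw [inf_relIndex_right]
    exact fun e => hT (e.trans (FGS.relIndex_normal_dvd_index T W)))
  refine (hR'.max Q hQ.pgrp (hQ.le_of_normalizes hR.pgrp hR'.le fun c hc => ?_) hQ.le).trans
    (hR.le.trans inf_le_left)
  obtain ⟨u, hu, y, hy, rfl⟩ := (mem_sup_of_normal_left (s := U) (t := Q)).1
    (hb (U ⊔ Q) (fun e => hQ'.not_dvd_relIndex (by
      rw [relIndex_top_right]; exact e.trans (index_dvd_of_le le_sup_right))) le_sup_left
      (hR'.le hc))
  exact mul_mem (centralizer_le_normalizer _ (hd ⟨hu, (mul_mem_cancel_right (hQP hy)).1 (hRP hc)⟩))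
    (le_normalizer hy)

theorem not_dvd_card_of_core (hpq : p ≠ q) (hps : IsPSolvable p G) (hqs : IsPSolvable q G)
    (hO : pPrimeCore p G = ⊥)
    (H : ∀ χ : IrrCharacter G, ¬ p ∣ charDegree χ.1 → ¬ q ∣ charDegree χ.1)
    (h1 : ¬ q ∣ (pPrimeCore p (G ⧸ pCore p G)).index)
    (h2 : ¬ p ∣ (pPrimeCore q (G ⧸ pCore p G)).index) : ¬ q ∣ Nat.card G := by
  intro hd
  set R := pCore p G with hR
  let π := QuotientGroup.mk' R
  have hπ : Function.Surjective π := QuotientGroup.mk'_surjective R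
  let P : Sylow p G := default
  have hRP : R ≤ P := Grp.pCore_le_sylow P
  obtain ⟨Q, hQ, hQP, hQT⟩ := exists_isSyl_forall_le (IsPSolvable.quotient hqs R)
    (fun ψ => H (inflateIrr π hπ ψ)) h1 h2 (P.mapSurjective hπ)
  have hQ1 : Q ≠ ⊥ := by
    rw [Ne, hQ.eq_bot_iff, not_not, card_top]
    obtain ⟨k, hk⟩ := Grp.card_pCore p G
    rw [card_eq_card_quotient_mul_card_subgroup R, hk] at hd
    exact (Nat.Coprime.pow_right k ((Nat.coprime_primes hq.out hp.out).2 hpq.symm)).dvd_of_dvd_mul_right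
      hd
  obtain ⟨⟨y, hy⟩, hy1⟩ := ne_bot_iff_exists_ne_one.1 hQ1
  obtain ⟨y, rfl⟩ := hπ y
  have hx : π (pPart q y) = π y := by
    rw [← pPart_map, pPart_eq_self_iff]
    exact orderOf_eq_pow_of_mem hQ.pgrp hy
  set x := pPart q y with hxy
  have hX : IsPGroup q (zpowers x) := isPGroup_zpowers_pPart q y
  have hXQ : ∀ a ∈ zpowers x, π a ∈ Q := fun a ha =>
    (map_le_iff_le_comap.1 (by rw [MonoidHom.map_zpowers, hx]; exact zpowers_le.2 hy) : _ ≤ Q.comap π)
      ha
  have c1 : ⁅(P : Subgroup G), zpowers x⁆ ≤ R := commutator_le.2 fun g hg a ha => by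
    rw [← QuotientGroup.ker_mk' R, MonoidHom.mem_ker, map_commutatorElement,
      commutatorElement_eq_one_iff_mul_comm]
    exact hQP (hXQ a ha) _ ⟨g, hg, rfl⟩
  have hXP : zpowers x ≤ normalizer ((P : Subgroup G) : Set G) := fun a ha =>
    mem_normalizer_fintype fun g hg => by
      have := mul_mem (inv_mem (hRP (c1 (commutator_mem_commutator hg ha)))) hg
      rwa [show ⁅g, a⁆⁻¹ * g = a * g * a⁻¹ by rw [commutatorElement_def]; group] at this
  have c2 : ⁅R, zpowers x⁆ ≤ (commutator P).map (P : Subgroup G).subtype :=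
    commutator_le.2 fun r hr a ha => by
      have hr' := (inferInstance : R.Normal).conj_mem _ (inv_mem hr) a
      refine ⟨⟨r, hRP hr⟩ * ⟨_, hRP hr'⟩, mem_commutator_of_forall_hom fun μ => ?_,
        by simp [commutatorElement_def, mul_assoc]⟩
      let θ : IrrCharacter R := ⟨_, isIrrCharacter_hom (μ.comp (inclusion hRP))⟩
      let θ' : IrrCharacter (P : Subgroup G) := ⟨_, isIrrCharacter_hom μ⟩
      obtain ⟨χ, h3, h4⟩ := exists_over_not_dvd (p := p) le_top
        (by rw [relIndex_top_right]; exact P.not_dvd_index) θ'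
        (by rw [charDegree_eq_of_one_eq (n := 1) (by simp [θ'])]; exact hp.out.not_dvd_one)
      have h5 := not_dvd_index_inertia H θ χ (nmult_trans_ne_zero le_top hRP χ.2.isCharacter θ'
        θ.2.isCharacter (fun e => h3 (e ▸ dvd_zero p))
        (by rw [nmult_eq_one_of_extends hRP θ' θ fun _ => rfl]; exact one_ne_zero)) h4
      have h6 : (P : Subgroup G) ≤ inertia R θ.1 := (invBy_iff_le_inertia _).1
        ((invBy_self θ'.2.isClassFunction).restrict hRP)
      have h7 := hQT ((inertia R θ.1).map π) (map_mono h6)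
        (fun e => h5 (e.trans (index_map_dvd _ hπ))) (hXQ a ha)
      have h8 : a ∈ ((inertia R θ.1).map π).comap π := h7
      rw [comap_map_eq, QuotientGroup.ker_mk', sup_eq_left.2 (hRP.trans h6)] at h8
      have h9 := Units.ext ((mem_inertia' R).1 h8 ⟨r⁻¹, inv_mem hr⟩)
      rw [map_mul]
      refine mul_eq_one_iff_eq_inv'.2 (h9.trans ?_)
      rw [← map_inv]; rfl
  have hcop : (Nat.card (zpowers x)).Coprime p := Grp.coprime_card_of_isPGroup_of_ne hpq.symm hX
  have c3 := Solv.coprime_commutator_commutator (zpowers x) P hXP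
    (Solv.coprime_card_of_isPGroup P.2 hcop) (Or.inl (Solv.isSolvable_of_isPGroup hX))
  have c4 : zpowers x ≤ centralizer ((P : Subgroup G) : Set G) := by
    refine Solv.le_centralizer_of_frattini _ _
      (Solv.coprime_card_of_isPGroup (P.2.to_subgroup _) hcop)
      fun a ha k hk => map_mono (Grp.PFrattini.commutator_le_frattini P.2) ?_
    rw [← commutatorElement_def, ← commutatorElement_inv]
    exact inv_mem (c2 (commutator_mono c1 le_rfl (c3.ge (commutator_mem_commutator hk ha))))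
  have c5 : x ∈ R := centralizer_pCore_le_of_isPSolvable hps hO
    (centralizer_le hRP (c4 (mem_zpowers x)))
  exact hy1 (Subtype.ext (hx.symm.trans ((QuotientGroup.eq_one_iff x).2 c5)))

/-- Characters of `G / O_{p'}(G)` of `p'`-degree have `q'`-degree. -/
def DegHyp (p q : ℕ) (G : Type*) [Group G] : Prop :=
  ∀ χ : IrrCharacter G, pPrimeCore p G ≤ charKer χ.1 → ¬ p ∣ charDegree χ.1 → ¬ q ∣ charDegree χ.1

theorem DegHyp.quot (h : DegHyp p q G) (N : Subgroup G) [N.Normal] : DegHyp p q (G ⧸ N) :=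
  fun ψ hψ => h (inflateIrr _ (QuotientGroup.mk'_surjective N) ψ) fun x hx =>
    (mem_charKer_irr _).2 ((mem_charKer_irr ψ).1 (hψ
      (Grp.map_pPrimeCore_le_of_surjective p _ (QuotientGroup.mk'_surjective N) ⟨x, hx, rfl⟩)))

theorem not_dvd_index_pPrimeCore (n : ℕ) : ∀ (p q : ℕ) [Fact p.Prime] [Fact q.Prime]
    (G : Type u) [Group G] [Finite G], Nat.card G = n → p ≠ q → IsPSolvable p G →
    IsPSolvable q G → DegHyp p q G → DegHyp q p G → ¬ q ∣ (pPrimeCore p G).index := by
  induction n using Nat.strong_induction_on with | _ n ih => ?_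
  intro p q _ hq G _ _ hn hpq hps hqs H H'
  subst hn
  have hlt : ∀ (N : Subgroup G) [N.Normal], N ≠ ⊥ → Nat.card (G ⧸ N) < Nat.card G :=
    fun N _ hN => by
      rw [card_eq_card_quotient_mul_card_subgroup N]
      exact lt_mul_of_one_lt_right Nat.card_pos (N.one_lt_card_iff_ne_bot.2 hN)
  by_cases hO : pPrimeCore p G = ⊥
  · rcases subsingleton_or_nontrivial G with h | h
    · rw [Subsingleton.elim (pPrimeCore p G) ⊤, index_top]
      exact hq.out.not_dvd_one
    have hR := (IsPSolvable.pCore_ne_bot_or hps).resolve_right (not_not.2 hO)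
    rw [hO, index_bot]
    exact not_dvd_card_of_core hpq hps hqs hO (fun χ => H χ (hO ▸ bot_le))
      (ih _ (hlt _ hR) p q _ rfl hpq (IsPSolvable.quotient hps _) (IsPSolvable.quotient hqs _)
        (H.quot _) (H'.quot _))
      (ih _ (hlt _ hR) q p _ rfl hpq.symm (IsPSolvable.quotient hqs _) (IsPSolvable.quotient hps _)
        (H'.quot _) (H.quot _))
  · have := ih _ (hlt _ hO) p q _ rfl hpq (IsPSolvable.quotient hps _) (IsPSolvable.quotient hqs _)
      (H.quot _) (H'.quot _)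
    rwa [Grp.pPrimeCore_quotient_pPrimeCore, index_bot] at this

theorem not_dvd_index_of_comm (hpq : p ≠ q) (hps : IsPSolvable p G) (P : Sylow p G)
    (Q : Sylow q G) (h : ∀ x ∈ (P : Subgroup G), ∀ y ∈ (Q : Subgroup G), x * y = y * x) :
    ¬ q ∣ (pPrimeCore p G).index := by
  refine fun hd => Q.not_dvd_index (hd.trans (index_dvd_of_le fun y hy => ?_))
  let π := QuotientGroup.mk' (pPrimeCore p G)
  have hπ : Function.Surjective π := QuotientGroup.mk'_surjective _
  have h1 : π y ∈ pCore p _ := centralizer_pCore_le_of_isPSolvable (IsPSolvable.quotient hps _)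
    (Grp.pPrimeCore_quotient_pPrimeCore p G) fun z hz => by
      obtain ⟨x, hx, rfl⟩ := Grp.pCore_le_sylow (P.mapSurjective hπ) hz
      rw [← map_mul, h x hx y hy, map_mul]
  have h2 : π y ∈ pCore p _ ⊓ (Q : Subgroup G).map π := ⟨h1, y, hy, rfl⟩
  rw [Grp.inf_eq_bot_of_isPGroup_of_coprime (Grp.pCore_isPGroup p _)
    (Grp.coprime_card_of_isPGroup_of_ne hpq.symm (Q.2.map π)), mem_bot] at h2
  exact (QuotientGroup.eq_one_iff y).1 h2

end Cfsg.Agent.Block
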